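import Cfsg.Agent.SpecSix.Locals

/-!
# Characteristic 2 type: no elements of order six

The two facts proved in other files (no covering local; a parabolic with top `S₃` normalises the
core of one with top `D₁₀` or `A₅`) enter as hypotheses.
-/

set_option autoImplicit false
set_option linter.unusedSectionVars false
set_option linter.style.haveILetI false

namespace CfsgLib.SpecSix

open Cfsg
open CfsgLib.SpecFive (Elem A5 eq_one_of_pow_coprime)

universe u

variable {G : Type u} [Group G] [Finite G]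

theorem a5_exists_five : ∃ y : A5, y ^ 5 = 1 ∧ y ≠ 1 :=
  ⟨SpecFive.a5y, SpecFive.a5_five_inverted.1, SpecFive.a5_five_inverted.2.1⟩

theorem Par5.exists_five_elem {T P : Subgroup G} (hP : Par5 T P) :
    ∃ f ∈ P, f ^ 5 = 1 ∧ f ≠ 1 := by
  haveI := Fact.mk Nat.prime_five
  have h5 : 5 ∣ Nat.card P := by
    rcases hP.top with e | ⟨⟨e⟩⟩
    · rw [e]; exact Dvd.dvd.mul_right (by norm_num) _
    · rw [Subgroup.card_eq_card_quotient_mul_card_subgroup (pCore 2 P), Nat.card_congr e.toEquiv,
        SpecFive.natCard_A5]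
      exact Dvd.dvd.mul_right (by norm_num) _
  obtain ⟨f, hf⟩ := exists_prime_orderOf_dvd_card' 5 h5
  refine ⟨f, f.2, congrArg Subtype.val (show f ^ 5 = 1 by rw [← hf, pow_orderOf_eq_one]), fun e => ?_⟩
  rw [show f = 1 from Subtype.ext e, orderOf_one] at hf
  norm_num at hf

/-- The elements of the normaliser of a Sylow 2-subgroup with a frame fix both parts. -/
theorem TwoFrame.normalizer_le (S : Sylow 2 G) {A₁ A₂ : Subgroup G}
    (F : TwoFrame (S : Subgroup G) A₁ A₂) :
    Subgroup.normalizer ((S : Subgroup G) : Set G) ≤ Subgroup.normalizer (A₁ : Set G) := by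
  haveI : Fact (Nat.Prime 2) := ⟨Nat.prime_two⟩
  set N := Subgroup.normalizer ((S : Subgroup G) : Set G) with hN
  set K := N ⊓ Subgroup.normalizer (A₁ : Set G) with hK
  have hSK : (S : Subgroup G) ≤ K := fun s hs =>
    ⟨Subgroup.le_normalizer hs, mem_normalizer_of_conj_mem fun a ha => F.conj_mem hs ha⟩
  have hcases : ∀ u ∈ N, A₁.map (MulAut.conj u).toMonoidHom = A₁ ∨
      A₁.map (MulAut.conj u).toMonoidHom = A₂ := fun u hu =>
    F.map_cases fun t ht => (Subgroup.mem_normalizer_iff.1 hu t).1 ht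
  by_contra hle
  obtain ⟨v, hv, hvA⟩ := SetLike.not_le_iff_exists.1 hle
  have hsw : A₁.map (MulAut.conj v).toMonoidHom = A₂ :=
    (hcases v hv).resolve_left fun e => hvA (SpecFive.mem_normalizer_of_map_eq e)
  have hidx : (K.subgroupOf N).index = 2 := by
    rw [Subgroup.index_eq_two_iff]
    refine ⟨⟨v, hv⟩⁻¹, fun u => ?_⟩
    have hmem : ∀ w : N, w ∈ K.subgroupOf N ↔ A₁.map (MulAut.conj (w : G)).toMonoidHom = A₁ := fun w =>
      ⟨fun h => map_conj_eq_of_mem_normalizer h.2,
        fun h => ⟨w.2, SpecFive.mem_normalizer_of_map_eq h⟩⟩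
    have comp : ∀ a c : G,
        (A₁.map (MulAut.conj a).toMonoidHom).map (MulAut.conj c).toMonoidHom =
          A₁.map (MulAut.conj (c * a)).toMonoidHom := fun a c => by
      rw [Subgroup.map_map, map_mul]; rfl
    have hinv : A₁.map (MulAut.conj v⁻¹).toMonoidHom = A₂ := by
      refine (hcases v⁻¹ (N.inv_mem hv)).resolve_left fun e => hvA ?_
      have := SpecFive.mem_normalizer_of_map_eq e
      exact (inv_inv v) ▸ Subgroup.inv_mem _ this
    have hback : A₂.map (MulAut.conj v).toMonoidHom = A₁ := by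
      rw [← hinv, comp, mul_inv_cancel, map_one]; exact Subgroup.map_id _
    rw [hmem, hmem]
    simp only [Subgroup.coe_mul, InvMemClass.coe_inv]
    have e2 : A₁.map (MulAut.conj ((u : G) * v⁻¹)).toMonoidHom =
        A₂.map (MulAut.conj (u : G)).toMonoidHom := by rw [← comp, hinv]
    have e1 : A₁.map (MulAut.conj (u : G)).toMonoidHom ≠ A₂.map (MulAut.conj (u : G)).toMonoidHom :=
      fun e => F.ne (Subgroup.map_injective (MulAut.conj (u : G)).injective e)
    rw [e2]
    rcases hcases u u.2 with e | e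
    · exact Or.inr ⟨e, fun e' => e1 (e.trans e'.symm)⟩
    · refine Or.inl ⟨?_, fun e' => F.ne (e'.symm.trans e)⟩
      rcases F.symm.map_cases (u := (u : G)) fun t ht => (Subgroup.mem_normalizer_iff.1 u.2 t).1 ht with
        e3 | e3
      · exact absurd (e.trans e3.symm) e1
      · exact e3
  have h1 : (S : Subgroup G).relIndex N = (S : Subgroup G).relIndex K * K.relIndex N :=
    (Subgroup.relIndex_mul_relIndex _ _ _ hSK inf_le_left).symm
  rw [show K.relIndex N = 2 from hidx] at h1
  exact sylow_odd_relIndex S Subgroup.le_normalizer (h1 ▸ dvd_mul_left 2 _)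

theorem exists_notMem_finset {α : Type*} [Fintype α] {s : Finset α} (h : s.card < Fintype.card α) :
    ∃ a, a ∉ s := by
  by_contra hh
  push Not at hh
  exact absurd (Finset.eq_univ_iff_forall.2 hh ▸ h : (Finset.univ : Finset α).card < Fintype.card α)
    (lt_irrefl _)

theorem mul_zpow_self_eq {z : G} (hz : z * z = 1) {m : ℤ} : (1 : G) = z ^ m * z ^ m := by
  rw [← zpow_add, ← two_mul, zpow_mul, show (2 : ℤ) = ((2 : ℕ) : ℤ) from rfl, zpow_natCast, pow_two,
    hz, one_zpow]
theorem frame_cards (h : Ord6 G) {S' : Subgroup G} {P A : Subgroup G} (hP : Par5 S' P)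
    (h16 : Nat.card (pCoreOf 2 P) = 16) (hi : Nonempty (↥P ⧸ pCore 2 ↥P ≃* A5))
    (F : TwoFrame S' (pCoreOf 2 P) A) :
    Nat.card S' = 64 ∧ Nat.card (pCoreOf 2 P ⊓ A : Subgroup G) = 4 := by
  obtain ⟨e⟩ := id hi
  have h4 : Nat.card (pCoreOf 2 P ⊓ A : Subgroup G) = 4 :=
    Par5.frame_card_inter hP h h16 (e.toMonoidHom.comp (QuotientGroup.mk' _))
      (e.surjective.comp (QuotientGroup.mk'_surjective _))
      (fun g => by rw [← Par5.mem_core_iff, ← QuotientGroup.eq_one_iff]; exact e.map_eq_one_iff) F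
  refine ⟨?_, h4⟩
  rcases hP.card_T with e' | ⟨e', -⟩
  · exfalso
    have h1 := card_inf_mul_relIndex A (pCoreOf 2 P)
    rw [inf_comm, h4, ← F.card_eq, h16] at h1
    have h2' : (pCoreOf 2 P).relIndex A ≤ (pCoreOf 2 P).relIndex S' :=
      Subgroup.relIndex_le_of_le_right F.le₂ (fun e0 => by
        have h3 := card_inf_mul_relIndex S' (pCoreOf 2 P)
        rw [e0, mul_zero, e', h16] at h3
        omega)
    have h3 := card_inf_mul_relIndex S' (pCoreOf 2 P)
    rw [inf_eq_right.2 hP.core_le_base, h16, e', h16] at h3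
    omega
  · rw [e', h16]

theorem dihedral_four_cyclic :
    ∀ c d : DihedralGroup 4, c * c ≠ 1 → d * d ≠ 1 → d = c ∨ d = c⁻¹ := by decide +kernel

variable [IsSimpleGroup G] (hna : ¬ IsMulCommutative G) (h : Ord6 G)
  (hrec : NoSixBelow.{u} (Nat.card G)) (h2 : IsCharacteristicTwoType G)
include hna h hrec h2

/-- With a dihedral Sylow 2-subgroup of order eight no involution commutes with an element of order
three. -/
theorem no_six_of_dihedral (S : Sylow 2 G) (e : (S : Subgroup G) ≃* DihedralGroup 4)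
    {A₁ A₂ : Subgroup G} (F : TwoFrame (S : Subgroup G) A₁ A₂) (g : G) : orderOf g ≠ 6 := by
  haveI : Fact (Nat.Prime 2) := ⟨Nat.prime_two⟩
  -- a central involution
  set z : G := ((e.symm (DihedralGroup.r 2) : (S : Subgroup G)) : G) with hz
  have hz2 : z * z = 1 := by
    rw [hz, ← Subgroup.coe_mul, ← map_mul, DihedralGroup.r_mul_r,
      show ((2 : ZMod 4) + 2) = 0 from rfl, DihedralGroup.r_zero, map_one, Subgroup.coe_one]
  have hz1 : z ≠ 1 := fun h0 => by
    have : e.symm (DihedralGroup.r 2) = 1 := Subtype.ext h0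
    have := e.symm.injective (this.trans e.symm.map_one.symm)
    exact absurd this (by decide)
  have hzc : ∀ s ∈ (S : Subgroup G), Commute z s := by
    intro s hs
    have key : ∀ d : DihedralGroup 4, DihedralGroup.r 2 * d = d * DihedralGroup.r 2 := by decide
    have := congrArg (fun d => ((e.symm d : (S : Subgroup G)) : G)) (key (e ⟨s, hs⟩))
    simp only [map_mul, e.symm_apply_apply, Subgroup.coe_mul] at this
    exact this
  have hX : IsPGroup 2 (Subgroup.zpowers z) := by
    refine IsPGroup.of_card (n := 1) ?_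
    rw [Nat.card_zpowers, pow_one]
    exact orderOf_eq_prime (by rw [pow_two]; exact hz2) hz1
  have hX1 : Subgroup.zpowers z ≠ ⊥ := fun e0 => hz1 (Subgroup.zpowers_eq_bot.1 e0)
  set L := Subgroup.normalizer (Subgroup.zpowers z : Set G) with hL
  have hSL : (S : Subgroup G) ≤ L := fun s hs => mem_normalizer_of_conj_mem fun x hx => by
    obtain ⟨k, rfl⟩ := Subgroup.mem_zpowers_iff.1 hx
    rw [((hzc s hs).zpow_left k).eq.symm, mul_inv_cancel_right]
    exact Subgroup.zpow_mem _ (Subgroup.mem_zpowers z) k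
  have hcL := local_cent hna h2 hX hX1
  set O := pCoreOf 2 L with hO
  have hOS : O ≤ S := pCoreOf_le_of_odd hSL S.isPGroup' (sylow_odd_relIndex S hSL)
  have hzO : z ∈ O := le_pCoreOf_of Subgroup.le_normalizer hX
    (fun g hg x hx => (Subgroup.mem_normalizer_iff.1 hg x).1 hx) (Subgroup.mem_zpowers z)
  have hkey : ∀ y : G, y ^ 3 = 1 → Commute z y → y = 1 := by
    intro y hy hyz
    by_contra hy1
    have hyL : y ∈ L := mem_normalizer_of_conj_mem fun x hx => by
      obtain ⟨k, rfl⟩ := Subgroup.mem_zpowers_iff.1 hx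
      rw [← (hyz.zpow_left k).eq, mul_inv_cancel_right]
      exact Subgroup.zpow_mem _ (Subgroup.mem_zpowers z) k
    have hyO : ∀ o ∈ O, y * o * y⁻¹ ∈ O := fun o ho => pCoreOf_conj_mem hyL ho
    refine hy1 (eq_one_of_two_three (isPGroup_pCoreOf L)
      (hcL ⟨Subgroup.mem_centralizer_iff.2 fun o ho => ?_, hyL⟩) hy)
    by_cases hel : ∀ c ∈ O, c * c = 1
    · -- `O` is elementary of order at most four
      have hOe : Elem O := ⟨fun a ha b hb => by
        show a * b = b * a
        calc a * b = (a * b)⁻¹ := (inv_eq_of_mul_eq_one_right (hel _ (O.mul_mem ha hb))).symm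
          _ = b * a := by
            rw [mul_inv_rev, inv_eq_of_mul_eq_one_right (hel a ha), inv_eq_of_mul_eq_one_right (hel b hb)],
        hel⟩
      have hA : ∀ A : Subgroup G, A ≤ S → Elem A → Nat.card A ≤ 4 := by
        intro A hAS hAe
        have key : ∀ a b c : DihedralGroup 4, a * a = 1 → b * b = 1 → c * c = 1 → a * b = b * a →
            a * c = c * a → b * c = c * b → a ≠ 1 → b ≠ 1 → b ≠ a → c = 1 ∨ c = a ∨ c = b ∨ c = a * b := by
          decide +kernel
        by_contra hlt
        haveI := Fintype.ofFinite A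
        rw [Nat.card_eq_fintype_card] at hlt
        classical
        have : ∃ a b c : A, a ≠ 1 ∧ b ≠ 1 ∧ b ≠ a ∧ c ≠ 1 ∧ c ≠ a ∧ c ≠ b ∧ c ≠ a * b := by
          obtain ⟨a, ha⟩ := Fintype.exists_ne_of_one_lt_card (show 1 < Fintype.card A by omega) 1
          obtain ⟨b, hb⟩ : ∃ b, b ∉ ({1, a} : Finset A) := exists_notMem_finset
            (by have := Finset.card_le_two (a := (1 : A)) (b := a); omega)
          obtain ⟨c, hc⟩ : ∃ c, c ∉ ({1, a, b, a * b} : Finset A) := exists_notMem_finset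
            (by have := Finset.card_le_four (a := (1 : A)) (b := a) (c := b) (d := a * b); omega)
          simp only [Finset.mem_insert, Finset.mem_singleton, not_or] at hb hc
          exact ⟨a, b, c, ha, hb.1, hb.2, hc.1, hc.2.1, hc.2.2.1, hc.2.2.2⟩
        obtain ⟨a, b, c, ha, hb, hba, hc1, hca, hcb, hcab⟩ := this
        let j : A →* DihedralGroup 4 := e.toMonoidHom.comp (Subgroup.inclusion hAS)
        have hj : Function.Injective j := e.injective.comp (Subgroup.inclusion_injective hAS)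
        have hsq : ∀ x : A, j x * j x = 1 := fun x => by
          rw [← map_mul, show x * x = 1 from Subtype.ext (hAe.2 x x.2), map_one]
        have hcm : ∀ x w : A, j x * j w = j w * j x := fun x w => by
          rw [← map_mul, ← map_mul, show x * w = w * x from Subtype.ext (hAe.1 x x.2 w w.2).eq]
        rcases key (j a) (j b) (j c) (hsq a) (hsq b) (hsq c) (hcm a b) (hcm a c) (hcm b c)
          (fun e0 => ha (hj (e0.trans (map_one j).symm))) (fun e0 => hb (hj (e0.trans (map_one j).symm)))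
          (fun e0 => hba (hj e0)) with h' | h' | h' | h'
        · exact hc1 (hj (h'.trans (map_one j).symm))
        · exact hca (hj h')
        · exact hcb (hj h')
        · exact hcab (hj (h'.trans (map_mul j a b).symm))
      -- `y` fixes `z` and has no further room
      by_contra hne
      have hfix : ∀ w ∈ O, w ≠ 1 → w ≠ z → False := by
        intro w hw hw1 hwz
        let X : Set G := (O : Set G) \ {1, z}
        have hX2 : Nat.card X ≤ 2 := by
          rw [Nat.card_coe_set_eq, Set.ncard_sdiff (by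
            rintro x (rfl | rfl)
            exacts [O.one_mem, hzO]), Set.ncard_pair (Ne.symm hz1), ← Nat.card_coe_set_eq]
          show Nat.card O - 2 ≤ 2
          have := hA O hOS hOe
          omega
        have hXpos : 0 < Nat.card X := by
          haveI : Nonempty X := ⟨⟨w, hw, by simp [hw1, hwz]⟩⟩
          exact Nat.card_pos
        have hX3 : ¬ 3 ∣ Nat.card X := fun hd => by
          have := Nat.le_of_dvd hXpos hd
          omega
        obtain ⟨v, ⟨hvO, hv⟩, hvc⟩ := SpecFive.exists_fixed Nat.prime_three hy X (fun x hx => by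
          refine ⟨hyO x hx.1, ?_⟩
          rintro (e0 | e0)
          · exact hx.2 (Or.inl (conj_eq_one_iff.1 e0))
          · refine hx.2 (Or.inr ?_)
            have : y * x * y⁻¹ = y * z * y⁻¹ := by rw [e0, ← hyz.eq, mul_inv_cancel_right]
            simpa using this) hX3
        have hv1 : v ≠ 1 := fun e0 => hv (Or.inl e0)
        have hvz : v ≠ z := fun e0 => hv (Or.inr e0)
        refine hne ?_
        by_cases h1 : o = 1
        · rw [h1, one_mul, mul_one]
        by_cases h2' : o = z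
        · rw [h2']; exact hyz.eq
        by_cases h3 : o = v
        · rw [h3]; exact hvc.eq.symm
        haveI := Fintype.ofFinite O
        classical
        have hall : o = z * v := by
          by_contra h4
          have h4le := hA O hOS hOe
          rw [Nat.card_eq_fintype_card] at h4le
          have : ({1, ⟨z, hzO⟩, ⟨v, hvO⟩, ⟨z * v, O.mul_mem hzO hvO⟩, ⟨o, ho⟩} : Finset O).card ≤ 4 :=
            (Finset.card_le_univ _).trans h4le
          have n1 : z * v ≠ 1 := fun e0 => hvz ((eq_inv_of_mul_eq_one_right e0).trans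
            (inv_eq_of_mul_eq_one_right hz2))
          have n2 : z * v ≠ z := fun e0 => hv1 (mul_eq_left.1 e0)
          have n3 : z * v ≠ v := fun e0 => hz1 (mul_eq_right.1 e0)
          simp [Finset.card_insert_of_notMem, Subtype.ext_iff, Ne.symm hz1, Ne.symm hv1, Ne.symm hvz,
            Ne.symm n1, Ne.symm n2, Ne.symm n3, Ne.symm h1, Ne.symm h2', Ne.symm h3, Ne.symm h4] at this
        rw [hall]
        exact (hyz.symm.mul_right hvc).eq.symm
      by_cases h1 : o = 1
      · exact hne (by rw [h1, one_mul, mul_one])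
      by_cases h2' : o = z
      · exact hne (by rw [h2']; exact hyz.eq)
      exact hfix o ho h1 h2'
    · exfalso
      push Not at hel
      obtain ⟨c, hc, hc2⟩ := hel
      have hconj : ∀ d ∈ O, d * d ≠ 1 → d = c ∨ d = c⁻¹ := by
        intro d hd hd2
        rcases dihedral_four_cyclic (e ⟨c, hOS hc⟩) (e ⟨d, hOS hd⟩)
          (fun e0 => hc2 (congrArg Subtype.val (e.injective ((map_mul e _ _).trans (e0.trans e.map_one.symm)))))
          (fun e0 => hd2 (congrArg Subtype.val (e.injective ((map_mul e _ _).trans (e0.trans e.map_one.symm)))))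
          with e0 | e0
        · exact Or.inl (congrArg Subtype.val (e.injective e0))
        · exact Or.inr (congrArg Subtype.val (e.injective (e0.trans (map_inv e _).symm)))
      have hne : ∀ d, d * d ≠ 1 → (y * d * y⁻¹) * (y * d * y⁻¹) ≠ 1 := fun d hd e0 => by
        rw [conj_mul] at e0
        exact hd (conj_eq_one_iff.1 e0)
      rcases hconj _ (hyO c hc) (hne c hc2) with e0 | e0
      · have h6 := h.commute_three hy hy1 (mul_inv_eq_iff_eq_mul.1 e0)
        have h4 := h.pow_two_group S.isPGroup' (hOS hc)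
        have := pow_gcd_eq_one.mpr ⟨h6, h4⟩
        exact hc2 (by rw [← pow_two]; exact this)
      · have e1 : y * (y * c * y⁻¹) * y⁻¹ = c := by rw [e0, ← conj_inv, e0, inv_inv]
        have e2 : y ^ 3 * c * (y ^ 3)⁻¹ = c⁻¹ := by
          rw [show y ^ 3 * c * (y ^ 3)⁻¹ = y * (y * (y * c * y⁻¹) * y⁻¹) * y⁻¹ by
            simp only [pow_succ, pow_zero, one_mul]; group, e1, e0]
        rw [hy, one_mul, inv_one, mul_one] at e2
        exact hc2 (by nth_rewrite 2 [e2]; exact mul_inv_cancel c)
  -- all involutions are conjugate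
  have hres : Cfsg.pResidual 2 G = ⊤ := pResidual_two_eq_top hna
  refine no_six_of_centralizers S (fun t _ ht2 ht1 y hy hty => ?_) g
  obtain ⟨c, hc⟩ := Cfsg.Agent.S0107.result S 2 le_rfl ⟨e⟩ hres t z
    (orderOf_eq_prime (by rw [pow_two]; exact ht2) ht1) (orderOf_eq_prime (by rw [pow_two]; exact hz2) hz1)
  have hcy : Commute z (c * y * c⁻¹) := by
    rw [← hc]
    show c * t * c⁻¹ * (c * y * c⁻¹) = c * y * c⁻¹ * (c * t * c⁻¹)
    calc c * t * c⁻¹ * (c * y * c⁻¹) = c * (t * y) * c⁻¹ := by group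
      _ = c * (y * t) * c⁻¹ := by rw [hty.eq]
      _ = _ := by group
  exact conj_eq_one_iff.1 (hkey _ (by rw [conj_pow, hy, mul_one, mul_inv_cancel]) hcy)
where
  pResidual_two_eq_top (hna : ¬ IsMulCommutative G) : Cfsg.pResidual 2 G = ⊤ := by
    haveI : Fact (Nat.Prime 2) := ⟨Nat.prime_two⟩
    have hn : (Cfsg.pResidual 2 G).Normal := ⟨fun x hx g => by
      unfold Cfsg.pResidual at hx ⊢
      induction hx using Subgroup.closure_induction with
      | mem w hw =>
        refine Subgroup.subset_closure ?_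
        show Nat.Coprime (orderOf (g * w * g⁻¹)) 2
        rw [show g * w * g⁻¹ = MulAut.conj g w from rfl, MulEquiv.orderOf_eq]
        exact hw
      | one => rw [mul_one, mul_inv_cancel]; exact Subgroup.one_mem _
      | mul a b _ _ iha ihb =>
        rw [← conj_mul]
        exact Subgroup.mul_mem _ iha ihb
      | inv a _ iha => rw [← conj_inv]; exact Subgroup.inv_mem _ iha⟩
    refine (IsSimpleGroup.eq_bot_or_eq_top_of_normal _ hn).resolve_left fun e => hna ?_
    have hp : IsPGroup 2 G := by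
      intro x
      obtain ⟨k, m, hm, hkm⟩ := Nat.exists_eq_pow_mul_and_not_dvd (orderOf_pos x).ne' 2 (by norm_num)
      refine ⟨k, Subgroup.mem_bot.1 (e ▸ Subgroup.subset_closure (?_ : Nat.Coprime (orderOf (x ^ 2 ^ k)) 2))⟩
      rw [orderOf_pow_of_dvd (by positivity) (hkm ▸ dvd_mul_right _ _), hkm,
        Nat.mul_div_cancel_left _ (by positivity)]
      exact ((Nat.Prime.coprime_iff_not_dvd Nat.prime_two).2 hm).symm
    haveI := hp.isNilpotent
    exact ⟨⟨IsSimpleGroup.comm_iff_isSolvable.2 inferInstance⟩⟩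

/-- A frame over a Sylow 2-subgroup with both parts cores of parabolics: no element of order six. -/
theorem no_six_of_frames (S : Sylow 2 G) {P P' : Subgroup G} (hP : Par5 (S : Subgroup G) P)
    (hP' : Par5 (S : Subgroup G) P') (h16 : Nat.card (pCoreOf 2 P) = 16)
    (hi : Nonempty (↥P ⧸ pCore 2 ↥P ≃* A5)) (hi' : Nonempty (↥P' ⧸ pCore 2 ↥P' ≃* A5))
    (F : TwoFrame (S : Subgroup G) (pCoreOf 2 P) (pCoreOf 2 P')) (g : G) : orderOf g ≠ 6 := by
  haveI : Fact (Nat.Prime 2) := ⟨Nat.prime_two⟩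
  have hS64 : Nat.card (S : Subgroup G) = 64 ∧ Nat.card (pCoreOf 2 P ⊓ pCoreOf 2 P' : Subgroup G) = 4 :=
    frame_cards h hP h16 hi F
  have h16' : Nat.card (pCoreOf 2 P') = 16 := F.card_eq ▸ h16
  have hno3 : ∀ Q, Par3 (S : Subgroup G) Q → False := fun Q hQ => F.not_par3 hS64.1 h16 hS64.2 hQ
  -- involutions of `Z` and elements of order three
  have hkey : ∀ z ∈ pCoreOf 2 P ⊓ pCoreOf 2 P', z ≠ 1 → ∀ y : G, y ^ 3 = 1 → Commute z y → y = 1 := by
    intro z hzZ hz1 y hy hzy
    have hzS : ∀ s ∈ (S : Subgroup G), Commute z s := fun s hs => F.center hzZ.1 hzZ.2 hs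
    have hz2 : z * z = 1 := F.elem₁.2 z hzZ.1
    have hX : IsPGroup 2 (Subgroup.zpowers z) := by
      refine IsPGroup.of_card (n := 1) ?_
      rw [Nat.card_zpowers, pow_one]
      exact orderOf_eq_prime (by rw [pow_two]; exact hz2) hz1
    have hX1 : Subgroup.zpowers z ≠ ⊥ := fun e => hz1 (Subgroup.zpowers_eq_bot.1 e)
    set L := Subgroup.normalizer (Subgroup.zpowers z : Set G) with hL
    have hmemL : ∀ g : G, Commute z g → g ∈ L := fun g hg => mem_normalizer_of_conj_mem fun x hx => by
      obtain ⟨k, rfl⟩ := Subgroup.mem_zpowers_iff.1 hx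
      rw [← (hg.zpow_left k).eq, mul_inv_cancel_right]
      exact Subgroup.zpow_mem _ (Subgroup.mem_zpowers z) k
    have hLc : ∀ g ∈ L, Commute z g := by
      intro g hg
      obtain ⟨k, hk⟩ := Subgroup.mem_zpowers_iff.1
        ((Subgroup.mem_normalizer_iff.1 hg z).1 (Subgroup.mem_zpowers z))
      rcases Int.even_or_odd k with ⟨m, rfl⟩ | ⟨m, rfl⟩
      · exfalso
        rw [zpow_add, ← mul_zpow_self_eq hz2] at hk
        exact hz1 (conj_eq_one_iff.1 hk.symm)
      · rw [zpow_add_one, two_mul, zpow_add, ← mul_zpow_self_eq hz2, one_mul] at hk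
        exact (mul_inv_eq_iff_eq_mul.1 hk.symm).symm
    have hSL : (S : Subgroup G) ≤ L := fun s hs => hmemL s (hzS s hs)
    have hLN : L ≤ Subgroup.normalizer ((S : Subgroup G) : Set G) :=
      le_of_parabolics h hrec (normalizer_ne_top hna hX hX1) hSL S.isPGroup' (sylow_odd_relIndex S hSL)
        (local_cent hna h2 hX hX1) inf_le_right (fun Q hQ _ => (hno3 Q hQ).elim) fun Q hQ hle => by
          obtain ⟨f, hfQ, hf5, hf1⟩ := hQ.exists_five_elem
          have := h.commute_five hf5 hf1 (hLc f (hle hfQ)).symm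
          exact absurd (eq_one_of_pow_coprime (show Nat.Coprime 5 2 by norm_num) this
            (by rw [pow_two]; exact hz2)) hz1
    have hyN : y ∈ Subgroup.normalizer (pCoreOf 2 P : Set G) := F.normalizer_le S (hLN (hmemL y hzy))
    -- the normaliser of the core is the parabolic
    set M := Subgroup.normalizer (pCoreOf 2 P : Set G) with hM
    have hO1 : pCoreOf 2 P ≠ ⊥ := fun e => by
      rw [e, Subgroup.card_bot] at h16
      norm_num at h16
    have hPM : P ≤ M := le_normalizer_core 2 P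
    have hSM : (S : Subgroup G) ≤ M := hP.le.trans hPM
    have hMO : pCoreOf 2 M = pCoreOf 2 P := by
      refine le_antisymm (le_pCoreOf_of ?_ (isPGroup_pCoreOf M) fun g hg x hx =>
        pCoreOf_conj_mem (hPM hg) hx)
        (le_pCoreOf_of Subgroup.le_normalizer (isPGroup_pCoreOf P) fun g hg x hx =>
          (Subgroup.mem_normalizer_iff.1 hg x).1 hx)
      exact (pCoreOf_le_of_odd hSM S.isPGroup' (sylow_odd_relIndex S hSM)).trans hP.le
    have hMne := normalizer_ne_top hna (isPGroup_pCoreOf P) hO1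
    have hMc := local_cent hna h2 (isPGroup_pCoreOf P) hO1
    have hcardP : Nat.card P = 60 * 16 := by
      obtain ⟨e⟩ := hi
      rw [Subgroup.card_eq_card_quotient_mul_card_subgroup (pCore 2 P), Nat.card_congr e.toEquiv,
        SpecFive.natCard_A5, ← card_pCoreOf, h16]
    have hPeq : P = M := by
      refine Subgroup.eq_of_le_of_card_ge hPM ?_
      have hcM : Nat.card M = Nat.card (M ⧸ pCore 2 M) * 16 := by
        rw [Subgroup.card_eq_card_quotient_mul_card_subgroup (pCore 2 M), ← card_pCoreOf, hMO, h16]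
      rw [hcardP, hcM]
      rcases topCases (h.subgroup M) (cent_pCore hMc) (hrec.of_ne_top hMne) with
        ⟨Q, hQ⟩ | e | ⟨e, -⟩ | ⟨⟨e⟩, -⟩
      · exfalso
        obtain ⟨f, hfP, hf5, hf1⟩ := hP.exists_five_elem
        have h6 := hQ.six (QuotientGroup.mk' (pCore 2 M) ⟨f, hPM hfP⟩)
        have h5 : QuotientGroup.mk' (pCore 2 M) ⟨f, hPM hfP⟩ ^ 5 = 1 := by
          rw [← map_pow, show (⟨f, hPM hfP⟩ : M) ^ 5 = 1 from Subtype.ext hf5, map_one]
        have := (QuotientGroup.eq_one_iff _).1 (eq_one_of_pow_coprime (show Nat.Coprime 6 5 by norm_num) h6 h5)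
        obtain ⟨k, hk⟩ := isPGroup_pCoreOf M ⟨f, ⟨_, this, rfl⟩⟩
        exact hf1 (eq_one_of_pow_coprime ((show Nat.Coprime 2 5 by norm_num).pow_left k)
          (congrArg Subtype.val hk) hf5)
      · have := Subgroup.card_le_of_le hPM
        rw [hcardP, hcM, e] at this
        omega
      · have := Subgroup.card_le_of_le hPM
        rw [hcardP, hcM, e] at this
        omega
      · rw [Nat.card_congr e.toEquiv, SpecFive.natCard_A5]
    have hyP : y ∈ P := hPeq ▸ hyN
    obtain ⟨k, hk⟩ := hP.isPGroup_centralizer_of_frame h h16 hi F z hzZ.1 hz1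
      ⟨y, hyP, Subgroup.mem_centralizer_singleton_iff.2 hzy.symm⟩
    exact eq_one_of_pow_coprime ((show Nat.Coprime 2 3 by norm_num).pow_left k)
      (congrArg Subtype.val hk) hy
  refine no_six_of_centralizers S (fun t ht ht2 ht1 y hy hty => ?_) g
  -- `t` is conjugate into `Z`
  have hte : Elem (Subgroup.zpowers t) := by
    refine ⟨fun a ha b hb => ?_, fun a ha => ?_⟩
    · obtain ⟨i, rfl⟩ := Subgroup.mem_zpowers_iff.1 ha
      obtain ⟨j, rfl⟩ := Subgroup.mem_zpowers_iff.1 hb
      exact (Commute.refl t).zpow_zpow i j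
    · obtain ⟨i, rfl⟩ := Subgroup.mem_zpowers_iff.1 ha
      rw [← zpow_add, ← two_mul, zpow_mul, show (2 : ℤ) = ((2 : ℕ) : ℤ) from rfl, zpow_natCast, pow_two,
        ht2, one_zpow]
  obtain ⟨c, hcZ⟩ : ∃ c : G, c * t * c⁻¹ ∈ pCoreOf 2 P ⊓ pCoreOf 2 P' := by
    rcases F.only _ (Subgroup.zpowers_le.2 ht) hte with h' | h'
    · obtain ⟨c, -, hc⟩ := hP.exists_conj_mem_of_frame h h16 hi F t (h' (Subgroup.mem_zpowers t))
      exact ⟨c, hc⟩
    · obtain ⟨c, -, hc⟩ := hP'.exists_conj_mem_of_frame h h16' hi' F.symm t (h' (Subgroup.mem_zpowers t))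
      exact ⟨c, by rw [inf_comm]; exact hc⟩
  refine conj_eq_one_iff.1 (hkey _ hcZ (fun e => ht1 (conj_eq_one_iff.1 e)) (c * y * c⁻¹)
    (by rw [conj_pow, hy, mul_one, mul_inv_cancel]) ?_)
  show c * t * c⁻¹ * (c * y * c⁻¹) = c * y * c⁻¹ * (c * t * c⁻¹)
  calc c * t * c⁻¹ * (c * y * c⁻¹) = c * (t * y) * c⁻¹ := by group
    _ = c * (y * t) * c⁻¹ := by rw [hty.eq]
    _ = _ := by group

/-- No element of order six in characteristic 2 type. -/
theorem no_six_of_charTwo_aux (h4 : ∃ g : G, orderOf g = 4)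
    (hcover : ∀ (S : Sylow 2 G) (M : Subgroup G), M ≠ ⊤ → (S : Subgroup G) ≤ M →
      (∀ L, IsTwoLocal L → (S : Subgroup G) ≤ L → L ≤ M) → False)
    (hmix : ∀ (S : Sylow 2 G) {P₃ P₅ : Subgroup G}, Par3 (S : Subgroup G) P₃ →
      Par5 (S : Subgroup G) P₅ →
      (∀ A : Subgroup G, A ≤ (S : Subgroup G) → Elem A → Nat.card (pCoreOf 2 P₅) ≤ Nat.card A →
        A = pCoreOf 2 P₅) →
      ∀ {D : Subgroup G}, D ≠ ⊥ → D ≤ (S : Subgroup G) → P₃ ≤ Subgroup.normalizer (D : Set G) →
        Subgroup.normalizer ((S : Subgroup G) : Set G) ≤ Subgroup.normalizer (D : Set G) →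
        P₃ ≤ Subgroup.normalizer (pCoreOf 2 P₅ : Set G))
    (g : G) : orderOf g ≠ 6 := by
  classical
  haveI : Fact (Nat.Prime 2) := ⟨Nat.prime_two⟩
  obtain ⟨S⟩ : Nonempty (Sylow 2 G) := inferInstance
  -- a pair of parabolics with top `S₃` and nothing in common
  by_cases hbad : ∃ P P', Par3 (S : Subgroup G) P ∧ Par3 (S : Subgroup G) P' ∧
      ∀ N : Subgroup G, N ≤ S → P ≤ Subgroup.normalizer (N : Set G) →
        P' ≤ Subgroup.normalizer (N : Set G) → N = ⊥
  · obtain ⟨P, P', hP, hP', hb⟩ := hbad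
    obtain ⟨F, ⟨⟨e⟩⟩ | ⟨⟨e⟩⟩⟩ := bad_pair h hP hP' hb
    · exact no_six_of_dihedral hna h hrec h2 S e F g
    · exfalso
      obtain ⟨M, hMn, hM2⟩ := TwoTimesDihedralEight.exists_index_two S e.symm
      rcases IsSimpleGroup.eq_bot_or_eq_top_of_normal M hMn with h' | h'
      · rw [h', Subgroup.index_bot] at hM2
        exact hna ⟨⟨fun a b => by
          haveI : IsCyclic G := isCyclic_of_prime_card (hp := Fact.mk Nat.prime_two) hM2
          exact (IsCyclic.commGroup.mul_comm a b)⟩⟩
      · rw [h', Subgroup.index_top] at hM2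
        norm_num at hM2
  push Not at hbad
  -- the meet of the cores
  set D : Subgroup G := (S : Subgroup G) ⊓
    ⨅ (P : Subgroup G) (_ : Par3 (S : Subgroup G) P), pCoreOf 2 P with hD
  have hDmem : ∀ {d : G}, d ∈ D ↔ d ∈ (S : Subgroup G) ∧
      ∀ P, Par3 (S : Subgroup G) P → d ∈ pCoreOf 2 P := by
    intro d
    simp only [hD, Subgroup.mem_inf, Subgroup.mem_iInf]
  have hgood : ∀ P P', Par3 (S : Subgroup G) P → Par3 (S : Subgroup G) P' →
      P ≤ Subgroup.normalizer ((pCoreOf 2 P ⊓ pCoreOf 2 P' : Subgroup G) : Set G) := by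
    intro P P' hP hP'
    obtain ⟨N, hNS, hPN, hP'N, hN1⟩ := hbad P P' hP hP'
    have hNp := S.isPGroup'.to_le hNS
    have hSN := hP.le.trans hPN
    exact core_inf_normal h hrec (normalizer_ne_top hna hNp hN1) hSN S.isPGroup'
      (sylow_odd_relIndex S hSN) (local_cent hna h2 hNp hN1) hP hPN hP' hP'N
  have hDP : ∀ P, Par3 (S : Subgroup G) P → P ≤ Subgroup.normalizer (D : Set G) := by
    intro P hP p hp
    refine mem_normalizer_of_conj_mem fun d hd => ?_
    rw [hDmem] at hd ⊢
    exact ⟨hP.core_le_base (pCoreOf_conj_mem hp (hd.2 P hP)), fun P' hP' =>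
      ((Subgroup.mem_normalizer_iff.1 (hgood P P' hP hP' hp) d).1 ⟨hd.2 P hP, hd.2 P' hP'⟩).2⟩
  have hDN : Subgroup.normalizer ((S : Subgroup G) : Set G) ≤ Subgroup.normalizer (D : Set G) := by
    intro n hn
    refine mem_normalizer_of_conj_mem fun d hd => ?_
    rw [hDmem] at hd ⊢
    refine ⟨(Subgroup.mem_normalizer_iff.1 hn d).1 hd.1, fun P hP => ?_⟩
    have hP2 := hP.map n⁻¹
    rw [map_conj_eq_of_mem_normalizer (Subgroup.inv_mem _ hn)] at hP2
    have hm := hd.2 _ hP2
    rw [pCoreOf_map] at hm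
    obtain ⟨e, he, hed⟩ := hm
    rw [← hed]
    simpa [mul_assoc] using he
  have hD1 : D ≠ ⊥ := by
    obtain ⟨c, hc⟩ := h4
    have hc4 : c ^ 4 = 1 := hc ▸ pow_orderOf_eq_one c
    have hp : IsPGroup 2 (Subgroup.zpowers c) := IsPGroup.of_card (n := 2) (by rw [Nat.card_zpowers, hc]; rfl)
    obtain ⟨S', hS'⟩ := hp.exists_le_sylow
    obtain ⟨k, rfl⟩ := MulAction.exists_smul_eq G S S'
    obtain ⟨s, hs, hsc⟩ : c ∈ ((S : Subgroup G).map (MulAut.conj k).toMonoidHom) :=
      hS' (Subgroup.mem_zpowers c)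
    have hsc' : k * s * k⁻¹ = c := hsc
    have hss : s * s ≠ 1 := fun e0 => by
      have : c ^ 2 = 1 := by rw [pow_two, ← hsc', conj_mul, e0, mul_one, mul_inv_cancel]
      have := orderOf_dvd_of_pow_eq_one this
      rw [hc] at this
      norm_num at this
    intro e0
    refine hss (Subgroup.mem_bot.1 (e0 ▸ hDmem.2 ⟨(S : Subgroup G).mul_mem hs hs, fun P hP => ?_⟩))
    have hidx : ((pCoreOf 2 P).subgroupOf (S : Subgroup G)).index = 2 := by
      have h1 := Subgroup.relIndex_mul_relIndex ⊥ (pCoreOf 2 P) (S : Subgroup G) bot_le hP.core_le_base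
      rw [Subgroup.relIndex_bot_left, Subgroup.relIndex_bot_left, hP.core_eq, mul_comm] at h1
      exact Nat.eq_of_mul_eq_mul_right Nat.card_pos h1
    exact Subgroup.mul_self_mem_of_index_two hidx (⟨s, hs⟩ : (S : Subgroup G))
  have hDp : IsPGroup 2 D := S.isPGroup'.to_le inf_le_left
  by_cases h5 : ∀ P, ¬ Par5 (S : Subgroup G) P
  · exfalso
    exact hcover S _ (normalizer_ne_top hna hDp hD1) (Subgroup.le_normalizer.trans hDN)
      (fun L hL hSL => local_le hna h hrec h2 S hDN hDP (fun P hP => (h5 P hP).elim) L hL hSL)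
  push Not at h5
  by_cases hframe : ∃ P, Par5 (S : Subgroup G) P ∧ Nat.card (pCoreOf 2 P) = 16 ∧
      Nonempty (↥P ⧸ pCore 2 ↥P ≃* A5) ∧ ∃ A, TwoFrame (S : Subgroup G) (pCoreOf 2 P) A
  · obtain ⟨P, hP, h16, hi, A, F⟩ := hframe
    obtain ⟨hS64, hcap⟩ := frame_cards h hP h16 hi F
    have hno3 : ∀ Q, Par3 (S : Subgroup G) Q → False := fun Q hQ => F.not_par3 hS64 h16 hcap hQ
    have hcores : ∀ P', Par5 (S : Subgroup G) P' → pCoreOf 2 P' = pCoreOf 2 P ∨
        (pCoreOf 2 P' = A ∧ Nonempty (↥P' ⧸ pCore 2 ↥P' ≃* A5)) := by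
      intro P' hP'
      rcases hP'.max_or_frame h with hu | ⟨h16', hi', -⟩
      · exfalso
        have hle : Nat.card (pCoreOf 2 P') ≤ 16 := by
          rcases F.only _ hP'.core_le_base hP'.elem with h' | h'
          · exact (Subgroup.card_le_of_le h').trans_eq h16
          · exact (Subgroup.card_le_of_le h').trans_eq (F.card_eq ▸ h16)
        exact F.ne ((hu _ F.le₁ F.elem₁ (h16 ▸ hle)).trans
          (hu _ F.le₂ F.elem₂ (F.card_eq ▸ h16 ▸ hle)).symm)
      · rcases F.only _ hP'.core_le_base hP'.elem with h' | h'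
        · exact Or.inl (Subgroup.eq_of_le_of_card_ge h' (by rw [h16, h16']))
        · exact Or.inr ⟨Subgroup.eq_of_le_of_card_ge h' (by rw [← F.card_eq, h16, h16']), hi'⟩
    by_cases hA : ∃ P', Par5 (S : Subgroup G) P' ∧ pCoreOf 2 P' = A ∧ Nonempty (↥P' ⧸ pCore 2 ↥P' ≃* A5)
    · obtain ⟨P', hP', e, hi'⟩ := hA
      subst e
      exact no_six_of_frames hna h hrec h2 S hP hP' h16 hi hi' F g
    · exfalso
      have hO1 : pCoreOf 2 P ≠ ⊥ := fun e => by
        rw [e, Subgroup.card_bot] at h16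
        norm_num at h16
      refine hcover S _ (normalizer_ne_top hna (isPGroup_pCoreOf P) hO1)
        (hP.le.trans (le_normalizer_core 2 P)) (fun L hL hSL => local_le hna h hrec h2 S
          (F.normalizer_le S) (fun Q hQ => (hno3 Q hQ).elim) (fun P' hP' => ?_) L hL hSL)
      rcases hcores P' hP' with e | he
      · exact e ▸ le_normalizer_core 2 P'
      · exact absurd ⟨P', hP', he⟩ hA
  · exfalso
    push Not at hframe
    obtain ⟨P, hP⟩ := h5
    have huniq : ∀ P', Par5 (S : Subgroup G) P' → ∀ A ≤ (S : Subgroup G), Elem A →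
        Nat.card (pCoreOf 2 P') ≤ Nat.card A → A = pCoreOf 2 P' := fun P' hP' =>
      (hP'.max_or_frame h).resolve_right fun ⟨a, b, A, c⟩ => hframe P' hP' a b A c
    have hV1 : pCoreOf 2 P ≠ ⊥ := fun e => by
      rcases hP.card_core h with e' | e' <;> rw [e, Subgroup.card_bot] at e' <;> omega
    have hsame : ∀ P', Par5 (S : Subgroup G) P' → pCoreOf 2 P' = pCoreOf 2 P := by
      intro P' hP'
      rcases le_total (Nat.card (pCoreOf 2 P)) (Nat.card (pCoreOf 2 P')) with hle | hle
      · exact huniq P hP _ hP'.core_le_base hP'.elem hle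
      · exact (huniq P' hP' _ hP.core_le_base hP.elem hle).symm
    have hNV : Subgroup.normalizer ((S : Subgroup G) : Set G) ≤
        Subgroup.normalizer (pCoreOf 2 P : Set G) := fun n hn =>
      SpecFive.mem_normalizer_of_map_eq (huniq P hP _ (by
        rintro _ ⟨x, hx, rfl⟩
        exact (Subgroup.mem_normalizer_iff.1 hn x).1 (hP.core_le_base hx)) (hP.elem.map _) (by
        rw [Subgroup.card_map_of_injective (MulAut.conj n).injective]))
    refine hcover S _ (normalizer_ne_top hna (isPGroup_pCoreOf P) hV1)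
      (hP.le.trans (le_normalizer_core 2 P)) (fun L hL hSL => local_le hna h hrec h2 S hNV
        (fun Q hQ => hmix S hQ hP (huniq P hP) hD1 inf_le_left (hDP Q hQ) hDN)
        (fun P' hP' => hsame P' hP' ▸ le_normalizer_core 2 P') L hL hSL)

end CfsgLib.SpecSix
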