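import Cfsg.Agent.SpecSix.Basic
import Cfsg.Agent.SpecFive.Main
import Cfsg.Prelude.Def_Amalgam
import Cfsg.Prelude.Def_CaseTheorems

/-!
# Interfaces for the classification of groups with element orders at most six

The induction hypothesis, and the two kinds of minimal parabolic subgroups over a 2-group.
-/

set_option autoImplicit false
set_option linter.unusedSectionVars false
set_option linter.style.haveILetI false

namespace CfsgLib.SpecSix

open Cfsg
open CfsgLib.SpecFive (Elem A5 A6)

universe u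

/-- Below order `n`, the simple non-abelian groups in question have no element of order six. -/
def NoSixBelow (n : ℕ) : Prop :=
  ∀ (H : Type u) [Group H] [Finite H], Nat.card H < n → IsSimpleGroup H → ¬ IsMulCommutative H →
    Ord6 H → ∀ g : H, orderOf g ≠ 6

/-- The simple non-abelian groups in question have no element of order six. -/
def NoSix : Prop := ∀ n, NoSixBelow.{u} n

variable {G : Type u} [Group G]

/-- A minimal parabolic subgroup over `T` with top `S₃`. -/
structure Par3 (T P : Subgroup G) : Prop where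
  le : T ≤ P
  two : IsPGroup 2 T
  card_eq : Nat.card P = 3 * Nat.card T
  core_eq : Nat.card T = 2 * Nat.card (pCoreOf 2 P)
  cent : Subgroup.centralizer (pCoreOf 2 P : Set G) ⊓ P ≤ pCoreOf 2 P

/-- A parabolic subgroup over `T` with top `D₁₀` or `A₅` and elementary `O₂`. -/
structure Par5 (T P : Subgroup G) : Prop where
  le : T ≤ P
  two : IsPGroup 2 T
  odd_index : ¬ 2 ∣ T.relIndex P
  elem : Elem (pCoreOf 2 P)
  cent : Subgroup.centralizer (pCoreOf 2 P : Set G) ⊓ P ≤ pCoreOf 2 P
  top : Nat.card P = 10 * Nat.card (pCoreOf 2 P) ∨ Nonempty (↥P ⧸ pCore 2 ↥P ≃* A5)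

/-- Two elementary subgroups of equal order with product `T` that contain every elementary subgroup
of `T` and centralise each other only in their intersection. -/
structure TwoFrame (T A₁ A₂ : Subgroup G) : Prop where
  le₁ : A₁ ≤ T
  le₂ : A₂ ≤ T
  elem₁ : Elem A₁
  elem₂ : Elem A₂
  ne : A₁ ≠ A₂
  card_eq : Nat.card A₁ = Nat.card A₂
  cover : ∀ t ∈ T, ∃ a ∈ A₁, ∃ b ∈ A₂, t = a * b
  only : ∀ B : Subgroup G, B ≤ T → Elem B → B ≤ A₁ ∨ B ≤ A₂
  cent₁ : ∀ a ∈ A₁, a ∉ A₂ → ∀ b ∈ A₂, Commute a b → b ∈ A₁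
  cent₂ : ∀ b ∈ A₂, b ∉ A₁ → ∀ a ∈ A₁, Commute a b → a ∈ A₂

theorem Ord6.orderOf_le (h : Ord6 G) (g : G) : orderOf g ≤ 6 := by
  have := h.orderOf_cases g
  omega

/-- Without elements of order six the orders are at most five. -/
theorem Ord6.ord5 [Finite G] (h : Ord6 G) (h6 : ∀ g : G, orderOf g ≠ 6) : SpecFive.Ord5 G :=
  SpecFive.ord5_of_range fun g => by
    have := h.orderOf_le g
    have := h6 g
    omega

/-- The simple non-abelian groups without elements of order six are `A₅` and `A₆`. -/
theorem concl_of_noSix [Finite G] [IsSimpleGroup G] (hna : ¬ IsMulCommutative G) (h : Ord6 G)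
    (h6 : ∀ g : G, orderOf g ≠ 6) : Nonempty (G ≃* A5) ∨ Nonempty (G ≃* A6) := by
  have hns : ¬ Group.IsSolvable G := fun hs => hna ⟨⟨IsSimpleGroup.comm_iff_isSolvable.2 hs⟩⟩
  refine SpecFive.concl_of_RF ⟨h.ord5 h6, hns, fun N hN hNs => ?_⟩
  rcases IsSimpleGroup.eq_bot_or_eq_top_of_normal N hN with e | e
  · exact e
  · exfalso
    subst e
    haveI := hNs
    exact hns (Group.isSolvable_of_surjective (f := (Subgroup.topEquiv (G := G)).toMonoidHom)
      (Subgroup.topEquiv (G := G)).surjective)

end CfsgLib.SpecSix
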