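import Cfsg.Agent.SpecSix.Defs
import Cfsg.Agent.Constrained.Basic

/-!
# Elementary facts on the parabolic subgroups
-/

set_option autoImplicit false
set_option linter.unusedSectionVars false
set_option linter.style.haveILetI false

namespace CfsgLib.SpecSix

open Cfsg
open CfsgLib.SpecFive (Elem eq_one_of_pow_coprime)

universe u

variable {G : Type u} [Group G]

theorem pCoreOf_le (p : ℕ) (P : Subgroup G) : pCoreOf p P ≤ P := Subgroup.map_subtype_le _

theorem card_pCoreOf (p : ℕ) (P : Subgroup G) : Nat.card (pCoreOf p P) = Nat.card (pCore p P) :=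
  Subgroup.card_map_of_injective P.subtype_injective

theorem isPGroup_pCoreOf [Finite G] (P : Subgroup G) : IsPGroup 2 (pCoreOf 2 P) := by
  haveI : Fact (Nat.Prime 2) := ⟨Nat.prime_two⟩
  exact (CfsgLib.Constrained.isPGroup_pCore (p := 2) (G := P)).map P.subtype

theorem pCoreOf_conj_mem {p : ℕ} {P : Subgroup G} {g x : G} (hg : g ∈ P) (hx : x ∈ pCoreOf p P) :
    g * x * g⁻¹ ∈ pCoreOf p P := by
  obtain ⟨y, hy, rfl⟩ := hx
  exact ⟨⟨g, hg⟩ * y * ⟨g, hg⟩⁻¹, (inferInstance : (pCore p P).Normal).conj_mem y hy _, rfl⟩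

theorem mem_normalizer_of_conj_mem [Finite G] {H : Subgroup G} {g : G}
    (h : ∀ x ∈ H, g * x * g⁻¹ ∈ H) : g ∈ Subgroup.normalizer (H : Set G) := by
  have e : H.map (MulAut.conj g).toMonoidHom = H := by
    refine Subgroup.eq_of_le_of_card_ge ?_ ?_
    · rintro _ ⟨x, hx, rfl⟩; exact h x hx
    · rw [Subgroup.card_map_of_injective (MulAut.conj g).injective]
  exact SpecFive.mem_normalizer_of_map_eq e

theorem le_normalizer_core [Finite G] (p : ℕ) (P : Subgroup G) :
    P ≤ Subgroup.normalizer (pCoreOf p P : Set G) := fun _ hg =>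
  mem_normalizer_of_conj_mem fun _ hx => pCoreOf_conj_mem hg hx

theorem le_pCoreOf_of {P N : Subgroup G} (hle : N ≤ P) (hp : IsPGroup 2 N)
    (hn : ∀ g ∈ P, ∀ x ∈ N, g * x * g⁻¹ ∈ N) : N ≤ pCoreOf 2 P := by
  have h : N.subgroupOf P ≤ pCore 2 P :=
    CfsgLib.Constrained.le_pCore ⟨fun x hx g => hn g g.2 x hx⟩
      (hp.comap_of_injective P.subtype P.subtype_injective)
  exact fun x hx => ⟨⟨x, hle hx⟩, h hx, rfl⟩

/-- A subgroup of order prime to `2` index contains the core. -/
theorem pCoreOf_le_of_odd [Finite G] {T P : Subgroup G} (hle : T ≤ P) (hT : IsPGroup 2 T)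
    (hodd : ¬ 2 ∣ T.relIndex P) : pCoreOf 2 P ≤ T := by
  haveI : Fact (Nat.Prime 2) := ⟨Nat.prime_two⟩
  let S : Sylow 2 P := (hT.comap_of_injective P.subtype P.subtype_injective :
    IsPGroup 2 (T.subgroupOf P)).toSylow hodd
  have hp : IsPGroup 2 ((pCore 2 P ⊔ (S : Subgroup P) : Subgroup P)) :=
    IsPGroup.to_sup_of_normal_left' CfsgLib.Constrained.isPGroup_pCore S.isPGroup'
      (by rw [Subgroup.normalizer_eq_top_iff.2 inferInstance]; exact le_top)
  have heq := S.is_maximal' hp le_sup_right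
  rintro _ ⟨y, hy, rfl⟩
  have : y ∈ (S : Subgroup P) := heq ▸ Subgroup.mem_sup_left hy
  exact this

namespace Par3

variable [Finite G] {T P : Subgroup G} (hP : Par3 T P)
include hP

theorem relIndex_eq : T.relIndex P = 3 := by
  have h := Subgroup.relIndex_mul_relIndex ⊥ T P bot_le hP.le
  rw [Subgroup.relIndex_bot_left, Subgroup.relIndex_bot_left, hP.card_eq, mul_comm 3] at h
  exact Nat.eq_of_mul_eq_mul_left Nat.card_pos h

theorem core_le_base : pCoreOf 2 P ≤ T := pCoreOf_le_of_odd hP.le hP.two (by rw [hP.relIndex_eq]; norm_num)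

theorem core_lt : pCoreOf 2 P ≠ T := fun e => by
  have h := hP.core_eq
  rw [e] at h
  have := Nat.card_pos (α := T)
  omega

/-- `T` is maximal in `P`. -/
theorem eq_of_le {K : Subgroup G} (hTK : T ≤ K) (hKP : K ≤ P) : K = T ∨ K = P := by
  have h := Subgroup.relIndex_mul_relIndex T K P hTK hKP
  rw [hP.relIndex_eq] at h
  rcases (Nat.dvd_prime Nat.prime_three).1 (Dvd.intro _ h) with e | e
  · exact Or.inl (le_antisymm (Subgroup.relIndex_eq_one.1 e) hTK)
  · rw [e] at h
    exact Or.inr (le_antisymm hKP (Subgroup.relIndex_eq_one.1 (by omega)))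

theorem exists_three : ∃ x ∈ P, x ^ 3 = 1 ∧ x ≠ 1 ∧ x ∉ T := by
  haveI : Fact (Nat.Prime 3) := ⟨Nat.prime_three⟩
  obtain ⟨x, hx⟩ := exists_prime_orderOf_dvd_card' (G := P) 3 (by rw [hP.card_eq]; exact dvd_mul_right 3 _)
  have h3 : x ^ 3 = 1 := by rw [← hx, pow_orderOf_eq_one]
  have hx1 : x ≠ 1 := fun e => by rw [e, orderOf_one] at hx; norm_num at hx
  refine ⟨x, x.2, congrArg Subtype.val h3, fun e => hx1 (Subtype.ext e), fun hxT => hx1 ?_⟩
  obtain ⟨k, hk⟩ := hP.two ⟨x, hxT⟩
  exact Subtype.ext (eq_one_of_pow_coprime ((show Nat.Coprime 2 3 by norm_num).pow_left k)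
    (congrArg Subtype.val hk) (congrArg Subtype.val h3))

/-- A subgroup containing `T` and an element of `P` outside `T` contains `P`. -/
theorem le_of_mem {K : Subgroup G} (hTK : T ≤ K) {x : G} (hxP : x ∈ P) (hxK : x ∈ K) (hxT : x ∉ T) :
    P ≤ K := by
  rcases hP.eq_of_le (le_inf hTK hP.le) inf_le_right with e | e
  · exact absurd (e ▸ Subgroup.mem_inf.2 ⟨hxK, hxP⟩) hxT
  · exact e ▸ inf_le_left

theorem map (g : G) : Par3 (T.map (MulAut.conj g).toMonoidHom) (P.map (MulAut.conj g).toMonoidHom) := by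
  set f := (MulAut.conj g).toMonoidHom with hf
  have hi : Function.Injective f := (MulAut.conj g).injective
  have hcore : pCoreOf 2 (P.map f) = (pCoreOf 2 P).map f := by
    have e := CfsgLib.Constrained.pCore_map (P.equivMapOfInjective f hi) 2
    unfold pCoreOf
    rw [← e, Subgroup.map_map, Subgroup.map_map]
    rfl
  refine ⟨Subgroup.map_mono hP.le, hP.two.map f, ?_, ?_, ?_⟩
  · rw [Subgroup.card_map_of_injective hi, Subgroup.card_map_of_injective hi, hP.card_eq]
  · rw [hcore, Subgroup.card_map_of_injective hi, Subgroup.card_map_of_injective hi, hP.core_eq]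
  · rw [hcore]
    rintro _ ⟨hc, y, hy, rfl⟩
    refine Subgroup.mem_map_of_mem f (hP.cent ⟨Subgroup.mem_centralizer_iff.2 fun o ho => ?_, hy⟩)
    have := Subgroup.mem_centralizer_iff.1 hc (f o) ⟨o, ho, rfl⟩
    rw [← map_mul, ← map_mul] at this
    exact hi this

end Par3

namespace Par5

variable [Finite G] {T P : Subgroup G} (hP : Par5 T P)
include hP

theorem core_le_base : pCoreOf 2 P ≤ T := pCoreOf_le_of_odd hP.le hP.two hP.odd_index

theorem map (g : G) : Par5 (T.map (MulAut.conj g).toMonoidHom) (P.map (MulAut.conj g).toMonoidHom) := by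
  set f := (MulAut.conj g).toMonoidHom with hf
  have hi : Function.Injective f := (MulAut.conj g).injective
  set e := P.equivMapOfInjective f hi with he
  have hmap := CfsgLib.Constrained.pCore_map e 2
  have hcore : pCoreOf 2 (P.map f) = (pCoreOf 2 P).map f := by
    unfold pCoreOf
    rw [← hmap, Subgroup.map_map, Subgroup.map_map]
    rfl
  refine ⟨Subgroup.map_mono hP.le, hP.two.map f, ?_, ?_, ?_, ?_⟩
  · rw [Subgroup.relIndex_map_map_of_injective _ _ hi]; exact hP.odd_index
  · rw [hcore]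
    refine ⟨?_, ?_⟩
    · rintro _ ⟨a, ha, rfl⟩ _ ⟨b, hb, rfl⟩; exact (hP.elem.1 a ha b hb).map f
    · rintro _ ⟨a, ha, rfl⟩; rw [← map_mul, hP.elem.2 a ha, map_one]
  · rw [hcore]
    rintro _ ⟨hc, y, hy, rfl⟩
    refine Subgroup.mem_map_of_mem f (hP.cent ⟨Subgroup.mem_centralizer_iff.2 fun o ho => ?_, hy⟩)
    have := Subgroup.mem_centralizer_iff.1 hc (f o) ⟨o, ho, rfl⟩
    rw [← map_mul, ← map_mul] at this
    exact hi this
  · rcases hP.top with h | ⟨⟨q⟩⟩
    · left
      rw [hcore, Subgroup.card_map_of_injective hi, Subgroup.card_map_of_injective hi, h]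
    · exact Or.inr ⟨(QuotientGroup.congr _ _ e hmap).symm.trans q⟩

end Par5

end CfsgLib.SpecSix
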