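import Cfsg.Agent.SpecSix.Defs
import Cfsg.Agent.SpecSix.ParBasic

/-!
# Parabolic subgroups with top `D₁₀` or `A₅`

For `Par5 T P` with `O = O₂(P)`: the bound on the fixed points of an element of `T` outside `O`, the
order of `O`, either `O` is the only large elementary subgroup of `T` or there is a frame, and in
that case the transitivity of `P` on the involutions of `O`.
-/

set_option autoImplicit false
set_option linter.unusedSectionVars false
set_option linter.style.haveILetI false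

namespace CfsgLib.SpecSix

open Cfsg
open CfsgLib.SpecFive (Elem A5 eq_one_of_pow_coprime)

universe u

theorem a5_sq : ∀ a : A5, a ^ 4 = 1 → a * a = 1 := by decide +kernel

theorem a5_inverts_five : ∀ a : A5, a * a = 1 → a ≠ 1 →
    ∃ x : A5, x ^ 5 = 1 ∧ x ≠ 1 ∧ a * x * a⁻¹ = x⁻¹ := by decide +kernel

theorem a5_four_group : ∀ a : A5, a * a = 1 → a ≠ 1 → ∀ b : A5, a * b = b * a → b ≠ 1 → b ≠ a →
    ∀ c : A5, a * c = c * a → c = 1 ∨ c = a ∨ c = b ∨ c = a * b := by decide +kernel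

theorem a5_five_product : ∀ a : A5, a * a = 1 → a ≠ 1 → ∀ b : A5, b * b = 1 → b ≠ 1 →
    a * b ≠ b * a → ∃ c : A5, c * c = 1 ∧ c ≠ 1 ∧ c * b = b * c ∧ (a * c) ^ 5 = 1 ∧ a * c ≠ 1 := by
  decide +kernel

theorem a5_pair : ∀ y : A5, y ^ 3 = 1 → y ≠ 1 → ∃ g k : A5, g * g = 1 ∧ g ≠ 1 ∧
    y * g * y⁻¹ * g = g * (y * g * y⁻¹) ∧ k * y * k⁻¹ = y⁻¹ ∧
    g * (k * g * k⁻¹) ≠ k * g * k⁻¹ * g := by decide +kernel

variable {G : Type u} [Group G] [Finite G] {T P : Subgroup G}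

theorem card_inf_mul_relIndex (A B : Subgroup G) :
    Nat.card (A ⊓ B : Subgroup G) * B.relIndex A = Nat.card A := by
  rw [← Subgroup.inf_relIndex_left, ← Subgroup.relIndex_bot_left, ← Subgroup.relIndex_bot_left,
    Subgroup.relIndex_mul_relIndex _ _ _ bot_le inf_le_left]

namespace Par5

theorem mem_core_iff {g : P} : g ∈ pCore 2 ↥P ↔ (g : G) ∈ pCoreOf 2 P :=
  ⟨fun hg => ⟨g, hg, rfl⟩, by rintro ⟨w, hw, e⟩; rwa [← Subtype.ext e]⟩

theorem core_conj {g o : G} (hg : g ∈ P) (ho : o ∈ pCoreOf 2 P) : g * o * g⁻¹ ∈ pCoreOf 2 P := by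
  obtain ⟨w, hw, rfl⟩ := ho
  exact ⟨⟨g, hg⟩ * w * ⟨g, hg⟩⁻¹, (Cfsg.pCore_normal 2 ↥P).conj_mem w hw _, rfl⟩

theorem card_eq_quot : Nat.card P = Nat.card (↥P ⧸ pCore 2 ↥P) * Nat.card (pCoreOf 2 P) := by
  rw [pCoreOf, Subgroup.card_map_of_injective P.subtype_injective,
    ← Subgroup.card_eq_card_quotient_mul_card_subgroup]

variable (hP : Par5 T P)
include hP

theorem core_le_sylow : pCoreOf 2 P ≤ T := by
  haveI : Fact (Nat.Prime 2) := ⟨Nat.prime_two⟩
  have hT : IsPGroup 2 (T.subgroupOf P) := hP.two.comap_of_injective P.subtype P.subtype_injective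
  let S : Sylow 2 ↥P := hT.toSylow hP.odd_index
  have hS : pCore 2 ↥P ≤ (S : Subgroup ↥P) := by
    have hsup : IsPGroup 2 ((S : Subgroup ↥P) ⊔ pCore 2 ↥P : Subgroup ↥P) :=
      S.isPGroup'.to_sup_of_normal_right CfsgLib.Constrained.isPGroup_pCore
    exact le_sup_right.trans (S.is_maximal' hsup le_sup_left).le
  rintro _ ⟨w, hw, rfl⟩
  exact hS hw

theorem sylow_le : T ≤ P := hP.le

theorem quot_cases : Nat.card (↥P ⧸ pCore 2 ↥P) = 10 ∨
    (Nat.card (↥P ⧸ pCore 2 ↥P) = 60 ∧ Nonempty (↥P ⧸ pCore 2 ↥P ≃* A5)) := by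
  rcases hP.top with e | ⟨⟨e⟩⟩
  · left
    rw [card_eq_quot (P := P)] at e
    exact Nat.eq_of_mul_eq_mul_right Nat.card_pos e
  · exact Or.inr ⟨(Nat.card_congr e.toEquiv).trans SpecFive.natCard_A5, ⟨e⟩⟩

theorem five_dvd : 5 ∣ Nat.card P := by
  rw [card_eq_quot (P := P)]
  rcases hP.quot_cases with e | ⟨e, -⟩ <;> rw [e] <;> exact Dvd.dvd.mul_right (by norm_num) _

theorem card_core_pow : ∃ k : ℕ, Nat.card (pCoreOf 2 P) = 2 ^ k := by
  haveI : Fact (Nat.Prime 2) := ⟨Nat.prime_two⟩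
  exact hP.elem.isPGroup.exists_card_eq

/-- The order of `T` over `O`. -/
theorem relIndex_core : ((pCoreOf 2 P).relIndex T = 2 ∧ Nat.card P = 10 * Nat.card (pCoreOf 2 P)) ∨
    ((pCoreOf 2 P).relIndex T = 4 ∧ Nonempty (↥P ⧸ pCore 2 ↥P ≃* A5)) := by
  haveI : Fact (Nat.Prime 2) := ⟨Nat.prime_two⟩
  set O := pCoreOf 2 P with hOdef
  obtain ⟨j, hj⟩ : ∃ j, O.relIndex T = 2 ^ j := by
    obtain ⟨a, ha⟩ := hP.two.exists_card_eq
    have h1 : O.relIndex T ∣ 2 ^ a := ha ▸ Subgroup.relIndex_dvd_card _ _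
    obtain ⟨j, -, hj⟩ := (Nat.dvd_prime_pow Nat.prime_two).1 h1
    exact ⟨j, hj⟩
  have h2 : O.relIndex T * T.relIndex P = O.relIndex P :=
    Subgroup.relIndex_mul_relIndex _ _ _ hP.core_le_sylow hP.le
  have h3 : O.relIndex P = Nat.card (↥P ⧸ pCore 2 ↥P) := by
    refine Nat.eq_of_mul_eq_mul_right (Nat.card_pos (α := O)) ?_
    rw [← card_eq_quot (P := P), mul_comm, ← Subgroup.relIndex_bot_left,
      Subgroup.relIndex_mul_relIndex _ _ _ bot_le (pCoreOf_le 2 P), Subgroup.relIndex_bot_left]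
  have hodd := hP.odd_index
  rw [hj, h3] at h2
  rw [hj]
  rcases hP.quot_cases with e | ⟨e, hi⟩
  · left
    refine ⟨?_, by rw [card_eq_quot (P := P), e]⟩
    rw [e] at h2
    rcases j with _ | _ | j
    · omega
    · norm_num
    · have : 4 ∣ 10 := ⟨2 ^ j * T.relIndex P, by rw [← h2]; ring⟩
      norm_num at this
  · right
    refine ⟨?_, hi⟩
    rw [e] at h2
    rcases j with _ | _ | _ | j
    · omega
    · exfalso; omega
    · norm_num
    · have : 8 ∣ 60 := ⟨2 ^ j * T.relIndex P, by rw [← h2]; ring⟩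
      norm_num at this

/-- (c) The order of `T`. -/
theorem card_T : Nat.card T = 2 * Nat.card (pCoreOf 2 P) ∨
    (Nat.card T = 4 * Nat.card (pCoreOf 2 P) ∧ Nonempty (↥P ⧸ pCore 2 ↥P ≃* A5)) := by
  have h := card_inf_mul_relIndex T (pCoreOf 2 P)
  rw [inf_eq_right.2 hP.core_le_sylow] at h
  rcases hP.relIndex_core with ⟨e, -⟩ | ⟨e, hi⟩ <;> rw [e] at h
  · exact Or.inl (by omega)
  · exact Or.inr ⟨by omega, hi⟩

theorem relIndex_le_four : (pCoreOf 2 P).relIndex T ≤ 4 := by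
  rcases hP.relIndex_core with ⟨e, -⟩ | ⟨e, -⟩ <;> rw [e] <;> norm_num

theorem commute_core {a b : G} (ha : a ∈ pCoreOf 2 P) (hb : b ∈ pCoreOf 2 P) : Commute a b :=
  hP.elem.1 a ha b hb

theorem sq_core {a : G} (ha : a ∈ pCoreOf 2 P) : a * a = 1 := hP.elem.2 a ha

variable (h : Ord6 G)
include h

theorem fpf_core {f : G} (hf : f ^ 5 = 1) (hf1 : f ≠ 1) {d : G} (hd : d ∈ pCoreOf 2 P)
    (hc : Commute f d) : d = 1 :=
  h.fpf_five hf hf1 (m := 2) (by rw [pow_two]; exact hP.sq_core hd) (by norm_num) hc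

/-- (b) The order of `O`. -/
theorem card_core : Nat.card (pCoreOf 2 P) = 16 ∨ 256 ≤ Nat.card (pCoreOf 2 P) := by
  haveI : Fact (Nat.Prime 5) := ⟨Nat.prime_five⟩
  set O := pCoreOf 2 P with hOdef
  obtain ⟨f, hf⟩ := exists_prime_orderOf_dvd_card' 5 hP.five_dvd
  have hf5 : (f : G) ^ 5 = 1 := by
    have := pow_orderOf_eq_one f
    rw [hf] at this
    exact congrArg Subtype.val this
  have hf1 : (f : G) ≠ 1 := fun e => by
    rw [Subtype.ext e (a2 := (1 : P)), orderOf_one] at hf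
    norm_num at hf
  have h5 := SpecFive.card_modEq_one Nat.prime_five hf5 O (fun d hd => core_conj f.2 hd)
    (fun d hd hc => hP.fpf_core h hf5 hf1 hd hc)
  obtain ⟨k, hk⟩ := hP.card_core_pow
  have h1 : Nat.card O ≠ 1 := by
    intro e
    have hbot : O = ⊥ := Subgroup.card_eq_one.1 e
    have := hP.cent ⟨Subgroup.mem_centralizer_iff.2 fun d hd => by
      rw [← hOdef, hbot] at hd
      rw [Subgroup.mem_bot.1 hd, one_mul, mul_one], f.2⟩
    rw [← hOdef, hbot, Subgroup.mem_bot] at this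
    exact hf1 this
  rw [hk] at h5 h1 ⊢
  by_cases hk8 : 8 ≤ k
  · exact Or.inr (by simpa using Nat.pow_le_pow_right (n := 2) (by norm_num) hk8)
  · left
    push Not at hk8
    interval_cases k <;> simp_all [Nat.ModEq]

theorem sq_mem_core {t : G} (ht : t ∈ T) : t * t ∈ pCoreOf 2 P := by
  have htP : t ∈ P := hP.le ht
  set π := QuotientGroup.mk' (pCore 2 ↥P) with hπ
  have h4 : π ⟨t, htP⟩ ^ 4 = 1 := by
    rw [← map_pow, show (⟨t, htP⟩ : P) ^ 4 = 1 from Subtype.ext (h.pow_two_group hP.two ht), map_one]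
  have h2 : π ⟨t, htP⟩ * π ⟨t, htP⟩ = 1 := by
    rcases hP.quot_cases with e | ⟨-, ⟨e⟩⟩
    · have h10 : π ⟨t, htP⟩ ^ 10 = 1 := by rw [← e]; exact pow_card_eq_one'
      have := pow_gcd_eq_one.mpr ⟨h10, h4⟩
      rw [← pow_two]
      exact this
    · apply e.injective
      rw [map_mul, map_one]
      exact a5_sq _ (by rw [← map_pow, h4, map_one])
  rw [← map_mul] at h2
  exact mem_core_iff.1 ((QuotientGroup.eq_one_iff _).1 h2)

/-- An element of `T` outside `O` inverts an element of order five modulo `O`. -/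
theorem exists_five {t : G} (ht : t ∈ T) (htO : t ∉ pCoreOf 2 P) :
    ∃ y ∈ P, y ^ 5 = 1 ∧ y ≠ 1 ∧ t * y * t⁻¹ * y ∈ pCoreOf 2 P := by
  haveI : Fact (Nat.Prime 2) := ⟨Nat.prime_two⟩
  have htP : t ∈ P := hP.le ht
  set π := QuotientGroup.mk' (pCore 2 ↥P) with hπ
  have h2 : π ⟨t, htP⟩ * π ⟨t, htP⟩ = 1 := by
    rw [← map_mul]
    exact (QuotientGroup.eq_one_iff _).2 (mem_core_iff.2 (hP.sq_mem_core h ht))
  have h1 : π ⟨t, htP⟩ ≠ 1 := fun e => htO (mem_core_iff.1 ((QuotientGroup.eq_one_iff _).1 e))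
  obtain ⟨k, hk5, hk1, hk⟩ : ∃ k, k ^ 5 = 1 ∧ k ≠ 1 ∧ π ⟨t, htP⟩ * k * (π ⟨t, htP⟩)⁻¹ = k⁻¹ := by
    rcases hP.quot_cases with e | ⟨-, ⟨e⟩⟩
    · have ho : orderOf (π ⟨t, htP⟩) = 2 := orderOf_eq_prime (by rw [pow_two]; exact h2) h1
      obtain ⟨k, hk1, hko, hk⟩ := CfsgLib.BaerSuzuki.involution_inverts_odd ho (fun hm => h1
        (Subgroup.mem_bot.1 ((CfsgLib.Constrained.pCore_quotient_pCore (p := 2) (G := ↥P)).le hm)))
      refine ⟨k, ?_, hk1, hk⟩
      have hd : orderOf k ∣ 5 * 2 := by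
        rw [show 5 * 2 = Nat.card (↥P ⧸ pCore 2 ↥P) from e.symm]
        exact orderOf_dvd_natCard k
      exact orderOf_dvd_iff_pow_eq_one.1 ((Nat.coprime_two_right.2 hko).dvd_of_dvd_mul_right hd)
    · obtain ⟨x, hx, hx1, hxi⟩ := a5_inverts_five (e (π ⟨t, htP⟩)) (by rw [← map_mul, h2, map_one])
        (fun hh => h1 (e.map_eq_one_iff.1 hh))
      refine ⟨e.symm x, by rw [← map_pow, hx, map_one], fun hh => hx1 (e.symm.map_eq_one_iff.1 hh), ?_⟩
      apply e.injective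
      simpa only [map_mul, map_inv, MulEquiv.apply_symm_apply] using hxi
  obtain ⟨y, rfl⟩ := QuotientGroup.mk'_surjective _ k
  refine ⟨y, y.2, congrArg Subtype.val ((h.subgroup P).pow_of_image_five π hk5 hk1),
    fun e => hk1 (by rw [show y = 1 from Subtype.ext e, map_one]), ?_⟩
  refine (mem_core_iff (g := ⟨t, htP⟩ * y * ⟨t, htP⟩⁻¹ * y)).1 ((QuotientGroup.eq_one_iff _).1 ?_)
  show π (⟨t, htP⟩ * y * ⟨t, htP⟩⁻¹ * y) = 1
  rw [map_mul, map_mul, map_mul, map_inv, hk, inv_mul_cancel]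

/-- (a) The fixed points on `O` of an element of `T` outside `O`. -/
theorem fixed_bound : ∀ t ∈ T, t ∉ pCoreOf 2 P →
    Nat.card (pCoreOf 2 P ⊓ Subgroup.centralizer {t} : Subgroup G) ^ 2 ≤
      Nat.card (pCoreOf 2 P) := by
  intro t ht htO
  obtain ⟨y, hyP, hy5, hy1, hty⟩ := hP.exists_five h ht htO
  have hfix : ∀ d ∈ pCoreOf 2 P, Commute y d → d = 1 := fun d hd hc => hP.fpf_core h hy5 hy1 hd hc
  obtain ⟨r, hr, hinv⟩ := SpecFive.exists_inverting (D := pCoreOf 2 P)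
    (fun d hd => by simpa using core_conj (P.inv_mem hyP) hd) hfix hty
  have heq : pCoreOf 2 P ⊓ Subgroup.centralizer {t} =
      pCoreOf 2 P ⊓ Subgroup.centralizer ({r * t} : Set G) := by
    ext d
    simp only [Subgroup.mem_inf, Subgroup.mem_centralizer_singleton_iff]
    refine and_congr_right fun hd => ?_
    have hrd : Commute r d := hP.commute_core hr hd
    constructor
    · intro e
      have e' : Commute t d := e.symm
      exact (hrd.mul_left e').eq.symm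
    · intro e
      have e' : Commute (r * t) d := e.symm
      simpa using (hrd.inv_left.mul_left e').eq.symm
  rw [heq, pow_two]
  exact SpecFive.card_fixed_le (Or.inr rfl) hy5 hinv (fun d hd => core_conj hyP hd) hfix

/-- (d) The large elementary subgroups of `T`. -/
theorem max_or_frame :
    (∀ A ≤ T, Elem A → Nat.card (pCoreOf 2 P) ≤ Nat.card A → A = pCoreOf 2 P) ∨
      (Nat.card (pCoreOf 2 P) = 16 ∧ Nonempty (↥P ⧸ pCore 2 ↥P ≃* A5) ∧
        ∃ A, TwoFrame T (pCoreOf 2 P) A) := by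
  set O := pCoreOf 2 P with hOdef
  refine or_iff_not_imp_left.2 fun hne => ?_
  push Not at hne
  obtain ⟨A, hAT, hA, hcard, hAO⟩ := hne
  obtain ⟨t, htA, htO⟩ : ∃ t ∈ A, t ∉ O := by
    by_contra hh
    push Not at hh
    exact hAO (Subgroup.eq_of_le_of_card_ge hh hcard)
  have hDC : ∀ b ∈ A, A ⊓ O ≤ O ⊓ Subgroup.centralizer {b} := fun b hb d hd =>
    ⟨hd.2, Subgroup.mem_centralizer_singleton_iff.2 (hA.1 d hd.1 b hb).eq⟩
  have hd := Subgroup.card_le_of_le (hDC t htA)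
  have hc := hP.fixed_bound h t (hAT htA) htO
  rw [← hOdef] at hc
  have hk : O.relIndex A ≤ O.relIndex T :=
    Subgroup.relIndex_le_of_le_right hAT (by
      have := hP.relIndex_core
      rw [← hOdef] at this
      omega)
  have hm := hP.relIndex_le_four
  rw [← hOdef] at hm
  have hAc := card_inf_mul_relIndex A O
  set c := Nat.card (O ⊓ Subgroup.centralizer {t} : Subgroup G) with hcdef
  set d := Nat.card (A ⊓ O : Subgroup G) with hddef
  have hle : Nat.card A ≤ c * 4 := hAc ▸ Nat.mul_le_mul hd (hk.trans hm)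
  have hc4 : c ≤ 4 := by nlinarith
  have hO16 : Nat.card O = 16 := by
    have := hP.card_core h
    rw [← hOdef] at this
    omega
  have hprod : 16 ≤ d * O.relIndex A := by rw [hAc, ← hO16]; exact hcard
  have hd4 : d = 4 := by nlinarith
  have hk4 : O.relIndex A = 4 := by
    rw [hd4] at hprod
    omega
  have hm4 : O.relIndex T = 4 := by omega
  have hiso : Nonempty (↥P ⧸ pCore 2 ↥P ≃* A5) := by
    rcases hP.relIndex_core with ⟨e, -⟩ | ⟨-, hi⟩
    · rw [← hOdef] at e; omega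
    · exact hi
  have hfix : ∀ b ∈ A, b ∉ O → O ⊓ Subgroup.centralizer {b} = A ⊓ O := by
    intro b hb hbO
    refine (Subgroup.eq_of_le_of_card_ge (hDC b hb) ?_).symm
    have := hP.fixed_bound h b (hAT hb) hbO
    rw [← hOdef, hO16] at this
    rw [← hddef, hd4]
    nlinarith
  have hcover : ∀ x ∈ T, ∃ o ∈ O, ∃ b ∈ A, x = o * b := by
    intro x hx
    let f := Subgroup.quotientSubgroupOfEmbeddingOfLE O hAT
    have hsurj : Function.Surjective f :=
      (Nat.bijective_iff_injective_and_card f).2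
        ⟨f.injective, (show O.relIndex A = O.relIndex T by omega)⟩ |>.2
    obtain ⟨q, hq⟩ := hsurj (QuotientGroup.mk ⟨x, hx⟩)
    obtain ⟨b, rfl⟩ := QuotientGroup.mk_surjective q
    have hbx : (b : G)⁻¹ * x ∈ O := (QuotientGroup.eq (s := O.subgroupOf T)).1 (show (QuotientGroup.mk (Subgroup.inclusion hAT b) : ↥T ⧸ O.subgroupOf T) = QuotientGroup.mk ⟨x, hx⟩ from hq)
    refine ⟨b * ((b : G)⁻¹ * x) * (b : G)⁻¹, core_conj (hP.le (hAT b.2)) hbx, b, b.2, ?_⟩
    group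
  refine ⟨hO16, hiso, A, ⟨hP.core_le_sylow, hAT, hP.elem, hA, fun e => hAO e.symm, ?_, hcover,
    ?_, ?_, ?_⟩⟩
  · rw [← hAc, hd4, hk4, hO16]
  · intro B hBT hB
    have key : ∀ x ∈ B, x ∈ O ∨ x ∈ A := by
      intro x hx
      obtain ⟨o, ho, b, hb, rfl⟩ := hcover x (hBT hx)
      by_cases hbO : b ∈ O
      · exact Or.inl (O.mul_mem ho hbO)
      · right
        refine A.mul_mem ?_ hb
        have hob : Commute o b := by
          have h2 := hB.2 _ hx
          show o * b = b * o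
          calc o * b = (o * b * (o * b)) * (b⁻¹ * o⁻¹) := by group
            _ = b * o := by
              rw [h2, one_mul, inv_eq_of_mul_eq_one_right (hA.2 b hb),
                inv_eq_of_mul_eq_one_right (hP.sq_core ho)]
        have : o ∈ O ⊓ Subgroup.centralizer {b} :=
          ⟨ho, Subgroup.mem_centralizer_singleton_iff.2 hob.eq⟩
        rw [hfix b hb hbO] at this
        exact this.1
    by_contra hh
    push Not at hh
    obtain ⟨u, huB, huO⟩ := SetLike.not_le_iff_exists.1 hh.1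
    obtain ⟨v, hvB, hvA⟩ := SetLike.not_le_iff_exists.1 hh.2
    have huA := (key u huB).resolve_left huO
    have hvO := (key v hvB).resolve_right hvA
    rcases key _ (B.mul_mem huB hvB) with e | e
    · exact huO ((O.mul_mem_cancel_right hvO).1 e)
    · exact hvA ((A.mul_mem_cancel_left huA).1 e)
  · intro a haO haA b hb hab
    by_contra hbO
    have : a ∈ O ⊓ Subgroup.centralizer {b} :=
      ⟨haO, Subgroup.mem_centralizer_singleton_iff.2 hab.eq⟩
    rw [hfix b hb hbO] at this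
    exact haA this.1
  · intro b hb hbO a ha hab
    have : a ∈ O ⊓ Subgroup.centralizer {b} :=
      ⟨ha, Subgroup.mem_centralizer_singleton_iff.2 hab.eq⟩
    rw [hfix b hb hbO] at this
    exact this.1

end Par5

namespace TwoFrame

variable {A₁ A₂ : Subgroup G} (F : TwoFrame T A₁ A₂)
include F

theorem symm : TwoFrame T A₂ A₁ where
  le₁ := F.le₂
  le₂ := F.le₁
  elem₁ := F.elem₂
  elem₂ := F.elem₁
  ne := F.ne.symm
  card_eq := F.card_eq.symm
  cover t ht := by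
    obtain ⟨a, ha, b, hb, e⟩ := F.cover t⁻¹ (T.inv_mem ht)
    exact ⟨b⁻¹, A₂.inv_mem hb, a⁻¹, A₁.inv_mem ha, by rw [← mul_inv_rev, ← e, inv_inv]⟩
  only B hB hBe := (F.only B hB hBe).symm
  cent₁ a ha ha' b hb hab := F.cent₂ a ha ha' b hb hab.symm
  cent₂ b hb hb' a ha hab := F.cent₁ b hb hb' a ha hab.symm

theorem map_cases {u : G} (hu : ∀ t ∈ T, u * t * u⁻¹ ∈ T) :
    A₁.map (MulAut.conj u).toMonoidHom = A₁ ∨ A₁.map (MulAut.conj u).toMonoidHom = A₂ := by
  have hle : A₁.map (MulAut.conj u).toMonoidHom ≤ T := by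
    rintro _ ⟨a, ha, rfl⟩
    exact hu a (F.le₁ ha)
  have hc : Nat.card (A₁.map (MulAut.conj u).toMonoidHom) = Nat.card A₁ :=
    Subgroup.card_map_of_injective (MulAut.conj u).injective
  have he : Elem (A₁.map (MulAut.conj u).toMonoidHom) := by
    refine ⟨?_, ?_⟩
    · rintro _ ⟨a, ha, rfl⟩ _ ⟨b, hb, rfl⟩
      exact (F.elem₁.1 a ha b hb).map _
    · rintro _ ⟨a, ha, rfl⟩
      rw [← map_mul, F.elem₁.2 a ha, map_one]
  rcases F.only _ hle he with e | e
  · exact Or.inl (Subgroup.eq_of_le_of_card_ge e hc.ge)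
  · exact Or.inr (Subgroup.eq_of_le_of_card_ge e (hc ▸ F.card_eq.ge))

theorem conj_mem {t a : G} (ht : t ∈ T) (ha : a ∈ A₁) : t * a * t⁻¹ ∈ A₁ := by
  obtain ⟨c, hc, b, hb, rfl⟩ := F.cover t ht
  have hbA : b * a * b⁻¹ ∈ A₁ := by
    rcases F.map_cases (u := b) (fun s hs => T.mul_mem (T.mul_mem (F.le₂ hb) hs)
        (T.inv_mem (F.le₂ hb))) with e | e
    · exact e.le ⟨a, ha, rfl⟩
    · exfalso
      refine F.ne (Subgroup.eq_of_le_of_card_ge (fun z hz => ?_) F.card_eq.ge)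
      have h1 : b * z * b⁻¹ ∈ A₂ := e.le ⟨z, hz, rfl⟩
      rw [show z = b⁻¹ * (b * z * b⁻¹) * b by group]
      exact A₂.mul_mem (A₂.mul_mem (A₂.inv_mem hb) h1) hb
  rw [show c * b * a * (c * b)⁻¹ = c * (b * a * b⁻¹) * c⁻¹ by group]
  exact A₁.mul_mem (A₁.mul_mem hc hbA) (A₁.inv_mem hc)

theorem center {z t : G} (hz₁ : z ∈ A₁) (hz₂ : z ∈ A₂) (ht : t ∈ T) : Commute z t := by
  obtain ⟨a, ha, b, hb, rfl⟩ := F.cover t ht
  exact (F.elem₁.1 z hz₁ a ha).mul_right (F.elem₂.1 z hz₂ b hb)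

/-- (e) No element with square in `T` interchanges the two subgroups. -/
theorem normalizes (h : Ord6 G) {u : G} (hu : ∀ t ∈ T, u * t * u⁻¹ ∈ T) (hu2 : u * u ∈ T) :
    ∀ a ∈ A₁, u * a * u⁻¹ ∈ A₁ := by
  rcases F.map_cases hu with e | e
  · exact fun a ha => e.le ⟨a, ha, rfl⟩
  exfalso
  have hsw₁ : ∀ z ∈ A₁, u * z * u⁻¹ ∈ A₂ := fun z hz => e.le ⟨z, hz, rfl⟩
  have hsw₂ : ∀ z ∈ A₂, u * z * u⁻¹ ∈ A₁ := by
    intro z hz
    rcases F.symm.map_cases hu with e' | e'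
    · exfalso
      refine F.ne (Subgroup.map_injective (f := (MulAut.conj u).toMonoidHom) (MulAut.conj u).injective ?_)
      rw [e, e']
    · exact e'.le ⟨z, hz, rfl⟩
  obtain ⟨a, ha, b, hb, hab⟩ := F.cover _ hu2
  set a' := u * a * u⁻¹ with ha'
  set b' := u * b * u⁻¹ with hb'
  have hab' : a' * b' = a * b := by
    calc a' * b' = u * (a * b) * u⁻¹ := by rw [ha', hb']; group
      _ = a * b := by rw [← hab]; group
  -- the square of `v = u a` lies in both
  set v := u * a with hv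
  have hw₂ : a'⁻¹ * (a * b * a⁻¹) ∈ A₂ :=
    A₂.mul_mem (A₂.inv_mem (hsw₁ a ha)) (F.symm.conj_mem (F.le₁ ha) hb)
  have hw₁ : a'⁻¹ * (a * b * a⁻¹) ∈ A₁ := by
    have : a'⁻¹ * (a * b * a⁻¹) = b' * a⁻¹ := by
      calc a'⁻¹ * (a * b * a⁻¹) = a'⁻¹ * (a * b) * a⁻¹ := by group
        _ = b' * a⁻¹ := by rw [← hab']; group
    rw [this]
    exact A₁.mul_mem (hsw₂ b hb) (A₁.inv_mem ha)
  have ha'i : a'⁻¹ = a' := inv_eq_of_mul_eq_one_right (F.elem₂.2 _ (hsw₁ a ha))
  have hvv : v * v = a'⁻¹ * (a * b * a⁻¹) := by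
    calc v * v = a' * (u * u) * a := by rw [ha', hv]; group
      _ = a'⁻¹ * (a * b * a⁻¹) := by
        rw [hab, ha'i, inv_eq_of_mul_eq_one_right (F.elem₁.2 a ha)]; group
  set w := a'⁻¹ * (a * b * a⁻¹) with hw
  obtain ⟨c, hc, hc2⟩ : ∃ c ∈ A₁, c ∉ A₂ := by
    by_contra hh
    push Not at hh
    exact F.ne (Subgroup.eq_of_le_of_card_ge hh F.card_eq.ge)
  have hvsw₂ : ∀ z ∈ A₂, v * z * v⁻¹ ∈ A₁ := fun z hz => by
    rw [hv, show u * a * z * (u * a)⁻¹ = u * (a * z * a⁻¹) * u⁻¹ by group]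
    exact hsw₂ _ (F.symm.conj_mem (F.le₁ ha) hz)
  have hvsw₁ : ∀ z ∈ A₁, v * z * v⁻¹ ∈ A₂ := fun z hz => by
    rw [hv, show u * a * z * (u * a)⁻¹ = u * (a * z * a⁻¹) * u⁻¹ by group]
    exact hsw₁ _ (A₁.mul_mem (A₁.mul_mem ha hz) (A₁.inv_mem ha))
  set c' := v⁻¹ * c * v with hc'
  have hwc : Commute w c := F.center hw₁ hw₂ (F.le₁ hc)
  have hc'₂ : c' ∈ A₂ := by
    have h1 : v * c * v⁻¹ ∈ A₂ := hvsw₁ c hc
    have e1 : c' = w⁻¹ * (v * c * v⁻¹) * w := by rw [hc', ← hvv]; group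
    rw [e1]
    exact A₂.mul_mem (A₂.mul_mem (A₂.inv_mem hw₂) h1) hw₂
  have hc'₁ : c' ∉ A₁ := fun h1 => hc2 (by
    have e1 : c = v * c' * v⁻¹ := by rw [hc']; group
    rw [e1]
    exact hvsw₁ c' h1)
  have hnc : ¬ Commute c' c := fun hh => hc'₁ (F.cent₁ c hc hc2 c' hc'₂ hh.symm)
  -- `g = v c` has order eight
  set g := v * c with hg
  have hg2 : g * g = w * (c' * c) := by rw [hg, hc', ← hvv]; group
  have hwcc : Commute w (c' * c) :=
    (F.center hw₁ hw₂ (F.le₂ hc'₂)).mul_right hwc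
  have hw2 : w * w = 1 := F.elem₁.2 w hw₁
  have hg4 : g ^ 4 = c' * c * (c' * c) := by
    calc g ^ 4 = g * g * (g * g) := by simp only [pow_succ, pow_zero, one_mul, mul_assoc]
      _ = w * (c' * c * w) * (c' * c) := by rw [hg2]; group
      _ = w * w * (c' * c * (c' * c)) := by rw [← hwcc.eq]; group
      _ = _ := by rw [hw2, one_mul]
  have hc'i : c'⁻¹ = c' := inv_eq_of_mul_eq_one_right (F.elem₂.2 _ hc'₂)
  have hci : c⁻¹ = c := inv_eq_of_mul_eq_one_right (F.elem₁.2 _ hc)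
  have hg4ne : g ^ 4 ≠ 1 := by
    rw [hg4]
    intro hh
    apply hnc
    calc c' * c = (c' * c)⁻¹ := eq_inv_of_mul_eq_one_left hh
      _ = c * c' := by rw [mul_inv_rev, hc'i, hci]
  have hg8 : g ^ 8 = 1 := by
    have hcomm : c' * c * (c' * c) = c' * c * c'⁻¹ * c⁻¹ := by rw [hc'i, hci]; group
    have h1 : c' * c * c'⁻¹ * c⁻¹ ∈ A₁ :=
      A₁.mul_mem (F.conj_mem (F.le₂ hc'₂) hc) (A₁.inv_mem hc)
    rw [show (8 : ℕ) = 4 * 2 from rfl, pow_mul, hg4, pow_two, hcomm]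
    exact F.elem₁.2 _ h1
  rcases h g with e4 | e5 | e6
  · exact hg4ne e4
  · exact hg4ne (by rw [eq_one_of_pow_coprime (show Nat.Coprime 5 8 by norm_num) e5 hg8, one_pow])
  · have h2 : g ^ Nat.gcd 6 8 = 1 := pow_gcd_eq_one.mpr ⟨e6, hg8⟩
    exact hg4ne (by rw [show (4 : ℕ) = 2 * 2 from rfl, pow_mul, show g ^ 2 = 1 from h2, one_pow])

theorem normalizes₂ (h : Ord6 G) {u : G} (hu : ∀ t ∈ T, u * t * u⁻¹ ∈ T) (hu2 : u * u ∈ T) :
    ∀ a ∈ A₂, u * a * u⁻¹ ∈ A₂ :=
  F.symm.normalizes h hu hu2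

end TwoFrame

namespace Par5

variable {A : Subgroup G} (hP : Par5 T P) (h : Ord6 G)
  (hO16 : Nat.card (pCoreOf 2 P) = 16) (φ : P →* A5) (hφs : Function.Surjective φ)
  (hφ : ∀ g : P, φ g = 1 ↔ (g : G) ∈ pCoreOf 2 P) (F : TwoFrame T (pCoreOf 2 P) A)
include hP h hO16 hφs hφ F

theorem frame_card_inter : Nat.card (pCoreOf 2 P ⊓ A : Subgroup G) = 4 := by
  set O := pCoreOf 2 P with hOdef
  have hAc := card_inf_mul_relIndex A O
  rw [inf_comm] at hAc
  have hk : O.relIndex A ≤ O.relIndex T :=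
    Subgroup.relIndex_le_of_le_right F.le₂ (by
      have := hP.relIndex_core
      rw [← hOdef] at this
      omega)
  have hm := hP.relIndex_le_four
  rw [← hOdef] at hm
  obtain ⟨t, htA, htO⟩ : ∃ t ∈ A, t ∉ O := by
    by_contra hh
    push Not at hh
    exact F.ne.symm (Subgroup.eq_of_le_of_card_ge hh F.card_eq.le)
  have hle : O ⊓ A ≤ O ⊓ Subgroup.centralizer {t} := fun d hd =>
    ⟨hd.1, Subgroup.mem_centralizer_singleton_iff.2 (F.elem₂.1 d hd.2 t htA).eq⟩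
  have hd := Subgroup.card_le_of_le hle
  have hc := hP.fixed_bound h t (F.le₂ htA) htO
  rw [← hOdef, hO16] at hc
  rw [← F.card_eq, hO16] at hAc
  nlinarith

/-- The fixed points of the elements of `T` outside `O`. -/
theorem frame_fixed {t d : G} (ht : t ∈ T) (htO : t ∉ pCoreOf 2 P) (hd : d ∈ pCoreOf 2 P) :
    Commute t d ↔ d ∈ A := by
  obtain ⟨o, ho, a, ha, rfl⟩ := F.cover t ht
  have haO : a ∉ pCoreOf 2 P := fun h1 => htO ((pCoreOf 2 P).mul_mem ho h1)
  have hod : Commute o d := hP.commute_core ho hd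
  refine ⟨fun hc => ?_, fun hdA => hod.mul_left (F.elem₂.1 a ha d hdA)⟩
  refine F.cent₂ a ha haO d hd ?_
  simpa using ((hod.inv_left.mul_left hc)).symm

theorem exists_T_elem : ∃ t : P, (t : G) ∈ T ∧ φ t * φ t = 1 ∧ φ t ≠ 1 := by
  obtain ⟨t, htA, htO⟩ : ∃ t ∈ A, t ∉ pCoreOf 2 P := by
    by_contra hh
    push Not at hh
    exact F.ne.symm (Subgroup.eq_of_le_of_card_ge hh F.card_eq.le)
  refine ⟨⟨t, hP.le (F.le₂ htA)⟩, F.le₂ htA, ?_, fun e => htO ((hφ _).1 e)⟩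
  rw [← map_mul]
  exact (hφ _).2 (hP.sq_mem_core h (F.le₂ htA))

omit hO16 hφs F in
theorem commute_congr {g g' : P} (hgg : φ g = φ g') {d : G} (hd : d ∈ pCoreOf 2 P) :
    Commute (g : G) d ↔ Commute (g' : G) d := by
  have key : ∀ {g g' : P}, φ g = φ g' → Commute (g : G) d → Commute (g' : G) d := by
    intro g g' hgg hc
    have hm : ((g' * g⁻¹ : P) : G) ∈ pCoreOf 2 P :=
      (hφ _).1 (by rw [map_mul, map_inv, ← hgg, mul_inv_cancel])
    rw [show (g' : G) = ((g' * g⁻¹ : P) : G) * g by simp]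
    exact (hP.commute_core hm hd).mul_left hc
  exact ⟨key hgg, key hgg.symm⟩

/-- Every involution of the top is conjugate to one from `T`, and so is its fixed space. -/
theorem exists_conj_T {g : P} (hg : φ g * φ g = 1) (hg1 : φ g ≠ 1) :
    ∃ k : P, ∀ g' : P, φ g' * φ g' = 1 → φ g' ≠ 1 → φ g * φ g' = φ g' * φ g →
      ∀ d ∈ pCoreOf 2 P, (Commute (g' : G) d ↔ (k : G)⁻¹ * d * k ∈ A) := by
  obtain ⟨t, htT, ht, ht1⟩ := exists_T_elem hP h hO16 φ hφs hφ F
  obtain ⟨l, hl⟩ := SpecFive.a5_classes.1 (φ g) hg hg1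
  obtain ⟨l', hl'⟩ := SpecFive.a5_classes.1 (φ t) ht ht1
  obtain ⟨k, hk⟩ := hφs (l * l'⁻¹)
  refine ⟨k, fun g' hg' hg'1 hcom d hd => ?_⟩
  have hkt : φ k * φ t * (φ k)⁻¹ = φ g := by rw [hk, ← hl, ← hl']; group
  have hd' : (k : G)⁻¹ * d * k ∈ pCoreOf 2 P := by
    simpa using core_conj (P.inv_mem k.2) hd
  have hcom' : φ t * φ (k⁻¹ * g' * k) = φ (k⁻¹ * g' * k) * φ t := by
    have e : φ t = (φ k)⁻¹ * φ g * φ k := by rw [← hkt]; group
    rw [e, map_mul, map_mul, map_inv]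
    calc (φ k)⁻¹ * φ g * φ k * ((φ k)⁻¹ * φ g' * φ k) = (φ k)⁻¹ * (φ g * φ g') * φ k := by group
      _ = _ := by rw [hcom]; group
  have hne : φ (k⁻¹ * g' * k) ≠ 1 := fun e => hg'1 (by
    rw [map_mul, map_mul, map_inv] at e
    calc φ g' = φ k * ((φ k)⁻¹ * φ g' * φ k) * (φ k)⁻¹ := by group
      _ = 1 := by rw [e]; group)
  -- a second involution in the image of `T`
  obtain ⟨s, hsT, hs1, hst⟩ : ∃ s : P, (s : G) ∈ T ∧ φ s ≠ 1 ∧ φ s ≠ φ t := by
    by_contra hh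
    push Not at hh
    let B : Subgroup P := T.subgroupOf P
    have hle : ∀ x ∈ T, x ∈ pCoreOf 2 P ∨ (t : G)⁻¹ * x ∈ pCoreOf 2 P := by
      intro x hx
      by_cases hx1 : φ ⟨x, hP.le hx⟩ = 1
      · exact Or.inl ((hφ _).1 hx1)
      · right
        have := hh ⟨x, hP.le hx⟩ hx hx1
        exact (hφ (t⁻¹ * ⟨x, hP.le hx⟩)).1 (by rw [map_mul, map_inv, this, inv_mul_cancel])
    have h2 : (pCoreOf 2 P).relIndex T ≤ 2 := by
      refine le_of_le_of_eq (Nat.card_le_card_of_surjective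
        (fun b : Fin 2 => (QuotientGroup.mk (if b = 0 then 1 else ⟨t, htT⟩) :
          ↥T ⧸ (pCoreOf 2 P).subgroupOf T)) ?_) (Nat.card_fin 2)
      intro q
      obtain ⟨x, rfl⟩ := QuotientGroup.mk_surjective q
      rcases hle x x.2 with e | e
      · exact ⟨0, QuotientGroup.eq.2 (by simpa [Subgroup.mem_subgroupOf] using e)⟩
      · exact ⟨1, QuotientGroup.eq.2 (by simpa [Subgroup.mem_subgroupOf] using e)⟩
    have h4 : (pCoreOf 2 P).relIndex T = 4 := by
      rcases hP.relIndex_core with ⟨-, e⟩ | ⟨e, -⟩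
      · exfalso
        have h60 : Nat.card P = 60 * 16 := by
          have hker : φ.ker = (pCoreOf 2 P).subgroupOf P := Subgroup.ext fun x => hφ x
          rw [Subgroup.card_eq_card_quotient_mul_card_subgroup φ.ker,
            Nat.card_congr (QuotientGroup.quotientKerEquivOfSurjective φ hφs).toEquiv,
            SpecFive.natCard_A5, hker, Nat.card_congr (Subgroup.subgroupOfEquivOfLe (pCoreOf_le 2 P)).toEquiv,
            hO16]
        omega
      · exact e
    omega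
  have htss : φ t * φ s = φ s * φ t := by
    have h1 : φ s * φ s = 1 := by rw [← map_mul]; exact (hφ _).2 (hP.sq_mem_core h hsT)
    have h2 : φ (t * s) * φ (t * s) = 1 := by
      rw [← map_mul]; exact (hφ _).2 (hP.sq_mem_core h (T.mul_mem htT hsT))
    rw [map_mul] at h2
    calc φ t * φ s = (φ t * φ s * (φ t * φ s)) * ((φ s)⁻¹ * (φ t)⁻¹) := by group
      _ = φ s * φ t := by
        rw [h2, one_mul, inv_eq_of_mul_eq_one_right h1, inv_eq_of_mul_eq_one_right ht]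
  obtain ⟨τ, hτT, hτ⟩ : ∃ τ : P, (τ : G) ∈ T ∧ φ (k⁻¹ * g' * k) = φ τ := by
    rcases a5_four_group (φ t) ht ht1 (φ s) htss hs1 hst (φ (k⁻¹ * g' * k)) hcom'
      with e | e | e | e
    · exact absurd e hne
    · exact ⟨t, htT, e⟩
    · exact ⟨s, hsT, e⟩
    · exact ⟨t * s, T.mul_mem htT hsT, by rw [e, map_mul]⟩
  have hτO : (τ : G) ∉ pCoreOf 2 P := fun h1 => hne (by rw [hτ]; exact (hφ τ).2 h1)
  rw [← frame_fixed hP h hO16 φ hφs hφ F hτT hτO hd', ← commute_congr hP h φ hφ hτ hd']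
  show _ ↔ _ * _ = _ * _
  simp only [Subgroup.coe_mul, Subgroup.coe_inv]
  constructor
  · intro hc
    calc (k : G)⁻¹ * g' * k * ((k : G)⁻¹ * d * k) = (k : G)⁻¹ * (g' * d) * k := by group
      _ = _ := by rw [hc.eq]; group
  · intro hc
    show _ * _ = _ * _
    calc (g' : G) * d = k * ((k : G)⁻¹ * g' * k * ((k : G)⁻¹ * d * k)) * (k : G)⁻¹ := by group
      _ = _ := by rw [hc]; group

theorem fixed_eq_of_commute {g g' : P} (hg : φ g * φ g = 1) (hg1 : φ g ≠ 1)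
    (hg' : φ g' * φ g' = 1) (hg'1 : φ g' ≠ 1) (hc : φ g * φ g' = φ g' * φ g) :
    ∀ d ∈ pCoreOf 2 P, (Commute (g : G) d ↔ Commute (g' : G) d) := by
  obtain ⟨k, hk⟩ := exists_conj_T hP h hO16 φ hφs hφ F hg hg1
  exact fun d hd => (hk g hg hg1 rfl d hd).trans (hk g' hg' hg'1 hc d hd).symm

theorem card_fixed_four {g : P} (hg : φ g * φ g = 1) (hg1 : φ g ≠ 1) :
    Nat.card (pCoreOf 2 P ⊓ Subgroup.centralizer {(g : G)} : Subgroup G) = 4 := by
  obtain ⟨k, hk⟩ := exists_conj_T hP h hO16 φ hφs hφ F hg hg1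
  have key : pCoreOf 2 P ⊓ Subgroup.centralizer {(g : G)} =
      (pCoreOf 2 P ⊓ A).map (MulAut.conj (k : G)).toMonoidHom := by
    ext d
    simp only [Subgroup.mem_inf, Subgroup.mem_centralizer_singleton_iff]
    constructor
    · rintro ⟨hd, hc⟩
      refine ⟨(k : G)⁻¹ * d * k, ⟨by simpa using core_conj (P.inv_mem k.2) hd,
        (hk g hg hg1 rfl d hd).1 hc.symm⟩, ?_⟩
      show (k : G) * ((k : G)⁻¹ * d * k) * (k : G)⁻¹ = d
      group
    · rintro ⟨z, ⟨hzO, hzA⟩, rfl⟩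
      have hd : (k : G) * z * (k : G)⁻¹ ∈ pCoreOf 2 P := core_conj k.2 hzO
      refine ⟨hd, ((hk g hg hg1 rfl _ hd).2 ?_).symm⟩
      rwa [show (k : G)⁻¹ * ((k : G) * z * (k : G)⁻¹) * k = z by group]
  rw [key, Subgroup.card_map_of_injective (MulAut.conj (k : G)).injective]
  exact frame_card_inter hP h hO16 φ hφs hφ F

theorem fixed_inter_eq_one {g g' : P} (hg : φ g * φ g = 1) (hg1 : φ g ≠ 1)
    (hg' : φ g' * φ g' = 1) (hg'1 : φ g' ≠ 1) (hc : φ g * φ g' ≠ φ g' * φ g)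
    {d : G} (hd : d ∈ pCoreOf 2 P) (h1 : Commute (g : G) d) (h2 : Commute (g' : G) d) : d = 1 := by
  obtain ⟨c, hc2, hc1, hcc, h5, h51⟩ := a5_five_product _ hg hg1 _ hg' hg'1 hc
  obtain ⟨c', rfl⟩ := hφs c
  have hd' := (fixed_eq_of_commute hP h hO16 φ hφs hφ F hc2 hc1 hg' hg'1 hcc d hd).2 h2
  have hp : (g * c') ^ 5 = 1 := (h.subgroup P).pow_of_image_five φ (by rwa [map_mul]) (by rwa [map_mul])
  refine hP.fpf_core h (f := (g : G) * c') (congrArg Subtype.val hp) (fun e => h51 ?_) hd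
    (h1.mul_left hd')
  rw [← map_mul, show g * c' = 1 from Subtype.ext e, map_one]

/-- An element of order three has no fixed point on `O`. -/
theorem three_fpf {y : P} (hy3 : y ^ 3 = 1) (hy1 : y ≠ 1) {o : G} (ho : o ∈ pCoreOf 2 P)
    (hc : Commute (y : G) o) : o = 1 := by
  haveI : Fact (Nat.Prime 3) := ⟨Nat.prime_three⟩
  set O := pCoreOf 2 P with hOdef
  have hy3' : (y : G) ^ 3 = 1 := congrArg Subtype.val hy3
  have hyO : (y : G) ∉ O := fun hm => hy1 (Subtype.ext (eq_one_of_pow_coprime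
    (show Nat.Coprime 2 3 by norm_num) (by rw [pow_two]; exact hP.sq_core hm) hy3'))
  have hyφ1 : φ y ≠ 1 := fun e => hyO ((hφ y).1 e)
  obtain ⟨g₀, k₀, hg, hg1, hgy, hk, hgk⟩ := a5_pair (φ y) (by rw [← map_pow, hy3, map_one]) hyφ1
  obtain ⟨g, rfl⟩ := hφs g₀
  obtain ⟨k, rfl⟩ := hφs k₀
  set g' := k * g * k⁻¹ with hg'def
  have hg'φ : φ g' = φ k * φ g * (φ k)⁻¹ := by rw [hg'def, map_mul, map_mul, map_inv]
  have hg' : φ g' * φ g' = 1 := by
    calc φ g' * φ g' = φ k * (φ g * φ g) * (φ k)⁻¹ := by rw [hg'φ]; group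
      _ = 1 := by rw [hg]; group
  have hg'1 : φ g' ≠ 1 := fun e => hg1 (conj_eq_one_iff.1 (hg'φ ▸ e))
  rw [← hg'φ] at hgk
  -- `y` normalises both fixed spaces
  have hinv : ∀ {x : P}, φ x * φ x = 1 → φ x ≠ 1 →
      φ y * φ x * (φ y)⁻¹ * φ x = φ x * (φ y * φ x * (φ y)⁻¹) →
      ∀ d ∈ O, Commute (x : G) d → Commute (x : G) ((y : G) * d * (y : G)⁻¹) := by
    intro x hx hx1 hxy d hd hxd
    have hd' : (y : G) * d * (y : G)⁻¹ ∈ O := core_conj y.2 hd
    have e : φ (y * x * y⁻¹) = φ y * φ x * (φ y)⁻¹ := by rw [map_mul, map_mul, map_inv]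
    refine (fixed_eq_of_commute hP h hO16 φ hφs hφ F (g := y * x * y⁻¹) (g' := x) ?_ ?_ hx hx1
      (by rw [e]; exact hxy) _ hd').1 ?_
    · calc φ (y * x * y⁻¹) * φ (y * x * y⁻¹) = φ y * (φ x * φ x) * (φ y)⁻¹ := by rw [e]; group
        _ = 1 := by rw [hx]; group
    · exact fun e1 => hx1 (conj_eq_one_iff.1 (e ▸ e1))
    · show (y : G) * x * (y : G)⁻¹ * _ = _ * ((y : G) * x * (y : G)⁻¹)
      calc (y : G) * x * (y : G)⁻¹ * ((y : G) * d * (y : G)⁻¹) = y * (x * d) * (y : G)⁻¹ := by group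
        _ = _ := by rw [hxd.eq]; group
  have hkk : (φ k)⁻¹ * φ y * φ k = (φ y)⁻¹ := by
    calc (φ k)⁻¹ * φ y * φ k = (φ k)⁻¹ * (φ k * φ y * (φ k)⁻¹)⁻¹ * φ k := by rw [hk, inv_inv]
      _ = _ := by group
  have hg'y : φ y * φ g' * (φ y)⁻¹ * φ g' = φ g' * (φ y * φ g' * (φ y)⁻¹) := by
    have h2 : φ y * φ k = φ k * (φ y)⁻¹ := by
      calc φ y * φ k = φ k * ((φ k)⁻¹ * φ y * φ k) := by group
        _ = _ := by rw [hkk]
    have e : φ y * φ g' * (φ y)⁻¹ = φ k * ((φ y)⁻¹ * φ g * φ y) * (φ k)⁻¹ := by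
      calc φ y * φ g' * (φ y)⁻¹ = φ y * φ k * φ g * (φ y * φ k)⁻¹ := by rw [hg'φ]; group
        _ = φ k * (φ y)⁻¹ * φ g * (φ k * (φ y)⁻¹)⁻¹ := by rw [h2]
        _ = _ := by group
    rw [e, hg'φ]
    calc φ k * ((φ y)⁻¹ * φ g * φ y) * (φ k)⁻¹ * (φ k * φ g * (φ k)⁻¹)
        = φ k * ((φ y)⁻¹ * (φ g * (φ y * φ g * (φ y)⁻¹)) * φ y) * (φ k)⁻¹ := by group
      _ = φ k * ((φ y)⁻¹ * (φ y * φ g * (φ y)⁻¹ * φ g) * φ y) * (φ k)⁻¹ := by rw [hgy]
      _ = _ := by group
  -- `y` centralises no element of either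
  have hone : ∀ d ∈ O, Commute (g : G) d → Commute (y : G) d → d = 1 := by
    intro d hd hgd hyd
    by_contra hd1
    set C := O ⊓ Subgroup.centralizer {(g : G)} with hC
    have hmem : ∀ z : G, z ∈ C ↔ z ∈ O ∧ Commute (g : G) z := fun z => by
      rw [hC, Subgroup.mem_inf, Subgroup.mem_centralizer_singleton_iff]
      exact and_congr_right fun _ => eq_comm
    have hall : ∀ z ∈ C, Commute (y : G) z := by
      set X : Set G := (C : Set G) \ {1} with hX
      have hXc : Nat.card X = 3 := by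
        rw [Nat.card_coe_set_eq, hX, Set.ncard_sdiff_singleton_of_mem C.one_mem, ← Nat.card_coe_set_eq]
        show Nat.card C - 1 = 3
        rw [card_fixed_four hP h hO16 φ hφs hφ F hg hg1]
      have hmod := SpecFive.card_fixed_modEq Nat.prime_three hy3' X (fun z hz =>
        ⟨(hmem _).2 ⟨core_conj y.2 ((hmem z).1 hz.1).1,
          hinv hg hg1 hgy z ((hmem z).1 hz.1).1 ((hmem z).1 hz.1).2⟩,
          fun e => hz.2 (conj_eq_one_iff.1 e)⟩)
      rw [hXc] at hmod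
      haveI : Nonempty {a : X // Commute (y : G) (a : G)} :=
        ⟨⟨⟨d, (hmem d).2 ⟨hd, hgd⟩, hd1⟩, hyd⟩⟩
      have hpos := Nat.card_pos (α := {a : X // Commute (y : G) (a : G)})
      have hle : Nat.card {a : X // Commute (y : G) (a : G)} ≤ Nat.card X :=
        Nat.card_le_card_of_injective Subtype.val Subtype.val_injective
      rw [hXc] at hle
      have h3 : Nat.card {a : X // Commute (y : G) (a : G)} = Nat.card X := by
        rw [hXc]
        unfold Nat.ModEq at hmod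
        omega
      have hsurj := ((Nat.bijective_iff_injective_and_card
        (Subtype.val : {a : X // Commute (y : G) (a : G)} → X)).2
          ⟨Subtype.val_injective, h3⟩).2
      intro z hz
      by_cases hz1 : z = 1
      · rw [hz1]; exact Commute.one_right _
      · obtain ⟨⟨a, ha⟩, he⟩ := hsurj ⟨z, hz, hz1⟩
        have : (a : G) = z := congrArg Subtype.val he
        rwa [← this]
    have hall' : ∀ z ∈ O, Commute (g' : G) z → Commute (y : G) z := by
      intro z hz hgz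
      set z' := (k : G)⁻¹ * z * k with hz'
      have hz'O : z' ∈ O := by simpa [hz'] using core_conj (P.inv_mem k.2) hz
      have hgz' : Commute (g : G) z' := by
        have e : (g : G) = (k : G)⁻¹ * g' * k := by
          show (g : G) = (k : G)⁻¹ * ((k : G) * g * (k : G)⁻¹) * k
          group
        rw [e, hz']
        show _ * _ = _ * _
        calc (k : G)⁻¹ * g' * k * ((k : G)⁻¹ * z * k) = (k : G)⁻¹ * (g' * z) * k := by group
          _ = _ := by rw [hgz.eq]; group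
      have h1 : Commute ((k : G) * y * (k : G)⁻¹) z := by
        have h2 := hall z' ((hmem z').2 ⟨hz'O, hgz'⟩)
        show _ * _ = _ * _
        calc (k : G) * y * (k : G)⁻¹ * z = k * (y * z') * (k : G)⁻¹ := by rw [hz']; group
          _ = _ := by rw [h2.eq, hz']; group
      have e : φ (k * y * k⁻¹) = φ y⁻¹ := by rw [map_mul, map_mul, map_inv, hk, map_inv]
      simpa using ((commute_congr hP h φ hφ e hz).1 h1).inv_left
    -- so `y` centralises `O`
    let C' := O ⊓ Subgroup.centralizer {(g' : G)}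
    have hsurj : Function.Surjective
        (fun r : C × C' => (⟨(r.1 : G) * r.2, O.mul_mem r.1.2.1 r.2.2.1⟩ : O)) := by
      refine ((Nat.bijective_iff_injective_and_card _).2 ⟨?_, ?_⟩).2
      · rintro ⟨a, b⟩ ⟨a', b'⟩ e
        have e' : (a : G) * b = a' * b' := congrArg Subtype.val e
        have h1 : (a' : G)⁻¹ * a = b' * (b : G)⁻¹ := by
          calc (a' : G)⁻¹ * a = (a' : G)⁻¹ * (a * b) * (b : G)⁻¹ := by group
            _ = _ := by rw [e']; group
        have h2 : (a' : G)⁻¹ * a ∈ C := C.mul_mem (C.inv_mem a'.2) a.2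
        have h3 : (a' : G)⁻¹ * a ∈ C' := h1 ▸ C'.mul_mem b'.2 (C'.inv_mem b.2)
        have h4 := fixed_inter_eq_one hP h hO16 φ hφs hφ F hg hg1 hg' hg'1 hgk h2.1
          (Subgroup.mem_centralizer_singleton_iff.1 h2.2).symm
          (Subgroup.mem_centralizer_singleton_iff.1 h3.2).symm
        rw [h4] at h1
        exact Prod.ext (Subtype.ext (inv_mul_eq_one.1 h4).symm)
          (Subtype.ext (mul_inv_eq_one.1 h1.symm).symm)
      · rw [Nat.card_prod, card_fixed_four hP h hO16 φ hφs hφ F hg hg1,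
          card_fixed_four hP h hO16 φ hφs hφ F hg' hg'1, hO16]
    refine hyO (hP.cent ⟨Subgroup.mem_centralizer_iff.2 fun z hz => ?_, y.2⟩)
    obtain ⟨⟨a, b⟩, e⟩ := hsurj ⟨z, hz⟩
    have e' : (a : G) * b = z := congrArg Subtype.val e
    rw [← e']
    exact ((hall a a.2).mul_right (hall' b b.2.1
      (Subgroup.mem_centralizer_singleton_iff.1 b.2.2).symm)).eq.symm
  -- decomposition of `o`
  let C := O ⊓ Subgroup.centralizer {(g : G)}
  let C' := O ⊓ Subgroup.centralizer {(g' : G)}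
  let f : C × C' → O := fun r => ⟨(r.1 : G) * r.2, O.mul_mem r.1.2.1 r.2.2.1⟩
  have hf : Function.Injective f := by
    rintro ⟨a, b⟩ ⟨a', b'⟩ e
    have e' : (a : G) * b = a' * b' := congrArg Subtype.val e
    have h1 : (a' : G)⁻¹ * a = b' * (b : G)⁻¹ := by
      calc (a' : G)⁻¹ * a = (a' : G)⁻¹ * (a * b) * (b : G)⁻¹ := by group
        _ = _ := by rw [e']; group
    have h2 : (a' : G)⁻¹ * a ∈ C := C.mul_mem (C.inv_mem a'.2) a.2
    have h3 : (a' : G)⁻¹ * a ∈ C' := h1 ▸ C'.mul_mem b'.2 (C'.inv_mem b.2)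
    have h4 := fixed_inter_eq_one hP h hO16 φ hφs hφ F hg hg1 hg' hg'1 hgk h2.1
      (Subgroup.mem_centralizer_singleton_iff.1 h2.2).symm
      (Subgroup.mem_centralizer_singleton_iff.1 h3.2).symm
    rw [h4] at h1
    exact Prod.ext (Subtype.ext (inv_mul_eq_one.1 h4).symm)
      (Subtype.ext (mul_inv_eq_one.1 h1.symm).symm)
  have hfs : Function.Surjective f := ((Nat.bijective_iff_injective_and_card f).2 ⟨hf, by
    rw [Nat.card_prod, card_fixed_four hP h hO16 φ hφs hφ F hg hg1,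
      card_fixed_four hP h hO16 φ hφs hφ F hg' hg'1, hO16]⟩).2
  obtain ⟨⟨a, b⟩, e⟩ := hfs ⟨o, ho⟩
  have e' : (a : G) * b = o := congrArg Subtype.val e
  have haC := (Subgroup.mem_centralizer_singleton_iff.1 a.2.2).symm
  have hbC := (Subgroup.mem_centralizer_singleton_iff.1 b.2.2).symm
  have hfix : f (⟨(y : G) * a * (y : G)⁻¹, core_conj y.2 a.2.1, Subgroup.mem_centralizer_singleton_iff.2
        (hinv hg hg1 hgy a a.2.1 haC).eq.symm⟩,
      ⟨(y : G) * b * (y : G)⁻¹, core_conj y.2 b.2.1, Subgroup.mem_centralizer_singleton_iff.2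
        (hinv hg' hg'1 hg'y b b.2.1 hbC).eq.symm⟩) = f (a, b) := Subtype.ext (by
    show (y : G) * a * (y : G)⁻¹ * ((y : G) * b * (y : G)⁻¹) = a * b
    rw [show (y : G) * a * (y : G)⁻¹ * ((y : G) * b * (y : G)⁻¹) = y * (a * b) * (y : G)⁻¹ by group,
      e', hc.eq, mul_inv_cancel_right])
  have hpair := hf hfix
  have hya : Commute (y : G) a := mul_inv_eq_iff_eq_mul.1 (congrArg (fun r => (r.1 : G)) hpair)
  have hyb : Commute (y : G) b := mul_inv_eq_iff_eq_mul.1 (congrArg (fun r => (r.2 : G)) hpair)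
  have ha1 : (a : G) = 1 := hone a a.2.1 haC hya
  -- transport `b` into the first space
  set b' := (k : G)⁻¹ * b * k with hb'
  have hb'O : b' ∈ O := by simpa [hb'] using core_conj (P.inv_mem k.2) b.2.1
  have hgb : Commute (g : G) b' := by
    have e : (g : G) = (k : G)⁻¹ * g' * k := by
      show (g : G) = (k : G)⁻¹ * ((k : G) * g * (k : G)⁻¹) * k
      group
    rw [e, hb']
    show _ * _ = _ * _
    calc (k : G)⁻¹ * g' * k * ((k : G)⁻¹ * b * k) = (k : G)⁻¹ * (g' * b) * k := by group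
      _ = _ := by rw [hbC]; group
  have hyb' : Commute (y : G) b' := by
    have e : φ (k⁻¹ * y * k) = φ y⁻¹ := by rw [map_mul, map_mul, map_inv, hkk, map_inv]
    have h1 : Commute ((k : G)⁻¹ * y * k) b' := by
      rw [hb']
      show _ * _ = _ * _
      calc (k : G)⁻¹ * y * k * ((k : G)⁻¹ * b * k) = (k : G)⁻¹ * (y * b) * k := by group
        _ = _ := by rw [hyb.eq]; group
    simpa using ((commute_congr hP h φ hφ e hb'O).1 h1).inv_left
  have hb1 : (b : G) = 1 := by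
    have := hone b' hb'O hgb hyb'
    calc (b : G) = k * ((k : G)⁻¹ * b * k) * (k : G)⁻¹ := by group
      _ = 1 := by rw [← hb', this]; group
  rw [← e', ha1, hb1, one_mul]

omit hO16 hφs hφ F in
theorem pow_four_of_commute (h3 : ∀ y : P, y ^ 3 = 1 → y ≠ 1 → ∀ o ∈ pCoreOf 2 P,
    Commute (y : G) o → o = 1) {o : G} (ho : o ∈ pCoreOf 2 P) (ho1 : o ≠ 1) {w : P}
    (hw : Commute (w : G) o) : (w : G) ^ 4 = 1 := by
  rcases h (w : G) with e | e | e
  · exact e
  · by_cases hw1 : (w : G) = 1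
    · rw [hw1, one_pow]
    · exact absurd (hP.fpf_core h e hw1 ho hw) ho1
  · by_cases hw2 : (w : G) ^ 2 = 1
    · rw [show (4 : ℕ) = 2 * 2 from rfl, pow_mul, hw2, one_pow]
    · refine absurd (h3 (w ^ 2) (Subtype.ext ?_) (fun e1 => hw2 (congrArg Subtype.val e1)) o ho ?_) ho1
      · show ((w : G) ^ 2) ^ 3 = 1
        rw [← pow_mul]; exact e
      · exact hw.pow_left 2

end Par5

namespace Par5

variable {A : Subgroup G} (hP : Par5 T P) (h : Ord6 G) (hO16 : Nat.card (pCoreOf 2 P) = 16)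
  (hi : Nonempty (↥P ⧸ pCore 2 ↥P ≃* A5)) (F : TwoFrame T (pCoreOf 2 P) A)
include hP h hO16 hi F

/-- (f) The centralisers of the involutions of `O` are 2-groups. -/
theorem isPGroup_centralizer_of_frame : ∀ o ∈ pCoreOf 2 P, o ≠ 1 →
    IsPGroup 2 (P ⊓ Subgroup.centralizer {o} : Subgroup G) := by
  obtain ⟨e⟩ := hi
  let φ : P →* A5 := e.toMonoidHom.comp (QuotientGroup.mk' _)
  have hφs : Function.Surjective φ := e.surjective.comp (QuotientGroup.mk'_surjective _)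
  have hφ : ∀ g : P, φ g = 1 ↔ (g : G) ∈ pCoreOf 2 P := fun g => by
    rw [← mem_core_iff, ← QuotientGroup.eq_one_iff]
    exact e.map_eq_one_iff
  intro o ho ho1 w
  refine ⟨2, Subtype.ext ?_⟩
  exact pow_four_of_commute hP h
    (fun y hy hy1 o ho hc => three_fpf hP h hO16 φ hφs hφ F hy hy1 ho hc) ho ho1
    (w := ⟨w, w.2.1⟩) (Subgroup.mem_centralizer_singleton_iff.1 w.2.2)

/-- (f) Every involution of `O` is conjugate into `O ∩ A`. -/
theorem exists_conj_mem_of_frame : ∀ o ∈ pCoreOf 2 P, ∃ g ∈ P, g * o * g⁻¹ ∈ pCoreOf 2 P ⊓ A := by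
  haveI : Fact (Nat.Prime 2) := ⟨Nat.prime_two⟩
  set O := pCoreOf 2 P with hOdef
  intro o ho
  by_cases ho1 : o = 1
  · exact ⟨1, P.one_mem, by rw [ho1]; simp⟩
  have h4 : Nat.card (O ⊓ A : Subgroup G) = 4 := by
    obtain ⟨e⟩ := hi
    exact frame_card_inter hP h hO16 (e.toMonoidHom.comp (QuotientGroup.mk' _))
      (e.surjective.comp (QuotientGroup.mk'_surjective _)) (fun g => by
        rw [← mem_core_iff, ← QuotientGroup.eq_one_iff]
        exact e.map_eq_one_iff) F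
  obtain ⟨z, hz, hz1⟩ : ∃ z ∈ O ⊓ A, z ≠ 1 := by
    refine (O ⊓ A).bot_or_exists_ne_one.resolve_left fun e => ?_
    rw [e, Subgroup.card_bot] at h4
    norm_num at h4
  set C := (P ⊓ Subgroup.centralizer {o}).subgroupOf P with hC
  let act : P → {x : O // x ≠ 1} := fun g => ⟨⟨(g : G) * o * (g : G)⁻¹, core_conj g.2 ho⟩,
    fun e => ho1 (conj_eq_one_iff.1 (congrArg Subtype.val e))⟩
  let f : ↥P ⧸ C → {x : O // x ≠ 1} := Quotient.lift act (by
    intro a b hab
    have hab' : a⁻¹ * b ∈ C := QuotientGroup.leftRel_apply.1 hab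
    have hc := (Subgroup.mem_centralizer_singleton_iff.1 hab'.2).symm
    refine Subtype.ext (Subtype.ext ?_)
    show (a : G) * o * (a : G)⁻¹ = (b : G) * o * (b : G)⁻¹
    have e : (b : G) = (a : G) * ((a : G)⁻¹ * b) := by group
    conv_rhs => rw [e]
    have hc' : (a : G)⁻¹ * b * o * ((a : G)⁻¹ * b)⁻¹ = o := by
      rw [mul_inv_eq_iff_eq_mul]; exact hc.symm
    calc (a : G) * o * (a : G)⁻¹ = a * ((a : G)⁻¹ * b * o * ((a : G)⁻¹ * b)⁻¹) * (a : G)⁻¹ := by
          rw [hc']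
      _ = _ := by group)
  have hinj : Function.Injective f := by
    intro q r
    induction q, r using Quotient.inductionOn₂ with
    | h a b =>
      intro e
      have e' : (a : G) * o * (a : G)⁻¹ = (b : G) * o * (b : G)⁻¹ :=
        congrArg (fun x : {x : O // x ≠ 1} => ((x : O) : G)) e
      refine QuotientGroup.eq.2 ⟨(a⁻¹ * b).2, Subgroup.mem_centralizer_singleton_iff.2 ?_⟩
      show (a : G)⁻¹ * b * o = o * ((a : G)⁻¹ * b)
      calc (a : G)⁻¹ * b * o = (a : G)⁻¹ * ((b : G) * o * (b : G)⁻¹) * b := by group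
        _ = _ := by rw [← e']; group
  have hX : Nat.card {x : O // x ≠ 1} = 15 := by
    haveI := Fintype.ofFinite O
    classical
    rw [Nat.card_eq_fintype_card, Fintype.card_subtype_compl, Fintype.card_subtype_eq,
      ← Nat.card_eq_fintype_card, hO16]
  have hidx : 15 ≤ C.index := by
    have hPc : Nat.card P = 60 * 16 := by
      obtain ⟨e⟩ := hi
      rw [card_eq_quot (P := P), Nat.card_congr e.toEquiv, SpecFive.natCard_A5, ← hOdef, hO16]
    have hCp : IsPGroup 2 C :=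
      (hP.isPGroup_centralizer_of_frame h hO16 hi F o ho ho1).comap_of_injective _
        P.subtype_injective
    obtain ⟨j, hj⟩ := hCp.exists_card_eq
    have hmul := C.card_mul_index
    rw [hj, hPc] at hmul
    have hj6 : j ≤ 6 := by
      by_contra hh
      have : 2 ^ 7 ∣ 60 * 16 := hmul ▸ dvd_mul_of_dvd_left (pow_dvd_pow 2 (by omega)) _
      norm_num at this
    have h64 : 2 ^ j ≤ 64 := le_trans (Nat.pow_le_pow_right (by norm_num) hj6) (by norm_num)
    nlinarith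
  have hsurj : Function.Surjective f := by
    refine ((Nat.bijective_iff_injective_and_card f).2 ⟨hinj, ?_⟩).2
    have h1 := Nat.card_le_card_of_injective f hinj
    rw [hX] at h1 ⊢
    show C.index = 15
    exact le_antisymm h1 hidx
  obtain ⟨q, hq⟩ := hsurj ⟨⟨z, hz.1⟩, fun e => hz1 (congrArg Subtype.val e)⟩
  induction q using Quotient.inductionOn with
  | h a =>
    refine ⟨a, a.2, ?_⟩
    have e : (a : G) * o * (a : G)⁻¹ = z :=
      congrArg (fun x : {x : O // x ≠ 1} => ((x : O) : G)) hq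
    rw [e]
    exact hz

end Par5

end CfsgLib.SpecSix
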