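import Cfsg.Agent.SpecSix.Parabolic
import Cfsg.Agent.SpecSix.BadPair
import Cfsg.Agent.SpecSix.Par5Facts
import Cfsg.Agent.TwoTimesDihedralEight.Fusion
import Cfsg.Agent.S0107

/-!
# The 2-locals over a Sylow 2-subgroup in characteristic 2 type
-/

set_option autoImplicit false
set_option linter.unusedSectionVars false
set_option linter.style.haveILetI false

namespace CfsgLib.SpecSix

open Cfsg
open CfsgLib.SpecFive (Elem A5 eq_one_of_pow_coprime)

universe u

variable {G : Type u} [Group G] [Finite G]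

theorem pCoreOf_map (P : Subgroup G) (g : G) :
    pCoreOf 2 (P.map (MulAut.conj g).toMonoidHom) =
      (pCoreOf 2 P).map (MulAut.conj g).toMonoidHom := by
  have e := CfsgLib.Constrained.pCore_map
    (P.equivMapOfInjective (MulAut.conj g).toMonoidHom (MulAut.conj g).injective) 2
  unfold pCoreOf
  rw [← e, Subgroup.map_map, Subgroup.map_map]
  rfl

theorem map_conj_eq_of_mem_normalizer {H : Subgroup G} {g : G}
    (hg : g ∈ Subgroup.normalizer (H : Set G)) : H.map (MulAut.conj g).toMonoidHom = H := by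
  refine Subgroup.eq_of_le_of_card_ge ?_ ?_
  · rintro _ ⟨x, hx, rfl⟩
    exact (Subgroup.mem_normalizer_iff.1 hg x).1 hx
  · rw [Subgroup.card_map_of_injective (MulAut.conj g).injective]

/-- Any conjugate of a normal elementary subgroup of a parabolic that is self-centralising in the
core and centralised outside the core is impossible. -/
theorem Par3.false_of_central {T P A₀ : Subgroup G} (hP : Par3 T P) (hA : A₀ ≤ pCoreOf 2 P)
    (hn : P ≤ Subgroup.normalizer (A₀ : Set G))
    (hc : ∀ c ∈ pCoreOf 2 P, (∀ a ∈ A₀, Commute c a) → c ∈ A₀)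
    {t : G} (ht : t ∈ T) (htO : t ∉ pCoreOf 2 P) (htc : ∀ a ∈ A₀, Commute t a) : False := by
  haveI : Fact (Nat.Prime 3) := ⟨Nat.prime_three⟩
  set C : Subgroup G := P ⊓ Subgroup.centralizer (A₀ : Set G) with hC
  have hcomm : ∀ {g : G}, g ∈ C → ∀ a ∈ A₀, Commute g a := fun hg a ha =>
    (Subgroup.mem_centralizer_iff.1 hg.2 a ha).symm
  have htC : t ∈ C := ⟨hP.le ht, Subgroup.mem_centralizer_iff.2 fun a ha => (htc a ha).symm⟩
  have hCn : ∀ g ∈ P, ∀ c ∈ C, g * c * g⁻¹ ∈ C := by
    intro g hg c hcC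
    refine ⟨P.mul_mem (P.mul_mem hg hcC.1) (P.inv_mem hg), Subgroup.mem_centralizer_iff.2 fun a ha => ?_⟩
    have ha' : g⁻¹ * a * g ∈ A₀ := by
      have := (Subgroup.mem_normalizer_iff.1 (hn (P.inv_mem hg)) a).1 ha
      simpa using this
    have e := (hcomm hcC _ ha').eq
    calc a * (g * c * g⁻¹) = g * ((g⁻¹ * a * g) * c) * g⁻¹ := by group
      _ = g * (c * (g⁻¹ * a * g)) * g⁻¹ := by rw [e]
      _ = g * c * g⁻¹ * a := by group
  obtain ⟨x, hx⟩ : ∃ x : C, orderOf x = 3 := by
    refine exists_prime_orderOf_dvd_card' (G := C) 3 ?_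
    by_contra h3
    have hd : Nat.card C ∣ 3 * Nat.card T := hP.card_eq ▸ Subgroup.card_dvd_of_le inf_le_left
    have hd' : Nat.card C ∣ Nat.card T :=
      ((Nat.Prime.coprime_iff_not_dvd Nat.prime_three).2 h3).symm.dvd_of_dvd_mul_left hd
    haveI : Fact (Nat.Prime 2) := ⟨Nat.prime_two⟩
    obtain ⟨k, hk⟩ := IsPGroup.iff_card.1 hP.two
    rw [hk] at hd'
    obtain ⟨j, -, hj⟩ := (Nat.dvd_prime_pow Nat.prime_two).1 hd'
    exact htO (le_pCoreOf_of inf_le_left (IsPGroup.of_card hj) hCn htC)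
  have hx3 : (x : G) ^ 3 = 1 := congrArg Subtype.val (show x ^ 3 = 1 by rw [← hx, pow_orderOf_eq_one])
  have hx1 : (x : G) ≠ 1 := fun e => by
    rw [show x = 1 from Subtype.ext e, orderOf_one] at hx
    norm_num at hx
  refine hx1 (eq_one_of_two_three (isPGroup_pCoreOf P)
    (hP.cent ⟨Subgroup.mem_centralizer_iff.2 fun o ho => ?_, x.2.1⟩) hx3)
  set z := (x : G) * o * (x : G)⁻¹ * o⁻¹ with hz
  have hzO : z ∈ pCoreOf 2 P :=
    (pCoreOf 2 P).mul_mem (pCoreOf_conj_mem x.2.1 ho) ((pCoreOf 2 P).inv_mem ho)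
  have hzC : z ∈ C := by
    rw [hz, show (x : G) * o * (x : G)⁻¹ * o⁻¹ = (x : G) * (o * (x : G)⁻¹ * o⁻¹) by group]
    exact C.mul_mem x.2 (hCn o (pCoreOf_le 2 P ho) _ (C.inv_mem x.2))
  have hzA : z ∈ A₀ := hc z hzO (hcomm hzC)
  have hxz : Commute (x : G) z := hcomm x.2 z hzA
  have := eq_of_pow_conj (show (x : G) * o * (x : G)⁻¹ = z * o by rw [hz]; group) hxz 3
  rw [hx3, one_mul, inv_one, mul_one] at this
  have hz1 : z = 1 := eq_one_of_two_three (isPGroup_pCoreOf P) hzO (mul_eq_right.1 this.symm)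
  exact (mul_inv_eq_iff_eq_mul.1 (mul_inv_eq_one.1 (hz.symm.trans hz1))).symm

/-- With a frame on a Sylow 2-subgroup there are no parabolics with top `S₃`. -/
theorem TwoFrame.not_par3 {T A₁ A₂ P : Subgroup G} (F : TwoFrame T A₁ A₂) (hT : Nat.card T = 64)
    (h16 : Nat.card A₁ = 16) (h4 : Nat.card (A₁ ⊓ A₂ : Subgroup G) = 4) (hP : Par3 T P) : False := by
  haveI : Fact (Nat.Prime 2) := ⟨Nat.prime_two⟩
  -- one of the two is not in the core
  wlog hnot : ¬ A₁ ≤ pCoreOf 2 P generalizing A₁ A₂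
  · refine this F.symm (F.card_eq ▸ h16) (by rw [inf_comm]; exact h4) fun h2 => ?_
    push Not at hnot
    exact hP.core_lt (le_antisymm hP.core_le_base fun t ht => by
      obtain ⟨a, ha, b, hb, rfl⟩ := F.cover t ht
      exact (pCoreOf 2 P).mul_mem (hnot ha) (h2 hb))
  set O := pCoreOf 2 P with hO
  set B₁ := A₁ ⊓ O with hB₁
  have hOT : O ≤ T := hP.core_le_base
  have hcO : Nat.card O = 32 := by
    have := hP.core_eq
    rw [hT, ← hO] at this
    omega
  have hrelT : O.relIndex T = 2 := by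
    have h := Subgroup.relIndex_mul_relIndex ⊥ O T bot_le hOT
    rw [Subgroup.relIndex_bot_left, Subgroup.relIndex_bot_left, hcO, hT] at h
    omega
  have hhalf : ∀ A : Subgroup G, A ≤ T → ¬ A ≤ O → 2 * Nat.card (A ⊓ O : Subgroup G) = Nat.card A := by
    intro A hA hnA
    have h1 := card_inf_mul_relIndex A O
    have h2 : O.relIndex A ∣ 2 ∨ O.relIndex A ≤ 2 :=
      Or.inr (hrelT ▸ Subgroup.relIndex_le_of_le_right hA (by rw [hrelT]; norm_num))
    have h3 : O.relIndex A ≠ 1 := fun e => hnA (Subgroup.relIndex_eq_one.1 e)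
    have h4 : O.relIndex A ≠ 0 := fun e => by rw [e, mul_zero] at h1; exact Nat.card_pos.ne' h1.symm
    rcases h2 with h2 | h2
    · rcases (Nat.dvd_prime Nat.prime_two).1 h2 with e | e
      · exact absurd e h3
      · rw [e] at h1; omega
    · rw [show O.relIndex A = 2 by omega] at h1; omega
  have hB₁8 : Nat.card B₁ = 8 := by
    have := hhalf A₁ F.le₁ hnot
    rw [h16] at this
    rw [hB₁]; omega
  obtain ⟨b, hbB, hbA₂⟩ : ∃ b ∈ B₁, b ∉ A₂ := by
    by_contra hall
    push Not at hall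
    have := Subgroup.card_le_of_le (le_inf (inf_le_left : B₁ ≤ A₁) fun x hx => hall x hx)
    rw [h4, hB₁8] at this
    omega
  obtain ⟨t, ht, htO⟩ : ∃ t ∈ A₁, t ∉ O := by
    by_contra hall
    push Not at hall
    exact hnot hall
  refine hP.false_of_central (A₀ := B₁) inf_le_right ?_ ?_ (F.le₁ ht) htO
    (fun a ha => F.elem₁.1 t ht a ha.1)
  · -- `B₁` is normal
    have hB2 : ∀ B : Subgroup G, B ≤ O → Elem B → 8 ≤ Nat.card B → B ≤ A₁ → B = B₁ := fun B hBO _ h8 hle =>
      Subgroup.eq_of_le_of_card_ge (le_inf hle hBO) (by rw [hB₁8]; exact h8)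
    have himage : ∀ g ∈ P, ∀ B : Subgroup G, B ≤ O → Elem B →
        B.map (MulAut.conj g).toMonoidHom ≤ O ∧ Elem (B.map (MulAut.conj g).toMonoidHom) := by
      intro g hg B hB hBe
      exact ⟨by rintro _ ⟨x, hx, rfl⟩; exact pCoreOf_conj_mem hg (hB hx), hBe.map _⟩
    have hdicho : ∀ g ∈ P, B₁.map (MulAut.conj g).toMonoidHom = B₁ ∨
        B₁.map (MulAut.conj g).toMonoidHom ≤ A₂ := by
      intro g hg
      obtain ⟨h1, h2⟩ := himage g hg B₁ inf_le_right (F.elem₁.mono inf_le_left)
      rcases F.only _ (h1.trans hOT) h2 with h | h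
      · exact Or.inl (hB2 _ h1 h2 (by rw [Subgroup.card_map_of_injective (MulAut.conj g).injective, hB₁8]) h)
      · exact Or.inr h
    intro g hg
    rcases hdicho g hg with e | e
    · exact SpecFive.mem_normalizer_of_map_eq e
    exfalso
    by_cases hA₂ : A₂ ≤ O
    · -- `A₂` is fixed
      obtain ⟨h1, h2⟩ := himage g⁻¹ (P.inv_mem hg) A₂ hA₂ F.elem₂
      have hc : Nat.card (A₂.map (MulAut.conj g⁻¹).toMonoidHom) = 16 := by
        rw [Subgroup.card_map_of_injective (MulAut.conj g⁻¹).injective, ← F.card_eq, h16]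
      have hle : A₂.map (MulAut.conj g⁻¹).toMonoidHom ≤ A₂ := by
        rcases F.only _ (h1.trans hOT) h2 with h | h
        · exact absurd (Subgroup.eq_of_le_of_card_ge h (by rw [hc, h16]) ▸ h1) hnot
        · exact h
      refine hbA₂ ?_
      have := hle ⟨g * b * g⁻¹, e ⟨b, hbB, rfl⟩, rfl⟩
      simpa [mul_assoc] using this
    · -- only two elementary subgroups of order eight in the core
      set B₂ := A₂ ⊓ O with hB₂
      have hB₂8 : Nat.card B₂ = 8 := by
        have := hhalf A₂ F.le₂ hA₂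
        rw [← F.card_eq, h16] at this
        rw [hB₂]; omega
      have hne : B₁ ≠ B₂ := fun e => hbA₂ ((e ▸ hbB : b ∈ B₂).1)
      have hperm : ∀ g ∈ P, ∀ B, (B = B₁ ∨ B = B₂) →
          B.map (MulAut.conj g).toMonoidHom = B₁ ∨ B.map (MulAut.conj g).toMonoidHom = B₂ := by
        intro g hg B hB
        obtain ⟨h1, h2⟩ : B.map (MulAut.conj g).toMonoidHom ≤ O ∧
            Elem (B.map (MulAut.conj g).toMonoidHom) := by
          rcases hB with rfl | rfl
          · exact himage g hg _ inf_le_right (F.elem₁.mono inf_le_left)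
          · exact himage g hg _ inf_le_right (F.elem₂.mono inf_le_left)
        have h8 : 8 ≤ Nat.card (B.map (MulAut.conj g).toMonoidHom) := by
          rw [Subgroup.card_map_of_injective (MulAut.conj g).injective]
          rcases hB with rfl | rfl <;> omega
        rcases F.only _ (h1.trans hOT) h2 with h | h
        · exact Or.inl (hB2 _ h1 h2 h8 h)
        · exact Or.inr (Subgroup.eq_of_le_of_card_ge (le_inf h h1) (by rw [hB₂8]; exact h8))
      -- the elements fixing `B₁` contain `T`, so `T` moves nothing and elements of order three neither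
      let K : Subgroup G := P ⊓ Subgroup.normalizer (B₁ : Set G)
      have hTK : T ≤ K := fun s hs => ⟨hP.le hs, mem_normalizer_of_conj_mem fun a ha =>
        ⟨F.conj_mem hs ha.1, pCoreOf_conj_mem (hP.le hs) ha.2⟩⟩
      obtain ⟨x, hxP, hx3, hx1, hxT⟩ := hP.exists_three
      have hxB : B₁.map (MulAut.conj x).toMonoidHom = B₁ := by
        have comp : ∀ B : Subgroup G, ∀ a c : G,
            (B.map (MulAut.conj a).toMonoidHom).map (MulAut.conj c).toMonoidHom =
              B.map (MulAut.conj (c * a)).toMonoidHom := fun B a c => by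
          rw [Subgroup.map_map, map_mul]; rfl
        have hone : ∀ B : Subgroup G, B.map (MulAut.conj (1 : G)).toMonoidHom = B := fun B => by
          rw [map_one]; exact Subgroup.map_id B
        rcases hperm x hxP B₁ (Or.inl rfl) with e1 | e1
        · exact e1
        exfalso
        have h3 : B₁.map (MulAut.conj (x * (x * x))).toMonoidHom = B₁ := by
          rw [show x * (x * x) = x ^ 3 by simp [pow_succ, mul_assoc], hx3, hone]
        rw [← comp, ← comp, e1] at h3
        rcases hperm x hxP B₂ (Or.inr rfl) with e2 | e2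
        · rw [e2, e1] at h3; exact hne h3.symm
        · rw [e2, e2] at h3; exact hne h3.symm
      have hPK := hP.le_of_mem hTK hxP ⟨hxP, SpecFive.mem_normalizer_of_map_eq hxB⟩ hxT
      refine hbA₂ (e ?_)
      have := (Subgroup.mem_normalizer_iff.1 (hPK hg).2 (g⁻¹ * b * g)).2
      refine ⟨g⁻¹ * b * g, this (by simpa [mul_assoc] using hbB), by simp [mul_assoc]⟩
  · -- self-centralising
    intro c hc hcc
    obtain ⟨a, ha, a', ha', rfl⟩ := F.cover c (hOT hc)
    have hab : Commute b a' := by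
      have h1 : Commute (a * a') b := hcc b hbB
      have h2 : Commute a b := F.elem₁.1 a ha b hbB.1
      have := h2.inv_left.mul_left h1
      simpa using this.symm
    exact ⟨A₁.mul_mem ha (F.cent₁ b hbB.1 hbA₂ a' ha' hab), hc⟩

section Sylow

variable [IsSimpleGroup G] (hna : ¬ IsMulCommutative G)
include hna

theorem normalizer_ne_top {X : Subgroup G} (hXp : IsPGroup 2 X) (hX : X ≠ ⊥) :
    Subgroup.normalizer (X : Set G) ≠ ⊤ := by
  haveI : Fact (Nat.Prime 2) := ⟨Nat.prime_two⟩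
  intro e
  haveI : X.Normal := Subgroup.normalizer_eq_top_iff.1 e
  rcases IsSimpleGroup.eq_bot_or_eq_top_of_normal X inferInstance with h | h
  · exact hX h
  · apply hna
    haveI := (hXp.isNilpotent : Group.IsNilpotent X)
    subst h
    have : Group.IsSolvable G :=
      Group.isSolvable_of_surjective (f := (Subgroup.topEquiv (G := G)).toMonoidHom)
        (Subgroup.topEquiv (G := G)).surjective
    exact ⟨⟨IsSimpleGroup.comm_iff_isSolvable.2 this⟩⟩

theorem local_cent (h2 : IsCharacteristicTwoType G) {X : Subgroup G} (hXp : IsPGroup 2 X) (hX : X ≠ ⊥) :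
    Subgroup.centralizer (pCoreOf 2 (Subgroup.normalizer (X : Set G)) : Set G) ⊓
        Subgroup.normalizer (X : Set G) ≤ pCoreOf 2 (Subgroup.normalizer (X : Set G)) := by
  rintro z ⟨hz, hzN⟩
  refine ⟨⟨z, hzN⟩, h2.2 X hXp hX (Subgroup.mem_centralizer_iff.2 fun o ho => Subtype.ext ?_), rfl⟩
  exact Subgroup.mem_centralizer_iff.1 hz o ⟨o, ho, rfl⟩

omit [IsSimpleGroup G] hna in
theorem sylow_odd_relIndex (S : Sylow 2 G) {L : Subgroup G} (hSL : (S : Subgroup G) ≤ L) :
    ¬ 2 ∣ (S : Subgroup G).relIndex L := by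
  haveI : Fact (Nat.Prime 2) := ⟨Nat.prime_two⟩
  exact fun hd => S.not_dvd_index (hd.trans (Dvd.intro _ (Subgroup.relIndex_mul_index hSL)))

/-- The 2-locals over `S` are generated by the normaliser of `S` and the parabolics over `S`. -/
theorem local_le (h : Ord6 G) (hrec : NoSixBelow.{u} (Nat.card G)) (h2 : IsCharacteristicTwoType G)
    (S : Sylow 2 G) {M : Subgroup G}
    (hN : Subgroup.normalizer ((S : Subgroup G) : Set G) ≤ M)
    (h3 : ∀ P, Par3 (S : Subgroup G) P → P ≤ M) (h5 : ∀ P, Par5 (S : Subgroup G) P → P ≤ M)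
    (L : Subgroup G) (hL : IsTwoLocal L) (hSL : (S : Subgroup G) ≤ L) : L ≤ M := by
  obtain ⟨X, hXp, hX, rfl⟩ := hL
  exact le_of_parabolics h hrec (normalizer_ne_top hna hXp hX) hSL S.isPGroup'
    (sylow_odd_relIndex S hSL) (local_cent hna h2 hXp hX) (inf_le_right.trans hN)
    (fun P hP _ => h3 P hP) (fun P hP _ => h5 P hP)

omit [IsSimpleGroup G] hna in
/-- No element of order six when no involution of `S` commutes with an element of order three. -/
theorem no_six_of_centralizers (S : Sylow 2 G)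
    (hS : ∀ t ∈ (S : Subgroup G), t * t = 1 → t ≠ 1 → ∀ y : G, y ^ 3 = 1 → Commute t y → y = 1)
    (g : G) : orderOf g ≠ 6 := by
  haveI : Fact (Nat.Prime 2) := ⟨Nat.prime_two⟩
  intro hg
  have h6 : g ^ 6 = 1 := hg ▸ pow_orderOf_eq_one g
  have ht1 : g ^ 3 ≠ 1 := fun e => by
    have := orderOf_dvd_of_pow_eq_one e
    rw [hg] at this
    norm_num at this
  have hy1 : g ^ 2 ≠ 1 := fun e => by
    have := orderOf_dvd_of_pow_eq_one e
    rw [hg] at this
    norm_num at this
  have hp : IsPGroup 2 (Subgroup.zpowers (g ^ 3)) := by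
    refine IsPGroup.of_card (n := 1) ?_
    rw [Nat.card_zpowers, pow_one]
    exact orderOf_eq_prime (by rw [← pow_mul]; exact h6) ht1
  obtain ⟨S', hS'⟩ := hp.exists_le_sylow
  obtain ⟨c, rfl⟩ := MulAction.exists_smul_eq G S S'
  obtain ⟨t, ht, e⟩ : g ^ 3 ∈ ((S : Subgroup G).map (MulAut.conj c).toMonoidHom) :=
    hS' (Subgroup.mem_zpowers _)
  have e' : c * t * c⁻¹ = g ^ 3 := e
  have htt : t * t = 1 := by
    have : (c * t * c⁻¹) * (c * t * c⁻¹) = 1 := by rw [e', ← pow_add]; exact h6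
    rw [conj_mul] at this
    exact conj_eq_one_iff.1 this
  have ht1' : t ≠ 1 := fun e0 => ht1 (by rw [← e', e0, mul_one, mul_inv_cancel])
  have hcomm : Commute t (c⁻¹ * g ^ 2 * c) := by
    have h0 : Commute (g ^ 3) (g ^ 2) := (Commute.refl g).pow_pow 3 2
    rw [← e'] at h0
    show t * (c⁻¹ * g ^ 2 * c) = c⁻¹ * g ^ 2 * c * t
    calc t * (c⁻¹ * g ^ 2 * c) = c⁻¹ * ((c * t * c⁻¹) * g ^ 2) * c := by group
      _ = c⁻¹ * (g ^ 2 * (c * t * c⁻¹)) * c := by rw [h0.eq]
      _ = _ := by group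
  have := hS t ht htt ht1' _ (by
    have := conj_pow (i := 3) (a := c⁻¹) (b := g ^ 2)
    rw [inv_inv] at this
    rw [this, ← pow_mul, h6, mul_one, inv_mul_cancel]) hcomm
  refine hy1 ?_
  calc g ^ 2 = c * (c⁻¹ * g ^ 2 * c) * c⁻¹ := by group
    _ = 1 := by rw [this, mul_one, mul_inv_cancel]

end Sylow

end CfsgLib.SpecSix
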