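import Cfsg.Agent.SpecSix.Residue
import Cfsg.Agent.SpecSix.ParBasic
import Cfsg.Agent.CITTwoP.Basic

/-!
# Generation of a 2-constrained subgroup by the normaliser of a Sylow 2-subgroup and the parabolics
-/

set_option autoImplicit false
set_option linter.unusedSectionVars false
set_option linter.style.haveILetI false

namespace CfsgLib.SpecSix

open Cfsg
open CfsgLib.SpecFive (Elem A5 eq_one_of_pow_coprime)

universe u

theorem NoSixBelow.mono {m n : ℕ} (h : NoSixBelow.{u} n) (hmn : m ≤ n) : NoSixBelow.{u} m :=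
  fun H _ _ hlt => h H (lt_of_lt_of_le hlt hmn)

variable {G : Type u} [Group G] [Finite G]

theorem card_lt_of_ne_top {L : Subgroup G} (hL : L ≠ ⊤) : Nat.card L < Nat.card G :=
  (Subgroup.card_le_card_group L).lt_of_ne fun he => hL (Subgroup.eq_top_of_card_eq _ he)

theorem NoSixBelow.of_ne_top (hrec : NoSixBelow.{u} (Nat.card G)) {L : Subgroup G} (hL : L ≠ ⊤) :
    NoSixBelow.{u} (Nat.card L + 1) :=
  hrec.mono (card_lt_of_ne_top hL)

theorem cent_pCore {L : Subgroup G}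
    (hc : Subgroup.centralizer (pCoreOf 2 L : Set G) ⊓ L ≤ pCoreOf 2 L) :
    Subgroup.centralizer (pCore 2 L : Set L) ≤ pCore 2 L := fun x hx => by
  obtain ⟨y, hy, e⟩ := hc ⟨Subgroup.mem_centralizer_iff.2 (by
    rintro _ ⟨y, hy, rfl⟩
    exact congrArg Subtype.val (Subgroup.mem_centralizer_iff.1 hx y hy)), x.2⟩
  exact Subtype.ext e ▸ hy

/-- An element of a 2-group normalising a set elementwise and having cube one is trivial. -/
theorem eq_one_of_two_three {X : Type*} [Group X] {T : Subgroup X} (hT : IsPGroup 2 T) {x : X}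
    (hx : x ∈ T) (h3 : x ^ 3 = 1) : x = 1 := by
  obtain ⟨k, hk⟩ := hT ⟨x, hx⟩
  exact eq_one_of_pow_coprime ((show Nat.Coprime 2 3 by norm_num).pow_left k)
    (congrArg Subtype.val hk) h3

namespace SolTop

variable {X : Type u} [Group X] [Finite X] {Q : Subgroup X} (hS : SolTop X Q)
include hS

theorem isPGroup : IsPGroup 3 Q := fun q => ⟨1, Subtype.ext (by simpa using hS.exp q q.2)⟩

theorem sup_eq_top {B : Subgroup X} (hB : ¬ 2 ∣ B.index) : Q ⊔ B = ⊤ := by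
  haveI := hS.normal
  haveI : Fact (Nat.Prime 2) := ⟨Nat.prime_two⟩
  rw [← Subgroup.index_eq_one]
  have h1 : (Q ⊔ B).index ∣ B.index := Subgroup.index_dvd_of_le le_sup_right
  have h2 : (Q ⊔ B).index ∣ Q.index := Subgroup.index_dvd_of_le le_sup_left
  have hq : IsPGroup 2 (X ⧸ Q) := fun g => by
    obtain ⟨g, rfl⟩ := QuotientGroup.mk_surjective g
    refine ⟨1, ?_⟩
    rw [pow_one, ← QuotientGroup.mk_pow, QuotientGroup.eq_one_iff]
    exact hS.mem _ (by rw [← pow_mul]; exact hS.six g)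
  obtain ⟨k, hk⟩ := IsPGroup.iff_card.1 hq
  rw [← Subgroup.index_eq_card] at hk
  rw [hk] at h2
  obtain ⟨j, -, hj⟩ := (Nat.dvd_prime_pow Nat.prime_two).1 h2
  rcases Nat.eq_zero_or_pos j with rfl | hj0
  · rw [hj, pow_zero]
  · exact absurd ((dvd_pow_self 2 hj0.ne').trans (hj ▸ h1)) hB

/-- Outside a subgroup containing `B`, an element of `Q` in a coset of which each element of `B`
fixes or inverts, and which is central modulo `Q₀`. -/
theorem exists_eigen {B Q₀ : Subgroup X} (hBc : ∀ a ∈ B, ∀ b ∈ B, Commute a b)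
    (hB2 : ∀ b ∈ B, b * b = 1) (hQ₀ : Q₀ ≤ Q) (hne : Q₀ ≠ Q)
    (hBQ₀ : ∀ b ∈ B, ∀ q ∈ Q₀, b * q * b⁻¹ ∈ Q₀) :
    ∃ w ∈ Q, w ∉ Q₀ ∧ (∀ q ∈ Q₀, w * q * w⁻¹ ∈ Q₀) ∧ (∀ q ∈ Q₀, w⁻¹ * q * w ∈ Q₀) ∧
      ∀ c ∈ B, c * w * c⁻¹ * w⁻¹ ∈ Q₀ ∨ c * w * c⁻¹ * w ∈ Q₀ := by
  classical
  haveI := hS.normal
  haveI : Fact (Nat.Prime 3) := ⟨Nat.prime_three⟩
  set N₁ : Subgroup X := Q ⊓ Subgroup.normalizer (Q₀ : Set X) with hN₁
  have hnorm : ∀ x ∈ N₁, ∀ q ∈ Q₀, x * q * x⁻¹ ∈ Q₀ := fun x hx q hq =>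
    (Subgroup.mem_normalizer_iff.1 hx.2 q).1 hq
  have hBN : ∀ b ∈ B, ∀ x ∈ N₁, b * x * b⁻¹ ∈ N₁ := fun b hb x hx => by
    have hbn : b ∈ Subgroup.normalizer (Q₀ : Set X) := mem_normalizer_of_conj_mem (hBQ₀ b hb)
    exact ⟨hS.normal.conj_mem x hx.1 b, (Subgroup.normalizer (Q₀ : Set X)).mul_mem
      ((Subgroup.normalizer (Q₀ : Set X)).mul_mem hbn hx.2) ((Subgroup.normalizer (Q₀ : Set X)).inv_mem hbn)⟩
  -- an element of `Q` outside `Q₀`, central modulo `Q₀` in its normaliser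
  obtain ⟨s, hsN, hsQ₀, hs⟩ : ∃ s ∈ N₁, s ∉ Q₀ ∧ ∀ y ∈ N₁, s * y * s⁻¹ * y⁻¹ ∈ Q₀ := by
    haveI := hS.isPGroup.isNilpotent
    have hlt : Q₀.subgroupOf Q < Subgroup.normalizer (Q₀.subgroupOf Q : Set Q) :=
      Group.normalizerCondition_of_isNilpotent _ (lt_top_iff_ne_top.2 fun e =>
        hne (le_antisymm hQ₀ (Subgroup.subgroupOf_eq_top.1 e)))
    obtain ⟨y, hy, hyn⟩ := SetLike.exists_of_lt hlt
    have hyN : (y : X) ∈ N₁ := ⟨y.2, mem_normalizer_of_conj_mem fun q hq => by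
      have := (Subgroup.mem_normalizer_iff.1 hy ⟨q, hQ₀ hq⟩).1 hq
      exact this⟩
    set R := Q₀.subgroupOf N₁ with hR
    haveI : R.Normal := ⟨fun q hq g => hnorm g g.2 q hq⟩
    haveI : Nontrivial (N₁ ⧸ R) := ⟨⟨QuotientGroup.mk ⟨y, hyN⟩, 1, fun e =>
      hyn (show (⟨y, hyN⟩ : N₁) ∈ R from (QuotientGroup.eq_one_iff _).1 e)⟩⟩
    have h3 : IsPGroup 3 (N₁ ⧸ R) :=
      (hS.isPGroup.to_le (inf_le_left : N₁ ≤ Q)).to_quotient R
    haveI := h3.center_nontrivial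
    obtain ⟨c, hc⟩ := exists_ne (1 : Subgroup.center (N₁ ⧸ R))
    obtain ⟨s, hs⟩ := QuotientGroup.mk_surjective (c : N₁ ⧸ R)
    refine ⟨s, s.2, fun e => hc (Subtype.ext ?_), fun z hz => ?_⟩
    · show (c : N₁ ⧸ R) = 1
      rw [← hs]; exact (QuotientGroup.eq_one_iff s).2 e
    · have := Subgroup.mem_center_iff.1 c.2 (QuotientGroup.mk ⟨z, hz⟩)
      rw [← hs] at this
      show (s * ⟨z, hz⟩ * s⁻¹ * ⟨z, hz⟩⁻¹ : N₁) ∈ R
      refine (QuotientGroup.eq_one_iff _).1 ?_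
      rw [QuotientGroup.mk_mul, QuotientGroup.mk_mul, QuotientGroup.mk_mul, QuotientGroup.mk_inv,
        QuotientGroup.mk_inv, ← this]
      group
  -- adjust it to a common eigen-element
  haveI := Fintype.ofFinite B
  suffices key : ∀ t : Finset B, ∃ w ∈ N₁, w ∉ Q₀ ∧ (∀ y ∈ N₁, w * y * w⁻¹ * y⁻¹ ∈ Q₀) ∧
      ∀ c ∈ t, (c : X) * w * (c : X)⁻¹ * w⁻¹ ∈ Q₀ ∨ (c : X) * w * (c : X)⁻¹ * w ∈ Q₀ by
    obtain ⟨w, hw, hwQ, -, hc⟩ := key Finset.univ
    refine ⟨w, hw.1, hwQ, hnorm w hw, fun q hq => ?_, fun c hc' => hc ⟨c, hc'⟩ (Finset.mem_univ _)⟩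
    simpa using hnorm w⁻¹ (N₁.inv_mem hw) q hq
  intro t
  induction t using Finset.induction_on with
  | empty => exact ⟨s, hsN, hsQ₀, hs, fun c hc => absurd hc (Finset.notMem_empty c)⟩
  | insert b t _ ih =>
    obtain ⟨w, hw, hwQ, hwc, hwt⟩ := ih
    by_cases hb : (b : X) * w * (b : X)⁻¹ * w⁻¹ ∈ Q₀
    · exact ⟨w, hw, hwQ, hwc, fun c hc => (Finset.mem_insert.1 hc).elim (fun e => e ▸ Or.inl hb) (hwt c)⟩
    set β : X := (b : X) with hβ
    set v := β * w * β⁻¹ with hv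
    have hvN : v ∈ N₁ := hBN β b.2 w hw
    set w' := w⁻¹ * v with hw'
    have hw'N : w' ∈ N₁ := N₁.mul_mem (N₁.inv_mem hw) hvN
    have hwn : ∀ q ∈ Q₀, w⁻¹ * q * w ∈ Q₀ := fun q hq => by
      simpa using hnorm w⁻¹ (N₁.inv_mem hw) q hq
    have hw'c : ∀ y ∈ N₁, w' * y * w'⁻¹ * y⁻¹ ∈ Q₀ := by
      intro y hy
      have hβi : β⁻¹ * y * β ∈ N₁ := by simpa using hBN β⁻¹ (B.inv_mem b.2) y hy
      have h1 := hBQ₀ β b.2 _ (hwc _ hβi)
      have h2 : v * y * v⁻¹ * y⁻¹ ∈ Q₀ := by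
        convert h1 using 1
        rw [hv]; group
      have h3 := hwc y hy
      have e : w' * y * w'⁻¹ * y⁻¹ =
          w⁻¹ * ((v * y * v⁻¹ * y⁻¹) * (w * y * w⁻¹ * y⁻¹)⁻¹) * w := by rw [hw']; group
      rw [e]
      exact hwn _ (Q₀.mul_mem h2 (Q₀.inv_mem h3))
    refine ⟨w', hw'N, fun e => hb ?_, hw'c, fun c hc => ?_⟩
    · have : β * w * β⁻¹ * w⁻¹ = w * w' * w⁻¹ := by rw [hw', hv]; group
      rw [this]
      exact hnorm w hw _ e
    rcases Finset.mem_insert.1 hc with hcb' | hct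
    · refine Or.inr ?_
      rw [show (c : X) = β from congrArg Subtype.val hcb']
      have hbb : β * β = 1 := hB2 β b.2
      have hvb : β * v * β⁻¹ = w := by
        calc β * v * β⁻¹ = (β * β) * w * (β * β)⁻¹ := by rw [hv]; group
          _ = w := by rw [hbb]; group
      have e : β * w' * β⁻¹ * w' = 1 := by
        calc β * w' * β⁻¹ * w' = (β * w * β⁻¹)⁻¹ * (β * v * β⁻¹) * (w⁻¹ * v) := by rw [hw']; group
          _ = 1 := by rw [← hv, hvb]; group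
      rw [e]; exact Q₀.one_mem
    · have hcb : Commute (c : X) β := hBc _ c.2 _ b.2
      rcases hwt c hct with hq | hq
      · left
        set q := (c : X) * w * (c : X)⁻¹ * w⁻¹ with hqd
        have e : (c : X) * w' * (c : X)⁻¹ * w'⁻¹ = w⁻¹ * (q⁻¹ * (β * q * β⁻¹)) * w := by
          have hcv : (c : X) * v * (c : X)⁻¹ = β * q * β⁻¹ * v := by
            calc (c : X) * v * (c : X)⁻¹ = (c * β) * w * (c * β)⁻¹ := by rw [hv]; group
              _ = (β * c) * w * (β * c)⁻¹ := by rw [hcb.eq]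
              _ = β * q * β⁻¹ * v := by rw [hqd, hv]; group
          calc (c : X) * w' * (c : X)⁻¹ * w'⁻¹
              = ((c : X) * w * (c : X)⁻¹)⁻¹ * ((c : X) * v * (c : X)⁻¹) * v⁻¹ * w := by rw [hw']; group
            _ = w⁻¹ * (q⁻¹ * (β * q * β⁻¹)) * w := by rw [hcv, hqd]; group
        rw [e]
        exact hwn _ (Q₀.mul_mem (Q₀.inv_mem hq) (hBQ₀ β b.2 q hq))
      · right
        set q := (c : X) * w * (c : X)⁻¹ * w with hqd
        have hcv : (c : X) * v * (c : X)⁻¹ = β * q * β⁻¹ * v⁻¹ := by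
          calc (c : X) * v * (c : X)⁻¹ = (c * β) * w * (c * β)⁻¹ := by rw [hv]; group
            _ = (β * c) * w * (β * c)⁻¹ := by rw [hcb.eq]
            _ = β * q * β⁻¹ * v⁻¹ := by rw [hqd, hv]; group
        have e : (c : X) * w' * (c : X)⁻¹ * w' =
            (w * (q⁻¹ * (β * q * β⁻¹)) * w⁻¹) * (w * v⁻¹ * w⁻¹ * v⁻¹⁻¹) := by
          calc (c : X) * w' * (c : X)⁻¹ * w'
              = ((c : X) * w * (c : X)⁻¹)⁻¹ * ((c : X) * v * (c : X)⁻¹) * (w⁻¹ * v) := by rw [hw']; group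
            _ = _ := by rw [hcv, hqd]; group
        rw [e]
        exact Q₀.mul_mem (hnorm w hw _ (Q₀.mul_mem (Q₀.inv_mem hq) (hBQ₀ β b.2 q hq)))
          (hwc _ (N₁.inv_mem hvN))

/-- Outside `Q₀`, an element of `Q` centralised by `B`, or one fixed or inverted by each element of
`B` and inverted by some. -/
theorem exists_inverted_element {B Q₀ : Subgroup X} (hBc : ∀ a ∈ B, ∀ b ∈ B, Commute a b)
    (hB2 : ∀ b ∈ B, b * b = 1) (hQ₀ : Q₀ ≤ Q) (hne : Q₀ ≠ Q)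
    (hBQ₀ : ∀ b ∈ B, ∀ q ∈ Q₀, b * q * b⁻¹ ∈ Q₀) :
    (∃ q ∈ Q, q ∉ Q₀ ∧ ∀ b ∈ B, Commute b q) ∨
      ∃ i ∈ Q, i ∉ Q₀ ∧ (∀ c ∈ B, Commute c i ∨ c * i * c⁻¹ = i⁻¹) ∧
        ∃ b ∈ B, b * i * b⁻¹ = i⁻¹ := by
  classical
  haveI := hS.normal
  haveI := Fintype.ofFinite B
  obtain ⟨w, hwQ, hwQ₀, hwn, hwn', hwc⟩ := hS.exists_eigen hBc hB2 hQ₀ hne hBQ₀
  let H : Finset X := (Finset.univ : Finset B).image (fun c : B => (c : X)) |>.filter
    fun c => c * w * c⁻¹ * w⁻¹ ∈ Q₀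
  have hHB : ∀ c ∈ H, c ∈ B ∧ c * w * c⁻¹ * w⁻¹ ∈ Q₀ := fun c hc => by
    obtain ⟨hc1, hc2⟩ := Finset.mem_filter.1 hc
    obtain ⟨d, -, rfl⟩ := Finset.mem_image.1 hc1
    exact ⟨d.2, hc2⟩
  have hHmem : ∀ c ∈ B, c * w * c⁻¹ * w⁻¹ ∈ Q₀ → c ∈ H := fun c hc h =>
    Finset.mem_filter.2 ⟨Finset.mem_image.2 ⟨⟨c, hc⟩, Finset.mem_univ _, rfl⟩, h⟩
  have binv : ∀ b ∈ B, b⁻¹ = b := fun b hb => inv_eq_of_mul_eq_one_right (hB2 b hb)
  obtain ⟨n, hnQ₀, hn⟩ := CITTwoP.exists_fixed_mul H (fun t ht => hB2 t (hHB t ht).1)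
    (fun t ht u hu => hBc t (hHB t ht).1 u (hHB u hu).1) (N := Q₀)
    (fun y hy => Odd.of_dvd_nat (by decide : Odd 3) (orderOf_dvd_of_pow_eq_one (hS.exp y (hQ₀ hy))))
    (fun t ht y hy => by have := hBQ₀ t (hHB t ht).1 y hy; rwa [binv t (hHB t ht).1] at this)
    (x := w) (fun t ht => by
      have h := hwn' _ (hHB t ht).2
      rw [binv t (hHB t ht).1] at h
      simpa [mul_assoc] using h)
  set q := w * n with hq
  have hqQ : q ∈ Q := Q.mul_mem hwQ (hQ₀ hnQ₀)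
  have hqQ₀ : q ∉ Q₀ := fun e => hwQ₀ (by simpa [hq] using Q₀.mul_mem e (Q₀.inv_mem hnQ₀))
  by_cases hall : ∀ c ∈ B, c * w * c⁻¹ * w⁻¹ ∈ Q₀
  · exact Or.inl ⟨q, hqQ, hqQ₀, fun b hb => hn b (hHmem b hb (hall b hb))⟩
  push Not at hall
  obtain ⟨b, hb, hbn⟩ := hall
  have hbw := (hwc b hb).resolve_left hbn
  set i := q⁻¹ * (b * q * b⁻¹) with hi
  have hbi : b * i * b⁻¹ = i⁻¹ := by
    calc b * i * b⁻¹ = (b * q * b⁻¹)⁻¹ * ((b * b) * q * (b * b)⁻¹) := by rw [hi]; group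
      _ = i⁻¹ := by rw [hB2 b hb, hi]; group
  have hiQ : i ∈ Q := Q.mul_mem (Q.inv_mem hqQ) (hS.normal.conj_mem q hqQ b)
  have hiQ₀ : i ∉ Q₀ := by
    intro e
    have hbn' : b * n * b⁻¹ ∈ Q₀ := hBQ₀ b hb n hnQ₀
    have h1 : w⁻¹ * (b * w * b⁻¹) ∈ Q₀ := by
      have := Q₀.mul_mem (Q₀.mul_mem hnQ₀ e) (Q₀.inv_mem hbn')
      convert this using 1
      rw [hi, hq]; group
    have h2 : w⁻¹ * (b * w * b⁻¹ * w) * w ∈ Q₀ := hwn' _ hbw
    have h3 : w * w ∈ Q₀ := by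
      have := Q₀.mul_mem (Q₀.inv_mem h1) h2
      convert this using 1
      group
    refine hwQ₀ ?_
    have : w = (w * w) * (w * w) := by
      calc w = w ^ 3 * w := by rw [hS.exp w hwQ, one_mul]
        _ = _ := by simp only [pow_succ, pow_zero, one_mul, mul_assoc]
    rw [this]; exact Q₀.mul_mem h3 h3
  have hHi : ∀ c ∈ H, Commute c i := fun c hc => by
    have hcb : Commute c b := hBc c (hHB c hc).1 b hb
    exact ((hn c hc).inv_right).mul_right ((hcb.mul_right (hn c hc)).mul_right hcb.inv_right)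
  refine Or.inr ⟨i, hiQ, hiQ₀, fun c hc => ?_, b, hb, hbi⟩
  by_cases hcH : c * w * c⁻¹ * w⁻¹ ∈ Q₀
  · exact Or.inl (hHi c (hHmem c hc hcH))
  right
  have hcw := (hwc c hc).resolve_left hcH
  have hcb : Commute c b := hBc c hc b hb
  have hmem : c * b * w * (c * b)⁻¹ * w⁻¹ ∈ Q₀ := by
    have h1 : c * b * w * (c * b)⁻¹ * w⁻¹ =
        (c * (b * w * b⁻¹ * w) * c⁻¹) * ((c * w⁻¹ * c⁻¹) * w⁻¹) := by group
    rw [h1]
    refine Q₀.mul_mem (hBQ₀ c hc _ hbw) ?_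
    have : (c * w⁻¹ * c⁻¹) * w⁻¹ = (w * (c * w * c⁻¹ * w) * w⁻¹ * 1)⁻¹ * 1 := by group
    rw [this, mul_one, mul_one]
    exact Q₀.inv_mem (hwn _ hcw)
  have := hHi _ (hHmem _ (B.mul_mem hc hb) hmem)
  calc c * i * c⁻¹ = (c * b) * (b⁻¹ * i * b) * (c * b)⁻¹ := by group
    _ = (c * b) * i⁻¹ * (c * b)⁻¹ := by
      have : b⁻¹ * i * b = i⁻¹ := by
        nth_rewrite 1 [binv b hb]; nth_rewrite 2 [← binv b hb]; exact hbi
      rw [this]
    _ = i⁻¹ := by rw [this.inv_right.eq, mul_inv_cancel_right]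

end SolTop

/-- A group in `Subgroup L` mapped into `G` with the data of a `Par3`. -/
theorem par3_of_sol {L T : Subgroup G} (hT : IsPGroup 2 T) (hTL : T ≤ L)
    (hc : Subgroup.centralizer (pCoreOf 2 L : Set G) ⊓ L ≤ pCoreOf 2 L)
    {B : Subgroup (L ⧸ pCore 2 L)} (hB : B.comap (QuotientGroup.mk' (pCore 2 L)) = T.subgroupOf L)
    (hBc : ∀ a ∈ B, ∀ b ∈ B, Commute a b) (hB2 : ∀ b ∈ B, b * b = 1)
    {i : L ⧸ pCore 2 L} (hi : i ^ 3 = 1) (hi1 : i ≠ 1)
    (hcases : ∀ c ∈ B, Commute c i ∨ c * i * c⁻¹ = i⁻¹) {b : L ⧸ pCore 2 L} (hb : b ∈ B)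
    (hbi : b * i * b⁻¹ = i⁻¹) :
    ∃ P : Subgroup G, Par3 T P ∧ P ≤ L ∧ ∃ g : L, (g : G) ∈ P ∧ (g : L ⧸ pCore 2 L) = i := by
  classical
  haveI : Fact (Nat.Prime 2) := ⟨Nat.prime_two⟩
  haveI : Fact (Nat.Prime 3) := ⟨Nat.prime_three⟩
  set π := QuotientGroup.mk' (pCore 2 L) with hπ
  have hoi : orderOf i = 3 := orderOf_eq_prime hi hi1
  have hzconj : ∀ c ∈ B, ∀ w ∈ Subgroup.zpowers i, c * w * c⁻¹ ∈ Subgroup.zpowers i := by
    intro c hc w hw
    obtain ⟨k, rfl⟩ := Subgroup.mem_zpowers_iff.1 hw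
    rw [← conj_zpow]
    refine Subgroup.zpow_mem _ ?_ k
    rcases hcases c hc with e | e
    · rw [e.eq, mul_inv_cancel_right]; exact Subgroup.mem_zpowers i
    · rw [e]; exact Subgroup.inv_mem _ (Subgroup.mem_zpowers i)
  let Pb : Subgroup (L ⧸ pCore 2 L) :=
    { carrier := {p | ∃ w ∈ Subgroup.zpowers i, ∃ c ∈ B, p = w * c}
      one_mem' := ⟨1, Subgroup.one_mem _, 1, B.one_mem, (one_mul 1).symm⟩
      mul_mem' := by
        rintro _ _ ⟨w, hw, c, hc, rfl⟩ ⟨w', hw', c', hc', rfl⟩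
        exact ⟨w * (c * w' * c⁻¹), Subgroup.mul_mem _ hw (hzconj c hc w' hw'), c * c',
          B.mul_mem hc hc', by group⟩
      inv_mem' := by
        rintro _ ⟨w, hw, c, hc, rfl⟩
        exact ⟨c⁻¹ * w⁻¹ * c⁻¹⁻¹, hzconj _ (B.inv_mem hc) _ (Subgroup.inv_mem _ hw), c⁻¹,
          B.inv_mem hc, by group⟩ }
  have hcop : ∀ w ∈ Subgroup.zpowers i, w ∈ B → w = 1 := fun w hw hwB => by
    obtain ⟨k, rfl⟩ := Subgroup.mem_zpowers_iff.1 hw
    refine eq_one_of_pow_coprime (show Nat.Coprime 2 3 by norm_num)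
      (by rw [pow_two]; exact hB2 _ hwB) ?_
    rw [← zpow_natCast, ← zpow_mul, mul_comm, zpow_mul, zpow_natCast, hi, one_zpow]
  have hcardP : Nat.card Pb = 3 * Nat.card B := by
    rw [← hoi, ← Nat.card_zpowers, ← Nat.card_prod]
    refine (Nat.card_congr (Equiv.ofBijective
      (fun p : Subgroup.zpowers i × B => (⟨p.1 * p.2, _, p.1.2, _, p.2.2, rfl⟩ : Pb)) ⟨?_, ?_⟩)).symm
    · rintro ⟨w, c⟩ ⟨w', c'⟩ e
      have e' : (w : L ⧸ pCore 2 L) * c = w' * c' := congrArg Subtype.val e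
      have h1 : (w' : L ⧸ pCore 2 L)⁻¹ * w = c' * (c : L ⧸ pCore 2 L)⁻¹ := by
        calc (w' : L ⧸ pCore 2 L)⁻¹ * w = (w' : L ⧸ pCore 2 L)⁻¹ * (w * c) * (c : L ⧸ pCore 2 L)⁻¹ := by group
          _ = _ := by rw [e']; group
      have hw1 := hcop _ (Subgroup.mul_mem _ (Subgroup.inv_mem _ w'.2) w.2)
        (h1 ▸ B.mul_mem c'.2 (B.inv_mem c.2))
      rw [hw1] at h1
      exact Prod.ext (Subtype.ext (inv_mul_eq_one.1 hw1).symm) (Subtype.ext (mul_inv_eq_one.1 h1.symm).symm)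
    · rintro ⟨_, w, hw, c, hc, rfl⟩
      exact ⟨(⟨w, hw⟩, ⟨c, hc⟩), rfl⟩
  set Hb : Subgroup (L ⧸ pCore 2 L) := B ⊓ Subgroup.centralizer ({i} : Set (L ⧸ pCore 2 L)) with hHb
  have hcardH : Nat.card B = 2 * Nat.card Hb := by
    have hidx : (Hb.subgroupOf B).index = 2 := by
      rw [Subgroup.index_eq_two_iff]
      refine ⟨⟨b, hb⟩, fun c => ?_⟩
      have hmem : ∀ d : B, d ∈ Hb.subgroupOf B ↔ Commute (d : L ⧸ pCore 2 L) i := fun d =>
        ⟨fun h => Subgroup.mem_centralizer_singleton_iff.1 h.2,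
          fun h => ⟨d.2, Subgroup.mem_centralizer_singleton_iff.2 h⟩⟩
      rw [hmem, hmem, Subgroup.coe_mul]
      have hne : i⁻¹ ≠ i := fun e => hi1 (eq_one_of_pow_coprime (show Nat.Coprime 2 3 by norm_num)
        (by rw [pow_two]; nth_rewrite 1 [← e]; exact inv_mul_cancel i) hi)
      have hcomm : ∀ d : L ⧸ pCore 2 L, Commute d i ↔ d * i * d⁻¹ = i := fun d =>
        ⟨fun h => by rw [h.eq, mul_inv_cancel_right], fun h => mul_inv_eq_iff_eq_mul.1 h⟩
      rw [hcomm, hcomm, show (c : L ⧸ pCore 2 L) * b * i * ((c : L ⧸ pCore 2 L) * b)⁻¹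
        = c * (b * i * b⁻¹) * (c : L ⧸ pCore 2 L)⁻¹ by group, hbi]
      rcases hcases c c.2 with e | e
      · right
        have := (hcomm _).1 e
        exact ⟨this, by rw [← conj_inv, this]; exact hne⟩
      · left
        exact ⟨by rw [← conj_inv, e, inv_inv], by rw [e]; exact hne⟩
    rw [← Subgroup.card_mul_index (Hb.subgroupOf B), hidx, mul_comm,
      Nat.card_congr (Subgroup.subgroupOfEquivOfLe (inf_le_left : Hb ≤ B)).toEquiv]
  have hcard : ∀ K : Subgroup (L ⧸ pCore 2 L),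
      Nat.card ((K.comap π).map L.subtype) = Nat.card (pCore 2 L) * Nat.card K := by
    intro K
    rw [Subgroup.card_map_of_injective L.subtype_injective]
    have hle : pCore 2 L ≤ K.comap π := fun x hx => by
      rw [Subgroup.mem_comap, hπ, QuotientGroup.mk'_apply, (QuotientGroup.eq_one_iff x).2 hx]
      exact K.one_mem
    rw [← Subgroup.relIndex_bot_left (K.comap π), ← Subgroup.relIndex_mul_relIndex ⊥ _ _ bot_le hle,
      Subgroup.relIndex_bot_left]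
    congr 1
    rw [← Subgroup.relIndex_bot_left K]
    conv_rhs => rw [← Subgroup.map_comap_eq_self_of_surjective (QuotientGroup.mk'_surjective (pCore 2 L)) K]
    rw [← Subgroup.relIndex_comap, MonoidHom.comap_bot, QuotientGroup.ker_mk']
  have hTB : T = (B.comap π).map L.subtype := by
    rw [hB, Subgroup.subgroupOf, Subgroup.map_comap_eq_self (by rwa [Subgroup.range_subtype])]
  set P := (Pb.comap π).map L.subtype with hPdef
  have hBP : B ≤ Pb := fun c hc => ⟨1, Subgroup.one_mem _, c, hc, (one_mul c).symm⟩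
  have hTP : T ≤ P := hTB ▸ Subgroup.map_mono (Subgroup.comap_mono hBP)
  have hcardT : Nat.card T = Nat.card (pCore 2 L) * Nat.card B := by rw [hTB, hcard]
  -- the core
  set OP := (Hb.comap π).map L.subtype with hOP
  have hOPT : OP ≤ T := hTB ▸ Subgroup.map_mono (Subgroup.comap_mono inf_le_left)
  have hcentral : ∀ p ∈ Pb, ∀ e ∈ Hb, p * e * p⁻¹ = e := by
    rintro _ ⟨w, hw, c, hc, rfl⟩ e he
    obtain ⟨k, rfl⟩ := Subgroup.mem_zpowers_iff.1 hw
    have hei : Commute e i := Subgroup.mem_centralizer_singleton_iff.1 he.2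
    calc i ^ k * c * e * (i ^ k * c)⁻¹ = i ^ k * (c * e * c⁻¹) * (i ^ k)⁻¹ := by group
      _ = e := by rw [(hBc c hc e he.1).eq, mul_inv_cancel_right, ← (hei.zpow_right k).eq,
          mul_inv_cancel_right]
  have hOP_le : OP ≤ pCoreOf 2 P := le_pCoreOf_of (Subgroup.map_mono (Subgroup.comap_mono
    (inf_le_left.trans hBP))) (hT.to_le hOPT) (by
      rintro _ ⟨g, hg, rfl⟩ _ ⟨x, hx, rfl⟩
      refine ⟨g * x * g⁻¹, ?_, rfl⟩
      show π (g * x * g⁻¹) ∈ Hb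
      rw [map_mul, map_mul, map_inv, hcentral _ hg _ hx]
      exact hx)
  have hcore : pCoreOf 2 P = OP := by
    refine le_antisymm ?_ hOP_le
    intro r hr
    obtain ⟨g, hg, rfl⟩ := pCoreOf_le 2 P hr
    set R := ((pCoreOf 2 P).subgroupOf L).map π with hR
    have hR2 : IsPGroup 2 R :=
      ((isPGroup_pCoreOf P).comap_of_injective L.subtype L.subtype_injective).map π
    have hmem : π g ∈ R := Subgroup.mem_map_of_mem π hr
    obtain ⟨i', hi'⟩ := QuotientGroup.mk'_surjective (pCore 2 L) i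
    have hi'P : (i' : G) ∈ P := ⟨i', (show π i' ∈ Pb from
      ⟨i, Subgroup.mem_zpowers i, 1, B.one_mem, by rw [mul_one]; exact hi'⟩), rfl⟩
    have hconj : i * π g * i⁻¹ ∈ R := by
      rw [← hi', ← map_inv, ← map_mul, ← map_mul]
      exact Subgroup.mem_map_of_mem π (show (i' : G) * g * (i' : G)⁻¹ ∈ pCoreOf 2 P from
        pCoreOf_conj_mem hi'P hr)
    have hgP : π g ∈ Pb := hg
    obtain ⟨w, hw, c, hcB, hwc⟩ := id hgP
    have hci : Commute i (π g) := by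
      have h1 : i * π g * i⁻¹ * (π g)⁻¹ ∈ R := R.mul_mem hconj (R.inv_mem hmem)
      have h2 : i * π g * i⁻¹ * (π g)⁻¹ ∈ Subgroup.zpowers i := by
        rw [hwc, show i * (w * c) * i⁻¹ * (w * c)⁻¹ = i * w * (c * i⁻¹ * c⁻¹) * w⁻¹ by group]
        exact Subgroup.mul_mem _ (Subgroup.mul_mem _ (Subgroup.mul_mem _ (Subgroup.mem_zpowers i) hw)
          (hzconj c hcB _ (Subgroup.inv_mem _ (Subgroup.mem_zpowers i)))) (Subgroup.inv_mem _ hw)
      obtain ⟨k, hk⟩ := Subgroup.mem_zpowers_iff.1 h2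
      have h3 : (i * π g * i⁻¹ * (π g)⁻¹) ^ 3 = 1 := by
        rw [← hk, ← zpow_natCast, ← zpow_mul, mul_comm, zpow_mul, zpow_natCast, hi, one_zpow]
      exact mul_inv_eq_iff_eq_mul.1 (mul_inv_eq_one.1 (eq_one_of_two_three hR2 h1 h3))
    refine ⟨g, ?_, rfl⟩
    show π g ∈ Hb
    have hwi : Commute i w := by
      obtain ⟨k, rfl⟩ := Subgroup.mem_zpowers_iff.1 hw
      exact (Commute.refl i).zpow_right k
    have hci' : Commute i c := by
      have := hwi.inv_right.mul_right hci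
      rwa [hwc, inv_mul_cancel_left] at this
    have hw1 : w = 1 := by
      obtain ⟨k, hk⟩ := hR2 ⟨π g, hmem⟩
      have hk' : (π g) ^ 2 ^ k = 1 := congrArg Subtype.val hk
      have hwc' : Commute w c := by
        obtain ⟨j, rfl⟩ := Subgroup.mem_zpowers_iff.1 hw
        exact hci'.zpow_left j
      rw [hwc, hwc'.mul_pow] at hk'
      have hw3 : w ^ 3 = 1 := by
        obtain ⟨j, rfl⟩ := Subgroup.mem_zpowers_iff.1 hw
        rw [← zpow_natCast, ← zpow_mul, mul_comm, zpow_mul, zpow_natCast, hi, one_zpow]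
      have : w ^ 2 ^ k = 1 := hcop _ (Subgroup.pow_mem _ hw _)
        (by rw [eq_inv_of_mul_eq_one_left hk']; exact B.inv_mem (B.pow_mem hcB _))
      exact eq_one_of_pow_coprime ((show Nat.Coprime 2 3 by norm_num).pow_left k) this hw3
    rw [hwc, hw1, one_mul]
    exact ⟨hcB, Subgroup.mem_centralizer_singleton_iff.2 hci'.symm⟩
  have hPL : P ≤ L := Subgroup.map_subtype_le _
  obtain ⟨i', hi'⟩ := QuotientGroup.mk'_surjective (pCore 2 L) i
  refine ⟨P, ⟨hTP, hT, ?_, ?_, ?_⟩, hPL, i', ⟨i', (show π i' ∈ Pb from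
    ⟨i, Subgroup.mem_zpowers i, 1, B.one_mem, by rw [mul_one]; exact hi'⟩), rfl⟩, hi'⟩
  · rw [hPdef, hcard, hcardT, hcardP]; ring
  · rw [hcore, hOP, hcard, hcardT, hcardH]; ring
  · rintro z ⟨hz, hzP⟩
    have hle : pCoreOf 2 L ≤ OP := by
      rintro _ ⟨y, hy, rfl⟩
      refine ⟨y, ?_, rfl⟩
      show π y ∈ Hb
      rw [hπ, QuotientGroup.mk'_apply, (QuotientGroup.eq_one_iff y).2 hy]
      exact Hb.one_mem
    rw [hcore]
    refine hle (hc ⟨Subgroup.mem_centralizer_iff.2 fun o ho => ?_, hPL hzP⟩)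
    exact Subgroup.mem_centralizer_iff.1 hz o (hcore ▸ hle ho)

/-- A subgroup `L` with Sylow 2-subgroup `T` and self-centralising core lies in `M` as soon as its part
normalising `T` and the parabolics over `T` in it do. -/
theorem le_of_parabolics (h : Ord6 G) (hrec : NoSixBelow.{u} (Nat.card G)) {T L M : Subgroup G}
    (hL : L ≠ ⊤) (hTL : T ≤ L) (hT : IsPGroup 2 T) (hodd : ¬ 2 ∣ T.relIndex L)
    (hc : Subgroup.centralizer (pCoreOf 2 L : Set G) ⊓ L ≤ pCoreOf 2 L)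
    (hN : L ⊓ Subgroup.normalizer (T : Set G) ≤ M) (h3 : ∀ P, Par3 T P → P ≤ L → P ≤ M)
    (h5 : ∀ P, Par5 T P → P ≤ L → P ≤ M) : L ≤ M := by
  classical
  haveI : Fact (Nat.Prime 2) := ⟨Nat.prime_two⟩
  have hOT : pCoreOf 2 L ≤ T := pCoreOf_le_of_odd hTL hT hodd
  have hTM : T ≤ M := fun t ht => hN ⟨hTL ht, Subgroup.le_normalizer ht⟩
  have hcardL : Nat.card L = Nat.card (L ⧸ pCore 2 L) * Nat.card (pCoreOf 2 L) := by
    rw [card_pCoreOf, ← Subgroup.card_eq_card_quotient_mul_card_subgroup]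
  rcases topCases (h.subgroup L) (cent_pCore hc) (hrec.of_ne_top hL) with
    ⟨Q, hS⟩ | e5 | ⟨e10, hel⟩ | ⟨eA, hel⟩
  · -- the `{2,3}`-top
    haveI := hS.normal
    set π := QuotientGroup.mk' (pCore 2 L) with hπ
    set T' := T.subgroupOf L with hT'
    have hOT' : pCore 2 L ≤ T' := fun x hx => hOT ⟨x, hx, rfl⟩
    set B := T'.map π with hB
    have hBcomap : B.comap π = T' := by
      rw [hB, Subgroup.comap_map_eq, QuotientGroup.ker_mk', sup_eq_left.2 hOT']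
    have hB2 : ∀ b ∈ B, b * b = 1 := fun b hb => by
      have hp : IsPGroup 2 B := (hT.comap_of_injective L.subtype L.subtype_injective).map π
      exact hS.two b (((h.subgroup L).quotient _).pow_two_group hp hb)
    have hBc : ∀ a ∈ B, ∀ b ∈ B, Commute a b := fun a ha b hb => by
      show a * b = b * a
      calc a * b = (a * b)⁻¹ := (inv_eq_of_mul_eq_one_right (hB2 _ (B.mul_mem ha hb))).symm
        _ = b * a := by
          rw [mul_inv_rev, inv_eq_of_mul_eq_one_right (hB2 a ha), inv_eq_of_mul_eq_one_right (hB2 b hb)]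
    have hBidx : ¬ 2 ∣ B.index := by
      rw [hB, Subgroup.index_map_eq _ (QuotientGroup.mk'_surjective _) (by rwa [QuotientGroup.ker_mk'])]
      exact hodd
    set M' := (M.subgroupOf L).map π with hM'
    have hOM : pCore 2 L ≤ M.subgroupOf L := fun x hx => hTM (hOT' hx)
    have hmem : ∀ g : L, π g ∈ M' → (g : G) ∈ M := fun g hg => by
      obtain ⟨m, hm, e⟩ := hg
      have : m⁻¹ * g ∈ M.subgroupOf L :=
        hOM ((QuotientGroup.eq_one_iff _).1 (by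
          show π (m⁻¹ * g) = 1
          rw [map_mul, map_inv, e, inv_mul_cancel]))
      simpa using M.mul_mem hm this
    have hBM : B ≤ M' := Subgroup.map_mono fun x hx => hTM hx
    suffices hQM : Q ≤ M' by
      intro g hg
      refine hmem ⟨g, hg⟩ ?_
      have htop : M' = ⊤ := by
        rw [eq_top_iff, ← hS.sup_eq_top hBidx]
        exact sup_le hQM hBM
      rw [htop]; exact Subgroup.mem_top _
    by_contra hQM
    set Q₀ := Q ⊓ M' with hQ₀
    have hne : Q₀ ≠ Q := fun e => hQM (inf_eq_left.1 e)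
    have hBQ₀ : ∀ b ∈ B, ∀ q ∈ Q₀, b * q * b⁻¹ ∈ Q₀ := fun b hb q hq =>
      ⟨hS.normal.conj_mem q hq.1 b, M'.mul_mem (M'.mul_mem (hBM hb) hq.2) (M'.inv_mem (hBM hb))⟩
    rcases hS.exists_inverted_element hBc hB2 inf_le_left hne hBQ₀ with
      ⟨q, hqQ, hqn, hqc⟩ | ⟨i, hiQ, hin, hic, b, hb, hbi⟩
    · refine hqn ⟨hqQ, ?_⟩
      obtain ⟨g, rfl⟩ := QuotientGroup.mk'_surjective (pCore 2 L) q
      refine ⟨g, hN ⟨g.2, mem_normalizer_of_conj_mem fun t ht => ?_⟩, rfl⟩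
      have hc' : Commute (π ⟨t, hTL ht⟩) (π g) := hqc _ (Subgroup.mem_map_of_mem π ht)
      have : (g * ⟨t, hTL ht⟩ * g⁻¹ : L) ∈ B.comap π := by
        show π (g * ⟨t, hTL ht⟩ * g⁻¹) ∈ B
        rw [map_mul, map_mul, map_inv, ← hc'.eq, mul_inv_cancel_right]
        exact Subgroup.mem_map_of_mem π ht
      rw [hBcomap] at this
      exact this
    · obtain ⟨P, hP, hPL, g, hgP, hgi⟩ := par3_of_sol hT hTL hc hBcomap hBc hB2 (hS.exp i hiQ)
        (fun e => hin (e ▸ Q₀.one_mem)) hic hb hbi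
      exact hin ⟨hiQ, g, h3 P hP hPL hgP, hgi⟩
  · -- order five: `T` is normal
    intro g hg
    refine hN ⟨hg, ?_⟩
    have hTO : T = pCoreOf 2 L := by
      refine le_antisymm (fun t ht => ⟨⟨t, hTL ht⟩, (QuotientGroup.eq_one_iff _).1 ?_, rfl⟩) hOT
      obtain ⟨k, hk⟩ := (hT.comap_of_injective L.subtype L.subtype_injective :
        IsPGroup 2 (T.subgroupOf L)) ⟨⟨t, hTL ht⟩, ht⟩
      have h1 : QuotientGroup.mk' (pCore 2 L) ⟨t, hTL ht⟩ ^ 2 ^ k = 1 := by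
        rw [← map_pow, show (⟨t, hTL ht⟩ : L) ^ 2 ^ k = 1 from congrArg Subtype.val hk, map_one]
      have h5' := orderOf_dvd_natCard (QuotientGroup.mk' (pCore 2 L) ⟨t, hTL ht⟩)
      rw [e5] at h5'
      exact orderOf_eq_one_iff.1 (Nat.eq_one_of_dvd_coprimes
        ((show Nat.Coprime 5 2 by norm_num).pow_right k) h5' (orderOf_dvd_of_pow_eq_one h1))
    rw [hTO]
    exact le_normalizer_core 2 L hg
  all_goals
    refine h5 L ⟨hTL, hT, hodd, ?_, hc, ?_⟩ le_rfl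
  · exact ⟨by rintro _ ⟨a, ha, rfl⟩ _ ⟨b, hb, rfl⟩; exact (hel.1 a ha b hb).map L.subtype,
      by rintro _ ⟨a, ha, rfl⟩; rw [← map_mul, hel.2 a ha, map_one]⟩
  · left; rw [hcardL, e10]
  · exact ⟨by rintro _ ⟨a, ha, rfl⟩ _ ⟨b, hb, rfl⟩; exact (hel.1 a ha b hb).map L.subtype,
      by rintro _ ⟨a, ha, rfl⟩; rw [← map_mul, hel.2 a ha, map_one]⟩
  · exact Or.inr eA

/-- A local containing a `Par3` over its Sylow 2-subgroup has a `{2,3}`-top, in which the elements of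
order three of the parabolic lie in the Sylow 3-subgroup. -/
theorem top_of_par3 (h : Ord6 G) (hrec : NoSixBelow.{u} (Nat.card G)) {T L P : Subgroup G}
    (hL : L ≠ ⊤) (hTL : T ≤ L) (hT : IsPGroup 2 T) (hodd : ¬ 2 ∣ T.relIndex L)
    (hc : Subgroup.centralizer (pCoreOf 2 L : Set G) ⊓ L ≤ pCoreOf 2 L) (hP : Par3 T P) (hPL : P ≤ L) :
    ∃ Q : Subgroup (L ⧸ pCore 2 L), SolTop (L ⧸ pCore 2 L) Q := by
  classical
  haveI : Fact (Nat.Prime 2) := ⟨Nat.prime_two⟩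
  set π := QuotientGroup.mk' (pCore 2 L) with hπ
  obtain ⟨x, hxP, hx3, hx1, hxT⟩ := hP.exists_three
  set x' : L := ⟨x, hPL hxP⟩ with hx'
  have hxne : π x' ≠ 1 := fun e => hx1 (eq_one_of_two_three (isPGroup_pCoreOf L)
    ⟨x', (QuotientGroup.eq_one_iff x').1 e, rfl⟩ hx3)
  have hx'3 : π x' ^ 3 = 1 := by
    rw [← map_pow, show x' ^ 3 = 1 from Subtype.ext hx3, map_one]
  rcases topCases (h.subgroup L) (cent_pCore hc) (hrec.of_ne_top hL) with
    hsol | e5 | ⟨e10, -⟩ | ⟨⟨eA⟩, -⟩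
  · exact hsol
  · exfalso
    have h1 := orderOf_dvd_natCard (π x')
    haveI := Fact.mk Nat.prime_three
    rw [orderOf_eq_prime hx'3 hxne, e5] at h1
    norm_num at h1
  · exfalso
    have h1 := orderOf_dvd_natCard (π x')
    haveI := Fact.mk Nat.prime_three
    rw [orderOf_eq_prime hx'3 hxne, e10] at h1
    norm_num at h1
  · exfalso
    have hOT : pCoreOf 2 L ≤ T := pCoreOf_le_of_odd hTL hT hodd
    have hcardL : Nat.card L = 60 * Nat.card (pCoreOf 2 L) := by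
      rw [card_pCoreOf, Subgroup.card_eq_card_quotient_mul_card_subgroup (pCore 2 L),
        Nat.card_congr eA.toEquiv, SpecFive.natCard_A5]
    have hOP : pCoreOf 2 L ≤ pCoreOf 2 P := le_pCoreOf_of (hOT.trans hP.le) (isPGroup_pCoreOf L)
      fun g hg y hy => pCoreOf_conj_mem (hPL hg) hy
    have hne : pCoreOf 2 P ≠ pCoreOf 2 L := by
      intro e
      have h1 := Subgroup.relIndex_mul_relIndex ⊥ T L bot_le hTL
      rw [Subgroup.relIndex_bot_left, Subgroup.relIndex_bot_left, hP.core_eq, e, hcardL,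
        show 60 * Nat.card (pCoreOf 2 L) = 30 * (2 * Nat.card (pCoreOf 2 L)) by ring, mul_comm,
        Nat.mul_left_inj (by have := Nat.card_pos (α := pCoreOf 2 L); omega)] at h1
      exact hodd (h1 ▸ by norm_num)
    obtain ⟨d, hd, hdn⟩ := SetLike.exists_of_lt (lt_of_le_of_ne hOP (Ne.symm hne))
    have hdL : d ∈ L := hPL (pCoreOf_le 2 P hd)
    set d' : L := ⟨d, hdL⟩
    set R := ((pCoreOf 2 P).subgroupOf L).map π with hR
    have hR2 : IsPGroup 2 R :=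
      ((isPGroup_pCoreOf P).comap_of_injective L.subtype L.subtype_injective).map π
    have hR1 : π d' ∈ R := Subgroup.mem_map_of_mem π hd
    have hdne : π d' ≠ 1 := fun e => hdn ⟨d', (QuotientGroup.eq_one_iff d').1 e, rfl⟩
    set B := (T.subgroupOf L).map π with hB
    have hB2 : IsPGroup 2 B := (hT.comap_of_injective L.subtype L.subtype_injective).map π
    have hRB : R ≤ B := Subgroup.map_mono fun y hy => hP.core_le_base hy
    have hRneB : R ≠ B := by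
      intro e
      refine hP.core_lt (le_antisymm hP.core_le_base fun t ht => ?_)
      have : π ⟨t, hTL ht⟩ ∈ R := e ▸ Subgroup.mem_map_of_mem π ht
      obtain ⟨o, ho, e'⟩ := this
      have h1 : o⁻¹ * ⟨t, hTL ht⟩ ∈ pCore 2 L := (QuotientGroup.eq_one_iff _).1 (by
        show π (o⁻¹ * ⟨t, hTL ht⟩) = 1
        rw [map_mul, map_inv, e', inv_mul_cancel])
      have h2 : (o : G)⁻¹ * t ∈ pCoreOf 2 P := hOP ⟨_, h1, rfl⟩
      simpa using (pCoreOf 2 P).mul_mem ho h2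
    have hB4 : Nat.card B ∣ 4 := by
      obtain ⟨k, hk⟩ := IsPGroup.iff_card.1 hB2
      have h60 : Nat.card B ∣ 60 := by
        rw [← SpecFive.natCard_A5, ← Nat.card_congr eA.toEquiv]
        exact Subgroup.card_subgroup_dvd_card B
      rw [hk] at h60 ⊢
      have hk2 : k ≤ 2 := by
        by_contra hlt
        have : 2 ^ 3 ∣ 60 := (pow_dvd_pow 2 (by omega : 3 ≤ k)).trans h60
        norm_num at this
      exact (pow_dvd_pow 2 hk2)
    have hR : Nat.card R = 2 := by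
      have hlt : Nat.card R < Nat.card B :=
        (Subgroup.card_le_of_le hRB).lt_of_ne fun e => hRneB (Subgroup.eq_of_le_of_card_ge hRB e.ge)
      have h1 : 1 < Nat.card R := (Subgroup.one_lt_card_iff_ne_bot R).2 fun e => hdne
        (Subgroup.mem_bot.1 (e ▸ hR1))
      have hd' : Nat.card R ∣ 4 := (Subgroup.card_dvd_of_le hRB).trans hB4
      have := Nat.le_of_dvd (by norm_num) hB4
      have := Nat.le_of_dvd (by norm_num) hd'
      interval_cases hc : Nat.card R <;> first | rfl | omega | (norm_num at hd')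
    -- the involution of `R` commutes with an element of order three
    haveI : Fintype R := Fintype.ofFinite _
    obtain ⟨r, hr, hr2⟩ := Nat.card_eq_two_iff' (1 : R) |>.1 hR
    have hr1 : (r : L ⧸ pCore 2 L) ≠ 1 := fun e => hr (Subtype.ext e)
    have hconj : π x' * r * (π x')⁻¹ ∈ R := by
      obtain ⟨o, ho, e'⟩ := r.2
      rw [← e', ← map_inv, ← map_mul, ← map_mul]
      exact Subgroup.mem_map_of_mem π (show x * (o : G) * x⁻¹ ∈ pCoreOf 2 P from
        pCoreOf_conj_mem hxP ho)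
    have hfix : π x' * r * (π x')⁻¹ = r := by
      have hne' : (⟨_, hconj⟩ : R) ≠ 1 := fun e => hr1 (conj_eq_one_iff.1 (congrArg Subtype.val e))
      exact congrArg Subtype.val (hr2 ⟨_, hconj⟩ hne')
    have hno : ∀ a y : A5, y ^ 3 = 1 → y ≠ 1 → a ^ 4 = 1 → y * a * y⁻¹ = a → a = 1 := by decide +kernel
    have hr4 : (r : L ⧸ pCore 2 L) ^ 4 = 1 := ((h.subgroup L).quotient _).pow_two_group hR2 r.2
    exact hr1 (eA.injective (by
      rw [map_one]
      exact hno (eA r) (eA (π x')) (by rw [← map_pow, hx'3, map_one])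
        (fun e => hxne (eA.injective (e.trans eA.map_one.symm))) (by rw [← map_pow, hr4, map_one])
        (by rw [← map_inv, ← map_mul, ← map_mul, hfix])))

/-- The core of a parabolic meets the core of another one in a subgroup normalised by the first, when
both lie in one local. -/
theorem core_inf_normal (h : Ord6 G) (hrec : NoSixBelow.{u} (Nat.card G)) {T L P P' : Subgroup G}
    (hL : L ≠ ⊤) (hTL : T ≤ L) (hT : IsPGroup 2 T) (hodd : ¬ 2 ∣ T.relIndex L)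
    (hc : Subgroup.centralizer (pCoreOf 2 L : Set G) ⊓ L ≤ pCoreOf 2 L) (hP : Par3 T P) (hPL : P ≤ L)
    (hP' : Par3 T P') (hP'L : P' ≤ L) :
    P ≤ Subgroup.normalizer ((pCoreOf 2 P ⊓ pCoreOf 2 P' : Subgroup G) : Set G) := by
  classical
  haveI : Fact (Nat.Prime 2) := ⟨Nat.prime_two⟩
  obtain ⟨Q, hS⟩ := top_of_par3 h hrec hL hTL hT hodd hc hP hPL
  haveI := hS.normal
  set π := QuotientGroup.mk' (pCore 2 L) with hπ
  obtain ⟨x, hxP, hx3, hx1, hxT⟩ := hP.exists_three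
  have hOT : pCoreOf 2 L ≤ T := pCoreOf_le_of_odd hTL hT hodd
  have hO : ∀ {P₁ : Subgroup G}, Par3 T P₁ → P₁ ≤ L → pCoreOf 2 L ≤ pCoreOf 2 P₁ := fun hP₁ hle =>
    le_pCoreOf_of (hOT.trans hP₁.le) (isPGroup_pCoreOf L) fun g hg y hy => pCoreOf_conj_mem (hle hg) hy
  refine hP.le_of_mem (x := x) (fun t ht => mem_normalizer_of_conj_mem fun d hd =>
    ⟨pCoreOf_conj_mem (hP.le ht) hd.1, pCoreOf_conj_mem (hP'.le ht) hd.2⟩) hxP
    (mem_normalizer_of_conj_mem fun d hd => ?_) hxT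
  set x' : L := ⟨x, hPL hxP⟩
  set d' : L := ⟨d, hPL (pCoreOf_le 2 P hd.1)⟩
  set R := ((pCoreOf 2 P).subgroupOf L).map π with hR
  have hR2 : IsPGroup 2 R :=
    ((isPGroup_pCoreOf P).comap_of_injective L.subtype L.subtype_injective).map π
  have hxQ : π x' ∈ Q := hS.mem _ (by rw [← map_pow, show x' ^ 3 = 1 from Subtype.ext hx3, map_one])
  have h1 : π (x' * d' * x'⁻¹ * d'⁻¹) ∈ R := Subgroup.mem_map_of_mem π
    (show x * d * x⁻¹ * d⁻¹ ∈ pCoreOf 2 P from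
      (pCoreOf 2 P).mul_mem (pCoreOf_conj_mem hxP hd.1) ((pCoreOf 2 P).inv_mem hd.1))
  have h2 : π (x' * d' * x'⁻¹ * d'⁻¹) ∈ Q := by
    rw [map_mul, map_mul, map_mul, map_inv, map_inv, show π x' * π d' * (π x')⁻¹ * (π d')⁻¹
      = π x' * (π d' * (π x')⁻¹ * (π d')⁻¹) by group]
    exact Q.mul_mem hxQ (hS.normal.conj_mem _ (Q.inv_mem hxQ) _)
  have h3 : x' * d' * x'⁻¹ * d'⁻¹ ∈ pCore 2 L :=
    (QuotientGroup.eq_one_iff _).1 (eq_one_of_two_three hR2 h1 (hS.exp _ h2))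
  have h4 : x * d * x⁻¹ * d⁻¹ ∈ pCoreOf 2 L := ⟨_, h3, rfl⟩
  refine ⟨pCoreOf_conj_mem hxP hd.1, ?_⟩
  simpa using (pCoreOf 2 P').mul_mem (hO hP' hP'L h4) hd.2

end CfsgLib.SpecSix
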