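import Cfsg.Agent.SpecSix.Defs
import Cfsg.Agent.SpecSix.Norm
import Cfsg.Agent.SpecFive.Offenders
import Cfsg.Agent.Constrained.HallHigman
import Cfsg.Agent.Solvable.MinNormal

/-!
# The top of a 2-constrained group with element orders at most six

`X = G ⧸ O₂(G)` is a `{2,3}`-group with normal Sylow 3 of exponent three and elementary Sylow 2, or
has order five or ten, or is `A₅`; in the last two cases `O₂(G)` is elementary abelian.
-/

set_option autoImplicit false
set_option linter.unusedSectionVars false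
set_option linter.style.haveILetI false

namespace CfsgLib.SpecSix

open Cfsg
open CfsgLib.SpecFive (Elem A5 A6 eq_one_of_pow_coprime)

universe u

variable {G : Type u} [Group G] [Finite G]

theorem Ord6.prime_cases_card (h : Ord6 G) {p : ℕ} (hp : p.Prime) (hd : p ∣ Nat.card G) :
    p = 2 ∨ p = 3 ∨ p = 5 := by
  haveI := Fact.mk hp
  obtain ⟨g, hg⟩ := exists_prime_orderOf_dvd_card' p hd
  have := h.orderOf_cases g
  rw [hg] at this
  rcases this with e | e | e | e | e | e <;> subst e <;> norm_num at hp <;> omega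

/-- In exponent three an element commutes with its conjugates. -/
theorem commute_conj_of_exp_three {Q : Subgroup G} (hQ : ∀ q ∈ Q, q ^ 3 = 1) {a b : G} (ha : a ∈ Q)
    (hb : b ∈ Q) : Commute a (b * a * b⁻¹) := by
  have flip : ∀ c ∈ Q, a * c * a = c⁻¹ * a⁻¹ * c⁻¹ := by
    intro c hc
    have e := hQ _ (Q.mul_mem ha hc)
    calc a * c * a = (a * c) ^ 3 * (c⁻¹ * a⁻¹ * c⁻¹) := by
          simp only [pow_succ, pow_zero, one_mul]; group
      _ = _ := by rw [e, one_mul]
  have hbb : b⁻¹ * b⁻¹ = b := by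
    calc b⁻¹ * b⁻¹ = b⁻¹ * b⁻¹ * b ^ 3 := by rw [hQ b hb, mul_one]
      _ = b := by simp only [pow_succ, pow_zero, one_mul]; group
  have hbb' : b * b = b⁻¹ := by
    calc b * b = b ^ 3 * b⁻¹ := by simp only [pow_succ, pow_zero, one_mul]; group
      _ = b⁻¹ := by rw [hQ b hb, one_mul]
  show a * (b * a * b⁻¹) = b * a * b⁻¹ * a
  calc a * (b * a * b⁻¹) = a * b * a * b⁻¹ := by group
    _ = b⁻¹ * a⁻¹ * (b⁻¹ * b⁻¹) := by rw [flip b hb]; group
    _ = b⁻¹ * a⁻¹ * b := by rw [hbb]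
    _ = b * b * a⁻¹ * b := by rw [hbb']
    _ = b * (a * b⁻¹ * a) := by rw [flip _ (Q.inv_mem hb)]; group
    _ = b * a * b⁻¹ * a := by group

theorem cancel_rel {A : Type*} [CommGroup A] {a a' b b' c c' d₁ d₂ d₃ d₄ : A} (ha : a' * a * d₁ = 1)
    (hb : b' * b * d₄ = 1) (he : a' * b' * c' * (a * b * c) * (d₁ * d₂ * (d₃ * d₄)) = 1) :
    c' * c * (d₂ * d₃) = 1 := by
  have e : a' * b' * c' * (a * b * c) * (d₁ * d₂ * (d₃ * d₄)) =
      a' * a * d₁ * (b' * b * d₄) * (c' * c * (d₂ * d₃)) := by ac_rfl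
  rwa [e, ha, hb, one_mul, one_mul] at he

/-- The subgroup of the products of powers of two commuting elements. -/
def pairSub {a b : G} (hab : Commute a b) : Subgroup G where
  carrier := {k | ∃ i j : ℤ, k = a ^ i * b ^ j}
  one_mem' := ⟨0, 0, by simp⟩
  mul_mem' := by
    rintro _ _ ⟨i, j, rfl⟩ ⟨k, l, rfl⟩
    refine ⟨i + k, j + l, ?_⟩
    rw [zpow_add, zpow_add, mul_assoc (a ^ i), ← mul_assoc (b ^ j), (hab.zpow_zpow k j).eq.symm]
    group
  inv_mem' := by
    rintro _ ⟨i, j, rfl⟩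
    refine ⟨-i, -j, ?_⟩
    rw [mul_inv_rev, ← zpow_neg, ← zpow_neg, (hab.zpow_zpow (-i) (-j)).eq]

theorem mem_pairSub_left {a b : G} (hab : Commute a b) : a ∈ pairSub hab := ⟨1, 0, by simp⟩

theorem conj_mem_pairSub {a b v : G} (hab : Commute a b) (ha : v * a * v⁻¹ ∈ pairSub hab)
    (hb : v * b * v⁻¹ ∈ pairSub hab) : ∀ k ∈ pairSub hab, v * k * v⁻¹ ∈ pairSub hab := by
  rintro _ ⟨i, j, rfl⟩
  rw [← conj_mul, ← conj_zpow, ← conj_zpow]
  exact Subgroup.mul_mem _ (Subgroup.zpow_mem _ ha i) (Subgroup.zpow_mem _ hb j)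

/-- No four group of automorphisms of order five acting without fixed points. -/
theorem Ord6.five_mem_zpowers (h : Ord6 G) {O : Subgroup G} [O.Normal] (hO : IsPGroup 2 O)
    (hO1 : O ≠ ⊥) {a b : G ⧸ O} (hab : Commute a b) (ha : a ^ 5 = 1) (hb : b ^ 5 = 1)
    (hb1 : b ≠ 1) : a ∈ Subgroup.zpowers b := by
  classical
  by_contra hna
  haveI : Fact (Nat.Prime 2) := ⟨Nat.prime_two⟩
  haveI := SpecFive.invCentre_normal O
  set V := SpecFive.invCentre O with hVdef
  letI : CommGroup V := { (inferInstance : Group V) with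
    mul_comm := fun u w => Subtype.ext ((SpecFive.invCentre_elem O).1 u u.2 w w.2).eq }
  let ψ : G ⧸ O →* MulAut V := QuotientGroup.lift O MulAut.conjNormal fun g hg => by
    refine MonoidHom.mem_ker.2 (MulEquiv.ext fun v => Subtype.ext ?_)
    rw [MulAut.conjNormal_apply, MulAut.one_apply, (v.2.2.1 g hg).eq, mul_inv_cancel_right]
  have fix : ∀ w : G ⧸ O, w ^ 5 = 1 → w ≠ 1 → ∀ v : V, ψ w v = v → v = 1 := by
    intro w hw hw1 v hv
    obtain ⟨g, rfl⟩ := QuotientGroup.mk'_surjective O w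
    have hgm := h.pow_of_image_five (QuotientGroup.mk' O) hw hw1
    have e : g * (v : G) * g⁻¹ = v := congrArg Subtype.val hv
    exact Subtype.ext (h.fpf_five hgm (fun e => hw1 (by rw [e, map_one]))
      (m := 2) (by rw [pow_two]; exact v.2.2.2) (by norm_num) (mul_inv_eq_iff_eq_mul.1 e))
  haveI := Fact.mk Nat.prime_five
  have hob : orderOf b = 5 := orderOf_eq_prime hb hb1
  obtain ⟨z, hzV, hz1⟩ : ∃ z ∈ V, z ≠ 1 :=
    (Subgroup.bot_or_exists_ne_one V).resolve_left (SpecFive.invCentre_ne_bot hO hO1)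
  refine hz1 (congrArg Subtype.val (SpecFive.eq_one_of_lines Nat.prime_five (by norm_num) (ψ a) (ψ b)
    (by rw [← map_pow, ha, map_one]) (by rw [← map_pow, hb, map_one]) (hab.map ψ) ?_ ?_
    (v := (⟨z, hzV⟩ : V)) (n := 1) (Subtype.ext (by
      show z ^ 2 ^ 1 = 1
      rw [pow_one, pow_two]; exact hzV.2.2))))
  · intro k v hv
    rw [← map_pow, ← map_mul] at hv
    refine fix _ ?_ (fun e => hna ?_) v hv
    · rw [(hab.pow_right k).mul_pow, ha, ← pow_mul, mul_comm, pow_mul, hb, one_pow, one_mul]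
    · rw [eq_inv_of_mul_eq_one_left e]
      exact Subgroup.inv_mem _ (Subgroup.pow_mem _ (Subgroup.mem_zpowers b) k)
  · intro i hi hip v hv
    rw [← map_pow] at hv
    refine fix _ (by rw [← pow_mul, mul_comm, pow_mul, hb, one_pow]) (fun e => ?_) v hv
    exact Nat.not_dvd_of_pos_of_lt hi hip (hob ▸ orderOf_dvd_of_pow_eq_one e)

/-- A 2-group with a fixed-point-free element of order five inverted by an involution is elementary. -/
theorem elem_of_inverted :
    ∀ (N : ℕ) {G : Type u} [Group G] [Finite G] (O : Subgroup G) [O.Normal], Nat.card O ≤ N → Ord6 G →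
      IsPGroup 2 O → ∀ f t : G, f ^ 5 = 1 → f ≠ 1 → t * t = 1 → t * f * t⁻¹ = f⁻¹ → Elem O := by
  intro N
  induction N with
  | zero =>
    intro G _ _ O _ hN
    have := Nat.card_pos (α := O)
    omega
  | succ N ih =>
    intro G _ _ O _ hN h hO f t hf hf1 ht hinv
    haveI : Fact (Nat.Prime 2) := ⟨Nat.prime_two⟩
    by_cases hO1 : O = ⊥
    · subst hO1
      exact ⟨fun a ha b _ => Subgroup.mem_bot.1 ha ▸ Commute.one_left b,
        fun a ha => by rw [Subgroup.mem_bot.1 ha, one_mul]⟩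
    haveI := SpecFive.invCentre_normal O
    set Z := SpecFive.invCentre O with hZdef
    have hZO : Z ≤ O := SpecFive.invCentre_le O
    set σ := QuotientGroup.mk' Z with hσ
    have hker : σ.ker = Z := QuotientGroup.ker_mk' Z
    haveI : (O.map σ).Normal := ‹O.Normal›.map _ (QuotientGroup.mk'_surjective Z)
    have hlt : Nat.card (O.map σ) ≤ N := by
      have h1 : Nat.card (O.map σ) = Z.relIndex O := by
        rw [← Subgroup.relIndex_bot_left, ← Subgroup.map_bot σ,
          Subgroup.relIndex_map_map, hker, bot_sup_eq, sup_of_le_left hZO]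
      have h2 : Nat.card Z * Z.relIndex O = Nat.card O := by
        rw [← Subgroup.relIndex_bot_left, ← Subgroup.relIndex_bot_left,
          Subgroup.relIndex_mul_relIndex _ _ _ bot_le hZO]
      have h3 : 2 ≤ Nat.card Z :=
        (Subgroup.one_lt_card_iff_ne_bot Z).2 (SpecFive.invCentre_ne_bot hO hO1)
      have h4 : 0 < Z.relIndex O :=
        pos_of_mul_pos_right (h2.symm ▸ Nat.card_pos) (Nat.zero_le _)
      rw [h1]
      nlinarith
    have hQ := ih (O.map σ) hlt (h.quotient Z) (hO.map σ) (σ f) (σ t) (by rw [← map_pow, hf, map_one])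
      (fun e => hf1 (by
        have hfZ : f ∈ Z := by rw [← hker, MonoidHom.mem_ker]; exact e
        exact eq_one_of_pow_coprime (show Nat.Coprime 5 2 by norm_num) hf
          (by rw [pow_two]; exact hfZ.2.2)))
      (by rw [← map_mul, ht, map_one]) (by rw [← map_inv, ← map_mul, ← map_mul, hinv, map_inv])
    -- squares and commutators of `O` lie in `Z`
    have hsq : ∀ a ∈ O, a * a ∈ Z := fun a ha => by
      rw [← hker, MonoidHom.mem_ker, map_mul]
      exact hQ.2 _ (Subgroup.mem_map_of_mem σ ha)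
    have hcm : ∀ a ∈ O, ∀ b ∈ O, a * b * a⁻¹ * b⁻¹ ∈ Z := fun a ha b hb => by
      rw [← hker, MonoidHom.mem_ker, map_mul, map_mul, map_mul, map_inv, map_inv,
        (hQ.1 _ (Subgroup.mem_map_of_mem σ ha) _ (Subgroup.mem_map_of_mem σ hb)).eq]
      group
    let c : G → G → G := fun a b => a * b * a⁻¹ * b⁻¹
    have zc : ∀ z ∈ Z, ∀ q ∈ O, Commute q z := fun z hz => hz.2.1
    have zz : ∀ z ∈ Z, z * z = 1 := fun z hz => hz.2.2
    have hcsymm : ∀ a ∈ O, ∀ b ∈ O, c b a = c a b := fun a ha b hb => by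
      have : c b a = (c a b)⁻¹ := by simp only [c]; group
      rw [this]; exact inv_eq_of_mul_eq_one_right (zz _ (hcm a ha b hb))
    have hcl : ∀ a ∈ O, ∀ b ∈ O, ∀ d ∈ O, c (a * b) d = c a d * c b d := by
      intro a ha b hb d hd
      calc c (a * b) d = a * c b d * (d * a⁻¹ * d⁻¹) := by simp only [c]; group
        _ = c b d * a * (d * a⁻¹ * d⁻¹) := by rw [(zc _ (hcm b hb d hd) a ha).eq]
        _ = c b d * c a d := by simp only [c]; group
        _ = _ := (zc _ (hcm b hb d hd) _ (hZO (hcm a ha d hd))).eq.symm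
    have hcr : ∀ a ∈ O, ∀ b ∈ O, ∀ d ∈ O, c a (b * d) = c a b * c a d := by
      intro a ha b hb d hd
      rw [hcsymm _ (O.mul_mem hb hd) a ha, hcl b hb d hd a ha, ← hcsymm b hb a ha, ← hcsymm d hd a ha]
    have hsqmul : ∀ a ∈ O, ∀ b ∈ O, (a * b) * (a * b) = a * a * (b * b) * c b a := by
      intro a ha b hb
      calc (a * b) * (a * b) = a * c b a * a * (b * b) := by simp only [c]; group
        _ = c b a * (a * a * (b * b)) := by
          rw [(zc _ (hcm b hb a ha) a ha).eq]; simp only [c, mul_assoc]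
        _ = _ := (zc _ (hcm b hb a ha) _ (O.mul_mem (O.mul_mem ha ha) (O.mul_mem hb hb))).eq.symm
    -- the five involutions
    have hn : ∀ (g : G), ∀ a ∈ O, g * a * g⁻¹ ∈ O := fun g a ha => ‹O.Normal›.conj_mem a ha g
    have hnZ : ∀ (g : G), ∀ z ∈ Z, g * z * g⁻¹ ∈ Z := fun g z hz =>
      (inferInstance : Z.Normal).conj_mem z hz g
    have hO4 : ∀ a ∈ O, a ^ 4 = 1 := fun a ha => h.pow_two_group hO ha
    have hinvo : ∀ i : ℕ, (t * f ^ i) * (t * f ^ i) = 1 := fun i => by
      calc t * f ^ i * (t * f ^ i) = (t * f ^ i * t⁻¹) * (t * t * f ^ i) := by group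
        _ = 1 := by rw [← conj_pow, hinv, ht, one_mul, inv_pow, inv_mul_cancel]
    have hsqr : ∀ i : ℕ, ∀ a ∈ O,
        ((t * f ^ i) * a * (t * f ^ i)⁻¹ * a) * ((t * f ^ i) * a * (t * f ^ i)⁻¹ * a) = 1 := by
      intro i a ha
      set s := t * f ^ i with hs
      have hsi : s⁻¹ = s := inv_eq_of_mul_eq_one_right (hinvo i)
      set w := s * a * s⁻¹ * a with hw
      have hw' : w = (s * a) ^ 2 := by rw [hw, pow_two, hsi]; simp only [mul_assoc]
      have hwO : w ∈ O := O.mul_mem (hn s a ha) ha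
      rcases h (s * a) with e | e | e
      · rw [← pow_two, hw', ← pow_mul]; exact e
      · have : w ^ 5 = 1 := by rw [hw', ← pow_mul, mul_comm, pow_mul, e, one_pow]
        rw [eq_one_of_pow_coprime (show Nat.Coprime 5 4 by norm_num) this (hO4 w hwO), one_mul]
      · have : w ^ 3 = 1 := by rw [hw', ← pow_mul]; exact e
        rw [eq_one_of_pow_coprime (show Nat.Coprime 3 4 by norm_num) this (hO4 w hwO), one_mul]
    have hE : ∀ i : ℕ, ∀ a ∈ O, (t * f ^ i) * (a * a) * (t * f ^ i)⁻¹ *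
        (a * a) * c a ((t * f ^ i) * a * (t * f ^ i)⁻¹) = 1 := by
      intro i a ha
      have e := hsqr i a ha
      rw [hsqmul _ (hn _ a ha) a ha] at e
      rw [← conj_mul]
      exact e
    have hP : ∀ i : ℕ, ∀ a ∈ O, ∀ b ∈ O,
        (t * f ^ i) * c b a * (t * f ^ i)⁻¹ * c b a *
          (c a ((t * f ^ i) * b * (t * f ^ i)⁻¹) * c b ((t * f ^ i) * a * (t * f ^ i)⁻¹)) = 1 := by
      intro i a ha b hb
      set s := t * f ^ i with hs
      have e := hE i _ (O.mul_mem ha hb)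
      rw [← hs] at e
      rw [hsqmul a ha b hb, show s * (a * b) * s⁻¹ = s * a * s⁻¹ * (s * b * s⁻¹) by group] at e
      rw [hcl a ha b hb _ (O.mul_mem (hn s a ha) (hn s b hb)), hcr a ha _ (hn s a ha) _ (hn s b hb),
        hcr b hb _ (hn s a ha) _ (hn s b hb)] at e
      have ea := hE i a ha
      have eb := hE i b hb
      rw [← hs] at ea eb
      rw [← conj_mul, ← conj_mul] at e
      letI : CommGroup Z := { (inferInstance : Group Z) with
        mul_comm := fun u w => Subtype.ext (zc u u.2 w (hZO w.2)).eq.symm }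
      let A : Z := ⟨_, hsq a ha⟩
      let B : Z := ⟨_, hsq b hb⟩
      let C : Z := ⟨_, hcm b hb a ha⟩
      let A' : Z := ⟨_, hnZ s _ (hsq a ha)⟩
      let B' : Z := ⟨_, hnZ s _ (hsq b hb)⟩
      let C' : Z := ⟨_, hnZ s _ (hcm b hb a ha)⟩
      let D₁ : Z := ⟨_, hcm a ha _ (hn s a ha)⟩
      let D₂ : Z := ⟨_, hcm a ha _ (hn s b hb)⟩
      let D₃ : Z := ⟨_, hcm b hb _ (hn s a ha)⟩
      let D₄ : Z := ⟨_, hcm b hb _ (hn s b hb)⟩
      have ea' : A' * A * D₁ = 1 := Subtype.ext ea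
      have eb' : B' * B * D₄ = 1 := Subtype.ext eb
      have e' : A' * B' * C' * (A * B * C) * (D₁ * D₂ * (D₃ * D₄)) = 1 := Subtype.ext e
      have : C' * C * (D₂ * D₃) = 1 := by
        exact cancel_rel ea' eb' e'
      exact congrArg Subtype.val this
    -- sums over the five involutions
    letI : CommGroup Z := { (inferInstance : Group Z) with
      mul_comm := fun u w => Subtype.ext (zc u u.2 w (hZO w.2)).eq.symm }
    let act : G →* MulAut Z := MulAut.conjNormal
    have norm : ∀ z : Z, ∏ i ∈ Finset.range 5, act (f ^ i) z = 1 := by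
      intro z
      have hfix : ∀ w : Z, act f w = w → w = 1 := fun w hw =>
        Subtype.ext (h.fpf_five hf hf1 (m := 2) (by rw [pow_two]; exact zz w w.2) (by norm_num)
          (mul_inv_eq_iff_eq_mul.1 (congrArg Subtype.val hw)))
      refine hfix _ ?_
      rw [map_prod]
      have e : ∀ i, act f (act (f ^ i) z) = act (f ^ (i + 1)) z := fun i => by
        rw [← MulAut.mul_apply, ← map_mul, ← pow_succ']
      simp only [e, Finset.prod_range_succ, Finset.prod_range_zero, one_mul, zero_add,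
        show 4 + 1 = 5 from rfl, hf, pow_zero, map_one, MulAut.one_apply]
      simp only [mul_assoc, mul_comm, mul_left_comm]
    have hconv : ∀ (g : G) (z : Z), ((act g z : Z) : G) = g * z * g⁻¹ := fun g z => rfl
    have hb5 : ∀ a ∈ O, ∀ b ∈ O, c b a = 1 := by
      intro a ha b hb
      let C : Z := ⟨_, hcm b hb a ha⟩
      let P : ℕ → Z := fun i => ⟨_, hcm a ha _ (hn (t * f ^ i) b hb)⟩
      let R : ℕ → Z := fun i => ⟨_, hcm b hb _ (hn (t * f ^ i) a ha)⟩
      have e : ∀ i, act (t * f ^ i) C * C * (P i * R i) = 1 := fun i => Subtype.ext (hP i a ha b hb)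
      -- the mixed terms vanish
      have sumO : ∀ x, ∀ (hx : x ∈ O), ∀ y, ∀ (hy : y ∈ O),
          ∏ i ∈ Finset.range 5, (⟨c x ((t * f ^ i) * y * (t * f ^ i)⁻¹), hcm x hx _ (hn _ y hy)⟩ : Z) = 1 := by
        intro x hx y hy
        let Φ : O → Z := fun y => ∏ i ∈ Finset.range 5,
          (⟨c x ((t * f ^ i) * (y : G) * (t * f ^ i)⁻¹), hcm x hx _ (hn _ y y.2)⟩ : Z)
        have hmul : ∀ y y' : O, Φ (y * y') = Φ y * Φ y' := fun y y' => by
          simp only [Φ, ← Finset.prod_mul_distrib]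
          refine Finset.prod_congr rfl fun i _ => Subtype.ext ?_
          show c x _ = c x _ * c x _
          rw [Subgroup.coe_mul, ← conj_mul, hcr x hx _ (hn _ y y.2) _ (hn _ y' y'.2)]
        have hshift : ∀ y : O, Φ ⟨f * (y : G) * f⁻¹, hn f y y.2⟩ = Φ y := fun y => by
          let T : ℕ → Z := fun i => ⟨c x ((t * f ^ i) * (y : G) * (t * f ^ i)⁻¹), hcm x hx _ (hn _ y y.2)⟩
          have e1 : Φ ⟨f * (y : G) * f⁻¹, hn f y y.2⟩ = ∏ i ∈ Finset.range 5, T (i + 1) :=
            Finset.prod_congr rfl fun i _ => Subtype.ext (by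
              show c x _ = c x _
              congr 1
              rw [pow_succ]; group)
          have e2 : T 5 = T 0 := Subtype.ext (by
            show c x _ = c x _
            rw [hf, pow_zero])
          have e3 := Finset.prod_range_succ' T 5
          rw [Finset.prod_range_succ T 5, e2] at e3
          rw [e1]
          exact (mul_right_cancel e3).symm
        let δ : O → O := fun y => y⁻¹ * ⟨f * (y : G) * f⁻¹, hn f y y.2⟩
        have hinj : Function.Injective δ := by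
          intro u w e
          have e' : (u : G)⁻¹ * (f * u * f⁻¹) = (w : G)⁻¹ * (f * w * f⁻¹) := congrArg Subtype.val e
          have hfix : Commute f ((w : G) * (u : G)⁻¹) := by
            show f * ((w : G) * (u : G)⁻¹) = (w : G) * (u : G)⁻¹ * f
            calc f * ((w : G) * (u : G)⁻¹)
                = (w : G) * ((w : G)⁻¹ * (f * w * f⁻¹)) * (f * (u : G)⁻¹) := by group
              _ = (w : G) * ((u : G)⁻¹ * (f * u * f⁻¹)) * (f * (u : G)⁻¹) := by rw [e']
              _ = _ := by group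
          have := h.fpf_five hf hf1 (hO4 _ (O.mul_mem w.2 (O.inv_mem u.2))) (by norm_num) hfix
          exact Subtype.ext (mul_inv_eq_one.1 this).symm
        obtain ⟨y₀, hy₀⟩ := (Finite.injective_iff_surjective.1 hinj) ⟨y, hy⟩
        have h1 : Φ (y₀ * δ y₀) = Φ y₀ := by
          simp only [δ, mul_inv_cancel_left]
          exact hshift y₀
        rw [hmul, hy₀, mul_eq_left] at h1
        exact h1
      have tot : ∏ i ∈ Finset.range 5, (act (t * f ^ i) C * C * (P i * R i)) = 1 :=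
        Finset.prod_eq_one fun i _ => e i
      rw [Finset.prod_mul_distrib, Finset.prod_mul_distrib, Finset.prod_mul_distrib,
        sumO a ha b hb, sumO b hb a ha, mul_one, mul_one] at tot
      have e2 : ∏ i ∈ Finset.range 5, act (t * f ^ i) C = act t (∏ i ∈ Finset.range 5, act (f ^ i) C) := by
        rw [map_prod]
        exact Finset.prod_congr rfl fun i _ => by rw [map_mul, MulAut.mul_apply]
      rw [e2, norm, map_one, one_mul, Finset.prod_const, Finset.card_range] at tot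
      have hC2 : C ^ 2 = 1 := Subtype.ext (by rw [pow_two]; exact zz _ C.2)
      exact congrArg Subtype.val (eq_one_of_pow_coprime (show Nat.Coprime 5 2 by norm_num) tot hC2)
    have hab' : ∀ a ∈ O, ∀ b ∈ O, Commute b a := fun a ha b hb => by
      have := hb5 a ha b hb
      exact mul_inv_eq_iff_eq_mul.1 (mul_inv_eq_one.1 this)
    refine ⟨fun a ha b hb => hab' b hb a ha, fun a ha => ?_⟩
    have key : ∀ i : ℕ, Commute (t * f ^ i) (a * a) := fun i => by
      have e := hE i a ha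
      rw [show c a ((t * f ^ i) * a * (t * f ^ i)⁻¹) = 1 from hb5 _ (hn _ a ha) a ha, mul_one] at e
      refine mul_inv_eq_iff_eq_mul.1 ((eq_inv_of_mul_eq_one_left e).trans ?_)
      exact inv_eq_of_mul_eq_one_right (zz _ (hsq a ha))
    have hcf : Commute f (a * a) := by
      have := (key 0).inv_left.mul_left (key 1)
      simpa [mul_assoc] using this
    exact h.fpf_five hf hf1 (m := 2) (by rw [pow_two]; exact zz _ (hsq a ha)) (by norm_num) hcf

/-- The `{2,3}`-tops: normal Sylow 3 of exponent three, self-centralising, elementary Sylow 2. -/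
structure SolTop (X : Type u) [Group X] (Q : Subgroup X) : Prop where
  normal : Q.Normal
  exp : ∀ q ∈ Q, q ^ 3 = 1
  mem : ∀ x : X, x ^ 3 = 1 → x ∈ Q
  two : ∀ b : X, b ^ 4 = 1 → b * b = 1
  cent : Subgroup.centralizer (Q : Set X) ≤ Q
  six : ∀ g : X, g ^ 6 = 1

/-- The possibilities for the top. -/
def TopCases (G : Type u) [Group G] : Prop :=
  (∃ Q : Subgroup (G ⧸ pCore 2 G), SolTop (G ⧸ pCore 2 G) Q) ∨ Nat.card (G ⧸ pCore 2 G) = 5 ∨
    (Nat.card (G ⧸ pCore 2 G) = 10 ∧ Elem (pCore 2 G)) ∨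
    (Nonempty (G ⧸ pCore 2 G ≃* A5) ∧ Elem (pCore 2 G))

/-- A minimal normal subgroup of the top is simple when all its solvable normal subgroups are trivial. -/
theorem isSimpleGroup_minimal (h : Ord6 G) (_hc : Subgroup.centralizer (pCore 2 G : Set G) ≤ pCore 2 G)
    (hO1 : pCore 2 G ≠ ⊥)
    (hsol : ∀ N : Subgroup (G ⧸ pCore 2 G), N.Normal → Group.IsSolvable N → N = ⊥)
    (M : Subgroup (G ⧸ pCore 2 G)) [M.Normal] (hM : M ≠ ⊥)
    (hmin : ∀ L : Subgroup (G ⧸ pCore 2 G), L.Normal → L ≤ M → L = ⊥ ∨ L = M)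
    (hfive : ∀ L : Subgroup (G ⧸ pCore 2 G), ¬ Group.IsSolvable L → ∃ y ∈ L, y ^ 5 = 1 ∧ y ≠ 1) :
    IsSimpleGroup M := by
  haveI : Fact (Nat.Prime 2) := ⟨Nat.prime_two⟩
  classical
  haveI : Nontrivial ↥M := (Subgroup.nontrivial_iff_ne_bot M).2 hM
  refine ⟨fun X hX => or_iff_not_imp_left.2 fun hX1 => ?_⟩
  obtain ⟨L, hLX, hLn, hL, hLmin⟩ := CfsgLib.Solvable.exists_minimal_normal_le X hX1
  set L' := L.map M.subtype with hL'
  have hL'M : L' ≤ M := Subgroup.map_subtype_le _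
  have hconj : ∀ m ∈ M, ∀ x ∈ L', m * x * m⁻¹ ∈ L' := by
    rintro m hm _ ⟨x, hx, rfl⟩
    exact ⟨⟨m, hm⟩ * x * ⟨m, hm⟩⁻¹, hLn.conj_mem x hx _, rfl⟩
  have hLs : ¬ Group.IsSolvable L := by
    intro hs
    obtain ⟨V, q, k, hVL, hVn, hV, -, -, hq, hk, hVc, -⟩ :=
      CfsgLib.Solvable.exists_minimal_normal_elementary_le L hs hL
    haveI := Fact.mk hq
    haveI := hVn
    have hVp : IsPGroup q V := IsPGroup.of_card hVc
    set O := (Cfsg.pCore q ↥M).map M.subtype with hO
    haveI : O.Normal := ⟨fun x hx g => by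
      exact (inferInstance : ((Cfsg.pCore q ↥M).map M.subtype).Normal).conj_mem x hx g⟩
    have hOp : IsPGroup q O := (Constrained.isPGroup_pCore (G := ↥M) (p := q)).map _
    have hOs : Group.IsSolvable O := by haveI := hOp.isNilpotent; infer_instance
    have h0 := hsol O inferInstance hOs
    rw [hO, Subgroup.map_eq_bot_iff_of_injective _ M.subtype_injective] at h0
    exact hV (le_bot_iff.1 ((Constrained.le_pCore hVn hVp).trans h0.le))
  have hL'n : L'.Normal := by
    refine ⟨fun x hx g => ?_⟩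
    set L₂ := L'.map (MulAut.conj g).toMonoidHom with hL₂
    by_contra hne
    have hmem : g * x * g⁻¹ ∈ L₂ := ⟨x, hx, rfl⟩
    have hL₂M : L₂ ≤ M := by
      rintro _ ⟨a, ha, rfl⟩
      exact (inferInstance : M.Normal).conj_mem a (hL'M ha) g
    have hL₂conj : ∀ m ∈ M, ∀ z ∈ L₂, m * z * m⁻¹ ∈ L₂ := by
      rintro m hm _ ⟨a, ha, rfl⟩
      refine ⟨(g⁻¹ * m * g) * a * (g⁻¹ * m * g)⁻¹, hconj _ ?_ a ha, by simp [mul_assoc]⟩
      simpa using (inferInstance : M.Normal).conj_mem m hm g⁻¹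
    set J : Subgroup ↥M := (L' ⊓ L₂).subgroupOf M with hJ
    have hJn : J.Normal := ⟨fun a ha m =>
      ⟨hconj m m.2 a ha.1, hL₂conj m m.2 a ha.2⟩⟩
    rcases hLmin J hJn (fun a ha => by
      obtain ⟨b, hb, hba⟩ := ha.1
      exact Subtype.val_injective hba ▸ hb) with hb | hb
    · have hcomm : ∀ a ∈ L', ∀ b ∈ L₂, Commute a b := by
        intro a ha b hb'
        have hab : a * b * a⁻¹ * b⁻¹ ∈ L' ⊓ L₂ := by
          refine ⟨?_, ?_⟩
          · have := mul_mem ha (hconj b (hL₂M hb') _ (inv_mem ha))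
            simpa [mul_assoc] using this
          · exact L₂.mul_mem (hL₂conj a (hL'M ha) b hb') (L₂.inv_mem hb')
        have h1 : (⟨_, hL'M hab.1⟩ : ↥M) ∈ J := hab
        rw [hb, Subgroup.mem_bot] at h1
        have h2 := congrArg Subtype.val h1
        show a * b = b * a
        calc a * b = a * b * a⁻¹ * b⁻¹ * (b * a) := by group
          _ = b * a := by rw [show a * b * a⁻¹ * b⁻¹ = 1 from h2, one_mul]
      have hns' : ¬ Group.IsSolvable L' := fun hs => hLs
        (Group.isSolvable_of_isSolvable_injective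
          (f := (L.equivMapOfInjective M.subtype M.subtype_injective).toMonoidHom)
          (MulEquiv.injective _))
      obtain ⟨y, hyL, hy5, hy1⟩ := hfive L' hns'
      set y' := g * y * g⁻¹ with hy'
      have hy'2 : y' ∈ L₂ := ⟨y, hyL, rfl⟩
      have hmem := h.five_mem_zpowers CfsgLib.Constrained.isPGroup_pCore hO1 (hcomm y hyL y' hy'2).symm
        (by rw [hy', conj_pow, hy5, mul_one, mul_inv_cancel]) hy5 hy1
      have h1 : (⟨y', hL₂M hy'2⟩ : ↥M) ∈ J := ⟨(Subgroup.zpowers_le.2 hyL) hmem, hy'2⟩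
      rw [hb, Subgroup.mem_bot] at h1
      exact hy1 (conj_eq_one_iff.1 (congrArg Subtype.val h1))
    · refine hne ?_
      have hsub : L' ≤ L₂ := by
        rintro _ ⟨a, ha, rfl⟩
        rw [← hb] at ha
        exact ha.2
      have heq : L' = L₂ := Subgroup.eq_of_le_of_card_ge hsub (by
        rw [hL₂, Subgroup.card_map_of_injective (MulAut.conj g).injective])
      rwa [← heq] at hmem
  rcases hmin L' hL'n hL'M with e | e
  · rw [hL', Subgroup.map_eq_bot_iff_of_injective _ M.subtype_injective] at e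
    exact absurd e hL
  · rw [eq_top_iff]
    intro m _
    have hm : (m : G ⧸ pCore 2 G) ∈ L' := e.symm ▸ m.2
    obtain ⟨a, ha, hma⟩ := hm
    exact Subtype.val_injective hma ▸ hLX ha

section Top

variable (h : Ord6 G) (hc : Subgroup.centralizer (pCore 2 G : Set G) ≤ pCore 2 G)
include h hc

local notation "O₂" => pCore 2 G
local notation "π" => QuotientGroup.mk' (pCore 2 G)

/-- Lemma `centralizes_of_norm` on `O₂(G)`, read in the quotient. -/
theorem false_of_norm_top (K : Subgroup (G ⧸ O₂)) (hK : Odd (Nat.card K)) (hK1 : K ≠ ⊥) (v : G ⧸ O₂)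
    (hv : ∀ k ∈ K, v * k * v⁻¹ ∈ K) (n : ℕ) (hn : 0 < n)
    (hfix : ∀ j, 0 < j → j < n → ∀ k ∈ K, Commute (v ^ j) k → k = 1)
    (hnorm : ∀ g : G, π g = v → g ^ n = 1) : False := by
  haveI : Fact (Nat.Prime 2) := ⟨Nat.prime_two⟩
  obtain ⟨v₀, rfl⟩ := QuotientGroup.mk'_surjective O₂ v
  have hle : O₂ ≤ K.comap π := fun x hx => by
    rw [Subgroup.mem_comap, QuotientGroup.mk'_apply, (QuotientGroup.eq_one_iff x).2 hx]
    exact K.one_mem
  have hrel : (pCore 2 G).relIndex (K.comap π) = Nat.card K := by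
    rw [← Subgroup.relIndex_bot_left K]
    conv_rhs => rw [← Subgroup.map_comap_eq_self_of_surjective (QuotientGroup.mk'_surjective (pCore 2 G)) K]
    rw [← Subgroup.relIndex_comap, MonoidHom.comap_bot, QuotientGroup.ker_mk']
  have key := centralizes_of_norm (Nat.card (pCore 2 G)) (pCore 2 G) le_rfl
    CfsgLib.Constrained.isPGroup_pCore (K.comap π) hle
    (by rw [hrel]; exact hK.not_two_dvd_nat) v₀ (fun k hk => by
      show π (v₀ * k * v₀⁻¹) ∈ K
      rw [map_mul, map_mul, map_inv]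
      exact hv _ hk) n hn (by
      intro j hj hjn k hk hm
      refine (QuotientGroup.eq_one_iff k).1 (hfix j hj hjn _ hk (mul_inv_eq_iff_eq_mul.1 ?_))
      have : π (v₀ ^ j * k * (v₀ ^ j)⁻¹ * k⁻¹) = 1 := (QuotientGroup.eq_one_iff _).2 hm
      rw [map_mul, map_mul, map_mul, map_inv, map_inv, map_pow, mul_inv_eq_one] at this
      exact this) (by
      intro o ho
      have e : π (o * v₀) = π v₀ := by
        rw [map_mul, QuotientGroup.mk'_apply, (QuotientGroup.eq_one_iff o).2 ho, one_mul]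
      rw [hnorm _ e, hnorm v₀ rfl])
  obtain ⟨k, hk, hk1⟩ := (Subgroup.bot_or_exists_ne_one K).resolve_left hK1
  obtain ⟨g, rfl⟩ := QuotientGroup.mk'_surjective O₂ k
  -- the odd part of a lift
  obtain ⟨e, m, hm2, hem⟩ := Nat.exists_eq_pow_mul_and_not_dvd (orderOf_pos g).ne' 2 (by norm_num)
  have hg' : g ^ 2 ^ e ∈ K.comap π := Subgroup.pow_mem _ hk _
  have hcop : (orderOf (g ^ 2 ^ e)).Coprime 2 := by
    rw [orderOf_pow_of_dvd (by positivity) (hem ▸ dvd_mul_right _ _), hem,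
      Nat.mul_div_cancel_left _ (by positivity)]
    exact ((Nat.Prime.coprime_iff_not_dvd Nat.prime_two).2 hm2).symm
  have hO : g ^ 2 ^ e ∈ pCore 2 G := hc (Subgroup.mem_centralizer_iff.2 fun o ho =>
    (key _ hg' hcop o ho).eq.symm)
  have h1 : π g ^ 2 ^ e = 1 := by
    rw [← map_pow]; exact (QuotientGroup.eq_one_iff _).2 hO
  have hodd : (orderOf (π g)).Coprime (2 ^ e) := by
    have hd : orderOf (π g) ∣ Nat.card K := by
      rw [← Subgroup.orderOf_mk _ hk]; exact orderOf_dvd_natCard _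
    exact (Nat.Coprime.coprime_dvd_left hd hK.coprime_two_right).pow_right e
  exact hk1 (orderOf_eq_one_iff.1 (Nat.eq_one_of_dvd_coprimes hodd dvd_rfl (orderOf_dvd_of_pow_eq_one h1)))

theorem four_lift {v : G ⧸ O₂} (hv : v ^ 4 = 1) (hv2 : v * v ≠ 1) (g : G) (e : π g = v) : g ^ 4 = 1 :=
  h.pow_of_image_four π (e ▸ hv) (e ▸ hv2)

/-- An element of order four normalising a subgroup of exponent three: its square centralises it. -/
theorem commute_sq_of_three {Q : Subgroup (G ⧸ O₂)} (hQ : ∀ q ∈ Q, q ^ 3 = 1) {v : G ⧸ O₂}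
    (hv : v ^ 4 = 1) (hn : ∀ q ∈ Q, v * q * v⁻¹ ∈ Q) : ∀ q ∈ Q, Commute (v * v) q := by
  intro q hq
  by_contra hne
  set w := v * v with hw
  have hw2 : w * w = 1 := by rw [hw, ← hv]; simp only [pow_succ, pow_zero, one_mul, mul_assoc]
  have hw1 : w ≠ 1 := fun e => hne (e ▸ Commute.one_left q)
  have hwn : ∀ r ∈ Q, w * r * w⁻¹ ∈ Q := fun r hr => by
    rw [show w * r * w⁻¹ = v * (v * r * v⁻¹) * v⁻¹ by rw [hw]; group]
    exact hn _ (hn r hr)
  have hQx := h.quotient O₂
  set a := q⁻¹ * (w * q * w⁻¹) with ha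
  have haQ : a ∈ Q := Q.mul_mem (Q.inv_mem hq) (hwn q hq)
  have ha1 : a ≠ 1 := fun e => hne (mul_inv_eq_iff_eq_mul.1 (inv_mul_eq_one.1 e).symm)
  have hwa : w * a * w⁻¹ = a⁻¹ := by
    calc w * a * w⁻¹ = (w * q * w⁻¹)⁻¹ * ((w * w) * q * (w * w)⁻¹) := by rw [ha]; group
      _ = a⁻¹ := by rw [hw2, ha]; group
  set b := v * a * v⁻¹ with hb
  have hbQ : b ∈ Q := hn a haQ
  have hvb : v * b * v⁻¹ = a⁻¹ := by rw [← hwa, hb, hw]; group
  have hab : Commute a b := by
    set c := a * b * a⁻¹ * b⁻¹ with hcd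
    have hcQ : c ∈ Q := Q.mul_mem (Q.mul_mem (Q.mul_mem haQ hbQ) (Q.inv_mem haQ)) (Q.inv_mem hbQ)
    have hx : Commute a (b * a⁻¹ * b⁻¹) := by
      have := (commute_conj_of_exp_three hQ haQ hbQ).inv_right
      simpa [mul_assoc] using this
    have hvc : Commute v c := by
      refine mul_inv_eq_iff_eq_mul.1 ?_
      calc v * c * v⁻¹ = (v * a * v⁻¹) * (v * b * v⁻¹) * (v * a * v⁻¹)⁻¹ * (v * b * v⁻¹)⁻¹ := by
            rw [hcd]; group
        _ = b * a⁻¹ * b⁻¹ * a := by rw [← hb, hvb, inv_inv]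
        _ = a * (b * a⁻¹ * b⁻¹) := hx.eq.symm
        _ = c := by rw [hcd]; group
    have := eq_one_of_pow_coprime (show Nat.Coprime 4 3 by norm_num)
      (hQx.commute_four hv hw1 hvc) (hQ c hcQ)
    exact mul_inv_eq_iff_eq_mul.1 (mul_inv_eq_one.1 this)
  set K := pairSub hab with hKdef
  have hKQ : K ≤ Q := by
    rintro _ ⟨i, j, rfl⟩
    exact Q.mul_mem (Q.zpow_mem haQ i) (Q.zpow_mem hbQ j)
  have hbK : b ∈ K := ⟨0, 1, by simp⟩
  have hKcard : Odd (Nat.card K) := by
    rw [← Nat.not_even_iff_odd, even_iff_two_dvd]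
    intro h2
    obtain ⟨k, hk⟩ := exists_prime_orderOf_dvd_card' (hp := ⟨Nat.prime_two⟩) 2 h2
    have h3 : k ^ 3 = 1 := Subtype.ext (by simpa using hQ _ (hKQ k.2))
    have := orderOf_dvd_of_pow_eq_one h3
    rw [hk] at this
    norm_num at this
  have hwinv : ∀ k ∈ K, w * k * w⁻¹ = k⁻¹ := by
    have hwb : w * b * w⁻¹ = b⁻¹ := by
      calc w * b * w⁻¹ = v * (v * b * v⁻¹) * v⁻¹ := by rw [hw]; group
        _ = b⁻¹ := by rw [hvb, ← conj_inv, ← hb]
    rintro _ ⟨i, j, rfl⟩
    rw [← conj_mul, ← conj_zpow, ← conj_zpow, hwa, hwb, inv_zpow, inv_zpow, mul_inv_rev]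
    exact ((hab.zpow_zpow i j).inv_inv).eq
  refine false_of_norm_top h hc K hKcard ?_ v ?_ 4 (by norm_num) ?_ (four_lift h hc hv hw1)
  · intro e
    have := mem_pairSub_left hab
    rw [← hKdef, e, Subgroup.mem_bot] at this
    exact ha1 this
  · exact conj_mem_pairSub hab (hb ▸ hbK) (hvb ▸ K.inv_mem (mem_pairSub_left hab))
  · intro j hj hj4 k hk hjc
    have hk3 := hQ k (hKQ hk)
    have hodd : Commute v k → k = 1 := fun hc' =>
      eq_one_of_pow_coprime (show Nat.Coprime 4 3 by norm_num) (hQx.commute_four hv hw1 hc') hk3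
    interval_cases j
    · exact hodd (by simpa using hjc)
    · have hc2 : Commute w k := by rw [hw, ← pow_two]; exact hjc
      have e : k = k⁻¹ := by rw [← hwinv k hk, hc2.eq, mul_inv_cancel_right]
      exact eq_one_of_pow_coprime (show Nat.Coprime 2 3 by norm_num)
        (by rw [pow_two]; nth_rewrite 2 [e]; exact mul_inv_cancel k) hk3
    · refine hodd ?_
      have : v = (v ^ 3) ^ 3 := by
        rw [← pow_mul, show 3 * 3 = 4 + (4 + 1) from rfl, pow_add, pow_add, hv, one_mul, one_mul, pow_one]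
      rw [this]
      exact hjc.pow_left 3

/-- Nothing of order four normalises a subgroup of order five. -/
theorem sq_eq_one_of_five {f v : G ⧸ O₂} (hf : f ^ 5 = 1) (hf1 : f ≠ 1) (hv : v ^ 4 = 1)
    (hn : v * f * v⁻¹ ∈ Subgroup.zpowers f) : v * v = 1 := by
  by_contra hv2
  haveI := Fact.mk Nat.prime_five
  have hQx := h.quotient O₂
  refine false_of_norm_top h hc (Subgroup.zpowers f)
    (by rw [Nat.card_zpowers, orderOf_eq_prime hf hf1]; decide)
    (by rw [Ne, Subgroup.zpowers_eq_bot]; exact hf1) v ?_ 4 (by norm_num) ?_ (four_lift h hc hv hv2)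
  · intro k hk
    obtain ⟨i, rfl⟩ := Subgroup.mem_zpowers_iff.1 hk
    rw [← conj_zpow]
    exact Subgroup.zpow_mem _ hn i
  · intro j hj hj4 k hk hjc
    by_contra hk1
    have hk5 : k ^ 5 = 1 := by
      obtain ⟨i, rfl⟩ := Subgroup.mem_zpowers_iff.1 hk
      rw [← zpow_natCast, ← zpow_mul, mul_comm, zpow_mul, zpow_natCast, hf, one_zpow]
    have hone : v ^ j = 1 := eq_one_of_pow_coprime (show Nat.Coprime 4 5 by norm_num)
      (by rw [← pow_mul, mul_comm, pow_mul, hv, one_pow]) (hQx.commute_five hk5 hk1 hjc.symm)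
    apply hv2
    interval_cases j
    · rw [pow_one] at hone; rw [hone, one_mul]
    · rw [← pow_two]; exact hone
    · rw [← pow_two, show v ^ 2 = v ^ 4 * v ^ 4 * (v ^ 3)⁻¹ * (v ^ 3)⁻¹ by group, hv, hone]; group

/-- An element of order five normalises no subgroup of exponent three. -/
theorem eq_bot_of_five {f : G ⧸ O₂} (hf : f ^ 5 = 1) (hf1 : f ≠ 1) {R : Subgroup (G ⧸ O₂)}
    (hR : ∀ q ∈ R, q ^ 3 = 1) (hn : ∀ q ∈ R, f * q * f⁻¹ ∈ R) : R = ⊥ := by
  by_contra hR1
  haveI := Fact.mk Nat.prime_five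
  have hQx := h.quotient O₂
  refine false_of_norm_top h hc R ?_ hR1 f hn 5 (by norm_num) ?_
    (fun g e => h.pow_of_image_five π (e ▸ hf) (e ▸ hf1))
  · rw [← Nat.not_even_iff_odd, even_iff_two_dvd]
    intro h2
    obtain ⟨k, hk⟩ := exists_prime_orderOf_dvd_card' (hp := ⟨Nat.prime_two⟩) 2 h2
    have h3 : k ^ 3 = 1 := Subtype.ext (by simpa using hR _ k.2)
    have := orderOf_dvd_of_pow_eq_one h3
    rw [hk] at this
    norm_num at this
  · intro j hj hj5 k hk hjc
    refine eq_one_of_pow_coprime (show Nat.Coprime 5 3 by norm_num)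
      (hQx.commute_five (a := f ^ j) (by rw [← pow_mul, mul_comm, pow_mul, hf, one_pow]) ?_ hjc) (hR k hk)
    intro e
    exact Nat.not_dvd_of_pos_of_lt hj hj5 (orderOf_eq_prime hf hf1 ▸ orderOf_dvd_of_pow_eq_one e)

/-- The normaliser of a subgroup of order five. -/
theorem normalizer_five (hO1 : pCore 2 G ≠ ⊥) {f u : G ⧸ O₂} (hf : f ^ 5 = 1) (hf1 : f ≠ 1)
    (hn : u * f * u⁻¹ ∈ Subgroup.zpowers f) :
    u ∈ Subgroup.zpowers f ∨ (u * u = 1 ∧ u * f * u⁻¹ = f⁻¹) := by
  haveI : Fact (Nat.Prime 2) := ⟨Nat.prime_two⟩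
  haveI := Fact.mk Nat.prime_five
  have hQx := h.quotient O₂
  have hof : orderOf f = 5 := orderOf_eq_prime hf hf1
  have hmem5 : ∀ w ∈ Subgroup.zpowers f, w ^ 5 = 1 := by
    intro w hw
    obtain ⟨i, rfl⟩ := Subgroup.mem_zpowers_iff.1 hw
    rw [← zpow_natCast, ← zpow_mul, mul_comm, zpow_mul, zpow_natCast, hf, one_zpow]
  have hnn : ∀ (m : ℕ) (w : G ⧸ O₂), w ∈ Subgroup.zpowers f → u ^ m * w * (u ^ m)⁻¹ ∈ Subgroup.zpowers f := by
    intro m
    induction m with
    | zero => intro w hw; simpa using hw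
    | succ m ih =>
      intro w hw
      obtain ⟨i, hi⟩ := Subgroup.mem_zpowers_iff.1 (ih w hw)
      rw [show u ^ (m + 1) * w * (u ^ (m + 1))⁻¹ = u * (u ^ m * w * (u ^ m)⁻¹) * u⁻¹ by
        rw [pow_succ']; group, ← hi, ← conj_zpow]
      exact Subgroup.zpow_mem _ hn i
  have hfixed : ∀ {l : ℕ} (g : G ⧸ O₂), l.Prime → ¬ l ∣ 4 → g ^ l = 1 →
      (∀ w ∈ Subgroup.zpowers f, g * w * g⁻¹ ∈ Subgroup.zpowers f) → g ∈ Subgroup.zpowers f := by
    intro l g hl hl4 hgl hgn
    let S : Set (G ⧸ O₂) := (Subgroup.zpowers f : Set (G ⧸ O₂)) \ {1}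
    have hS : Nat.card S = 4 := by
      rw [Nat.card_coe_set_eq, Set.ncard_sdiff_singleton_of_mem (Subgroup.one_mem _),
        ← Nat.card_coe_set_eq]
      show Nat.card (Subgroup.zpowers f) - 1 = 4
      rw [Nat.card_zpowers, hof]
    obtain ⟨w, ⟨hw, hw1⟩, hcw⟩ := SpecFive.exists_fixed hl hgl S
      (fun a ha => ⟨hgn a ha.1, fun e => ha.2 (conj_eq_one_iff.1 e)⟩) (by rwa [hS])
    have hg5 := hQx.commute_five (hmem5 w hw) hw1 hcw.symm
    have := h.five_mem_zpowers CfsgLib.Constrained.isPGroup_pCore hO1 hcw hg5 (hmem5 w hw) hw1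
    exact (Subgroup.zpowers_le.2 hw) this
  have hfour : ∀ m : ℕ, (u ^ m) ^ 4 = 1 → u ^ m * u ^ m = 1 := fun m hm =>
    sq_eq_one_of_five h hc hf hf1 hm (hnn m f (Subgroup.mem_zpowers f))
  have hinvert : u * u = 1 → u ∈ Subgroup.zpowers f ∨ (u * u = 1 ∧ u * f * u⁻¹ = f⁻¹) := by
    intro hu
    by_cases hne : u * f * u⁻¹ = f⁻¹
    · exact Or.inr ⟨hu, hne⟩
    left
    set w := f * (u * f * u⁻¹) with hw
    have hw1 : w ≠ 1 := fun e => hne (eq_inv_of_mul_eq_one_right e)
    have hwm : w ∈ Subgroup.zpowers f := Subgroup.mul_mem _ (Subgroup.mem_zpowers f) hn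
    have hcf : Commute f (u * f * u⁻¹) := by
      obtain ⟨i, hi⟩ := Subgroup.mem_zpowers_iff.1 hn
      rw [← hi]; exact (Commute.refl f).zpow_right i
    have hcu : Commute u w := mul_inv_eq_iff_eq_mul.1 (by
      calc u * w * u⁻¹ = u * f * u⁻¹ * ((u * u) * f * (u * u)⁻¹) := by rw [hw]; group
        _ = w := by rw [hu, hw, hcf.eq]; group)
    have hu5 := hQx.commute_five (hmem5 w hwm) hw1 hcu.symm
    rw [eq_one_of_pow_coprime (show Nat.Coprime 5 2 by norm_num) hu5 (by rw [pow_two]; exact hu)]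
    exact Subgroup.one_mem _
  rcases hQx u with e | e | e
  · exact hinvert (by simpa using hfour 1 (by rwa [pow_one]))
  · exact Or.inl (hfixed u Nat.prime_five (by norm_num) e fun w hw => by simpa using hnn 1 w hw)
  · have h2 := hfixed (u ^ 2) Nat.prime_three (by norm_num) (by rw [← pow_mul]; exact e)
      (hnn 2)
    have : u ^ 2 = 1 := eq_one_of_pow_coprime (show Nat.Coprime 3 5 by norm_num)
      (by rw [← pow_mul]; exact e) (hmem5 _ h2)
    exact hinvert (by rw [← pow_two]; exact this)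

/-- An inversion of an element of order five in the top makes `O₂` elementary. -/
theorem elem_of_top_inversion {f s : G ⧸ O₂} (hf : f ^ 5 = 1) (hf1 : f ≠ 1) (hs : s * s = 1)
    (hinv : s * f * s⁻¹ = f⁻¹) : Elem (pCore 2 G) := by
  haveI : Fact (Nat.Prime 2) := ⟨Nat.prime_two⟩
  obtain ⟨y, rfl⟩ := QuotientGroup.mk'_surjective O₂ f
  obtain ⟨g, rfl⟩ := QuotientGroup.mk'_surjective O₂ s
  have hy := h.pow_of_image_five π hf hf1
  have hy1 : y ≠ 1 := fun e => hf1 (by rw [e, map_one])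
  have hO4 : ∀ d ∈ pCore 2 G, d ^ 4 = 1 := fun d hd =>
    h.pow_two_group CfsgLib.Constrained.isPGroup_pCore hd
  have hfp : ∀ d ∈ pCore 2 G, Commute y d → d = 1 := fun d hd hd' =>
    h.fpf_five hy hy1 (hO4 d hd) (by norm_num) hd'
  obtain ⟨r, hr, hre⟩ := SpecFive.exists_inverting (D := pCore 2 G) (x := y) (g := g)
    (fun d hd => by simpa using (inferInstance : (pCore 2 G).Normal).conj_mem d hd y⁻¹) hfp (by
      refine (QuotientGroup.eq_one_iff _).1 ?_
      show π (g * y * g⁻¹ * y) = 1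
      rw [map_mul, map_mul, map_mul, map_inv, hinv, inv_mul_cancel])
  set t := r * g with ht
  have htv : t * y * t⁻¹ = y⁻¹ := hre
  have htO : t * t ∈ pCore 2 G := (QuotientGroup.eq_one_iff _).1 (by
    show π (t * t) = 1
    rw [map_mul, ht, map_mul, show π r = 1 from (QuotientGroup.eq_one_iff r).2 hr, one_mul]
    exact hs)
  have htt : t * t = 1 := hfp _ htO (mul_inv_eq_iff_eq_mul.1 (by
    calc t * t * y * (t * t)⁻¹ = t * (t * y * t⁻¹) * t⁻¹ := by group
      _ = y := by rw [htv, ← conj_inv, htv, inv_inv])).symm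
  exact elem_of_inverted _ (pCore 2 G) le_rfl h CfsgLib.Constrained.isPGroup_pCore y t hy hy1 htt htv

theorem pCore_three_bot (hX : ∃ f : G ⧸ O₂, f ^ 5 = 1 ∧ f ≠ 1) : pCore 3 (G ⧸ O₂) = ⊥ := by
  haveI : Fact (Nat.Prime 3) := ⟨Nat.prime_three⟩
  obtain ⟨f, hf, hf1⟩ := hX
  exact eq_bot_of_five h hc hf hf1
    (fun q hq => (h.quotient O₂).pow_three_group CfsgLib.Constrained.isPGroup_pCore hq)
    (fun q hq => (inferInstance : (pCore 3 (G ⧸ O₂)).Normal).conj_mem q hq f)

theorem isSolvable_of_no_five (hX : ∀ f : G ⧸ O₂, f ^ 5 = 1 → f = 1) : Group.IsSolvable (G ⧸ O₂) := by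
  refine CfsgLib.Chars.Apps.isSolvable_of_primeFactors_subset (G ⧸ O₂) Nat.prime_two Nat.prime_three
    fun r hr hd => ?_
  rcases (h.quotient O₂).prime_cases_card hr hd with e | e | e
  · exact Or.inl e
  · exact Or.inr e
  · exfalso
    subst e
    haveI := Fact.mk hr
    obtain ⟨g, hg⟩ := exists_prime_orderOf_dvd_card' 5 hd
    rw [hX g (by rw [← hg, pow_orderOf_eq_one]), orderOf_one] at hg
    norm_num at hg

/-- No elements of order five: the `{2,3}`-top. -/
theorem solTop (hX : ∀ f : G ⧸ O₂, f ^ 5 = 1 → f = 1) :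
    SolTop (G ⧸ O₂) (pCore 3 (G ⧸ O₂)) := by
  classical
  haveI : Fact (Nat.Prime 2) := ⟨Nat.prime_two⟩
  haveI : Fact (Nat.Prime 3) := ⟨Nat.prime_three⟩
  haveI := isSolvable_of_no_five h hc hX
  have hQx := h.quotient O₂
  set Q := pCore 3 (G ⧸ O₂) with hQdef
  have hQp : IsPGroup 3 Q := CfsgLib.Constrained.isPGroup_pCore
  have hexp : ∀ q ∈ Q, q ^ 3 = 1 := fun q hq => hQx.pow_three_group hQp hq
  have hpp : pPrimeCore 3 (G ⧸ O₂) = ⊥ := by
    have hp2 : IsPGroup 2 (pPrimeCore 3 (G ⧸ O₂)) := fun x => by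
      have hx3 : ¬ 3 ∣ orderOf (x : G ⧸ O₂) := fun e =>
        CfsgLib.Constrained.pPrimeCore_not_dvd (p := 3) (G := G ⧸ O₂)
          (e.trans (Subgroup.orderOf_coe x ▸ orderOf_dvd_natCard x))
      have hx5 : orderOf (x : G ⧸ O₂) ≠ 5 := fun e => by
        have := hX x (by rw [← e, pow_orderOf_eq_one])
        rw [this, orderOf_one] at e
        norm_num at e
      refine ⟨2, Subtype.ext ?_⟩
      show (x : G ⧸ O₂) ^ 4 = 1
      refine orderOf_dvd_iff_pow_eq_one.1 ?_
      rcases hQx.orderOf_cases (x : G ⧸ O₂) with e | e | e | e | e | e <;> rw [e] at hx3 hx5 ⊢ <;>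
        first
          | exact absurd rfl hx5
          | exact absurd (dvd_refl 3) hx3
          | exact absurd (Dvd.intro 2 rfl) hx3
          | norm_num
    refine le_bot_iff.1 ((CfsgLib.Constrained.le_pCore inferInstance hp2).trans ?_)
    exact (CfsgLib.Constrained.pCore_quotient_pCore (p := 2) (G := G)).le
  have hcent : Subgroup.centralizer (Q : Set (G ⧸ O₂)) ≤ Q :=
    CfsgLib.Constrained.centralizer_pCore_le CfsgLib.Constrained.isPSolvable_of_isSolvable hpp
  have htwo : ∀ b : G ⧸ O₂, b ^ 4 = 1 → b * b = 1 := by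
    intro b hb
    have hw : b * b ∈ Q := hcent (Subgroup.mem_centralizer_iff.2 fun q hq =>
      (commute_sq_of_three h hc hexp hb
        (fun r hr => (inferInstance : Q.Normal).conj_mem r hr b) q hq).eq.symm)
    exact eq_one_of_pow_coprime (show Nat.Coprime 3 2 by norm_num) (hexp _ hw)
      (by rw [← hb]; simp only [pow_succ, pow_zero, one_mul, mul_assoc])
  have hsix : ∀ g : G ⧸ O₂, g ^ 6 = 1 := fun g => by
    rcases hQx g with e | e | e
    · rw [show (6 : ℕ) = 2 * 3 from rfl, pow_mul, pow_two, htwo g e, one_pow]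
    · rw [hX g e, one_pow]
    · exact e
  refine ⟨inferInstance, hexp, fun y hy => ?_, htwo, hcent, hsix⟩
  by_contra hyQ
  set τ := QuotientGroup.mk' Q with hτ
  set E := pCore 2 ((G ⧸ O₂) ⧸ Q) with hEdef
  haveI : Group.IsSolvable ((G ⧸ O₂) ⧸ Q) :=
    Group.isSolvable_of_surjective (QuotientGroup.mk'_surjective Q)
  have hXq := hQx.quotient Q
  have hsixq : ∀ g : (G ⧸ O₂) ⧸ Q, g ^ 6 = 1 := fun g => by
    obtain ⟨g, rfl⟩ := QuotientGroup.mk'_surjective Q g
    rw [← map_pow, hsix, map_one]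
  have hpp2 : pPrimeCore 2 ((G ⧸ O₂) ⧸ Q) = ⊥ := by
    have hp3 : IsPGroup 3 (pPrimeCore 2 ((G ⧸ O₂) ⧸ Q)) := fun x => by
      have hx2 : ¬ 2 ∣ orderOf (x : (G ⧸ O₂) ⧸ Q) := fun e =>
        CfsgLib.Constrained.pPrimeCore_not_dvd (p := 2) (G := (G ⧸ O₂) ⧸ Q)
          (e.trans (Subgroup.orderOf_coe x ▸ orderOf_dvd_natCard x))
      refine ⟨1, Subtype.ext ?_⟩
      show (x : (G ⧸ O₂) ⧸ Q) ^ 3 = 1
      refine orderOf_dvd_iff_pow_eq_one.1 ?_
      exact (((Nat.Prime.coprime_iff_not_dvd Nat.prime_two).2 hx2).symm).dvd_of_dvd_mul_left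
        (show orderOf (x : (G ⧸ O₂) ⧸ Q) ∣ 2 * 3 from orderOf_dvd_of_pow_eq_one (hsixq _))
    exact le_bot_iff.1 ((CfsgLib.Constrained.le_pCore inferInstance hp3).trans
      (CfsgLib.Constrained.pCore_quotient_pCore (p := 3) (G := G ⧸ O₂)).le)
  have hEc : Subgroup.centralizer (E : Set ((G ⧸ O₂) ⧸ Q)) ≤ E :=
    CfsgLib.Constrained.centralizer_pCore_le CfsgLib.Constrained.isPSolvable_of_isSolvable hpp2
  have hE2 : ∀ e ∈ E, e * e = 1 := fun e he => by
    have h4 := hXq.pow_two_group CfsgLib.Constrained.isPGroup_pCore he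
    have h2 : e ^ Nat.gcd 6 4 = 1 := pow_gcd_eq_one.mpr ⟨hsixq e, h4⟩
    rw [← pow_two]; exact h2
  have hEcomm : ∀ a ∈ E, ∀ b ∈ E, Commute a b := fun a ha b hb => by
    show a * b = b * a
    calc a * b = (a * b)⁻¹ := (inv_eq_of_mul_eq_one_right (hE2 _ (E.mul_mem ha hb))).symm
      _ = b * a := by
        rw [mul_inv_rev, inv_eq_of_mul_eq_one_right (hE2 a ha), inv_eq_of_mul_eq_one_right (hE2 b hb)]
  set Y := τ y with hY
  have hY3 : Y ^ 3 = 1 := by rw [hY, ← map_pow, hy, map_one]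
  have hY1 : Y ≠ 1 := fun e => hyQ ((QuotientGroup.eq_one_iff y).1 e)
  obtain ⟨e, he, hne⟩ : ∃ e ∈ E, ¬ Commute Y e := by
    by_contra hall
    push Not at hall
    have hYE := hEc (Subgroup.mem_centralizer_iff.2 fun e he => (hall e he).eq.symm)
    exact hY1 (eq_one_of_pow_coprime (show Nat.Coprime 2 3 by norm_num)
      (by rw [pow_two]; exact hE2 _ hYE) hY3)
  have hYn : ∀ a ∈ E, Y * a * Y⁻¹ ∈ E := fun a ha => (inferInstance : E.Normal).conj_mem a ha Y
  set u := Y * e * Y⁻¹ * e with hu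
  have huE : u ∈ E := E.mul_mem (hYn e he) he
  have hu1 : u ≠ 1 := fun e0 => hne (by
    have : Y * e * Y⁻¹ = e := by
      rw [eq_inv_of_mul_eq_one_left e0, inv_eq_of_mul_eq_one_right (hE2 e he)]
    exact mul_inv_eq_iff_eq_mul.1 this)
  set u' := Y * u * Y⁻¹ with hu'
  have hu'E : u' ∈ E := hYn u huE
  have hYu' : Y * u' * Y⁻¹ = u * u' := by
    set e' := Y * e * Y⁻¹ with he'
    set e'' := Y * e' * Y⁻¹ with he''
    have h'' : Y * e'' * Y⁻¹ = e := by
      calc Y * e'' * Y⁻¹ = Y ^ 3 * e * (Y ^ 3)⁻¹ := by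
            rw [he'', he']; simp only [pow_succ, pow_zero, one_mul]; group
        _ = e := by rw [hY3, inv_one, one_mul, mul_one]
    have eu : u' = e'' * e' := by rw [hu', hu, ← conj_mul]
    rw [eu, ← conj_mul, h'', ← he'', hu]
    have c1 := hEcomm e he e'' (hYn _ (hYn e he))
    calc e * e'' = e'' * e := c1.eq
      _ = (e' * e') * (e'' * e) := by rw [hE2 e' (hYn e he), one_mul]
      _ = e' * e * (e'' * e') := by
        rw [(hEcomm e' (hYn e he) e he).eq]
        rw [show e * e' * (e'' * e') = e * (e' * (e'' * e')) by group,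
          show e' * e' * (e'' * e) = e' * (e' * (e'' * e)) by group]
        rw [(hEcomm e'' (hYn _ (hYn e he)) e he).eq, ← mul_assoc e' e, (hEcomm e' (hYn e he) e he).eq,
          mul_assoc e e', ← mul_assoc e' e, (hEcomm e' (hYn e he) e he).eq, mul_assoc e e',
          (hEcomm e'' (hYn _ (hYn e he)) e' (hYn e he)).eq]
  have hcomm : Commute u u' := hEcomm u huE u' hu'E
  set K := pairSub hcomm with hKdef
  have hKE : K ≤ E := by
    rintro _ ⟨i, j, rfl⟩
    exact E.mul_mem (E.zpow_mem huE i) (E.zpow_mem hu'E j)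
  have huK : u ∈ K := mem_pairSub_left hcomm
  have hu'K : u' ∈ K := ⟨0, 1, by simp⟩
  have hKn : ∀ k ∈ K, Y * k * Y⁻¹ ∈ K :=
    conj_mem_pairSub hcomm (hu' ▸ hu'K) (hYu' ▸ K.mul_mem huK hu'K)
  have hKfix : ∀ k ∈ K, Commute Y k → k = 1 := by
    intro k hk hYk
    have hz : ∀ (x : (G ⧸ O₂) ⧸ Q), x * x = 1 → ∀ i : ℤ, x ^ i = 1 ∨ x ^ i = x := fun x hx i => by
      rcases Int.even_or_odd i with ⟨m, rfl⟩ | ⟨m, rfl⟩
      · left; rw [← two_mul, zpow_mul, show (2 : ℤ) = ((2 : ℕ) : ℤ) from rfl, zpow_natCast, pow_two, hx, one_zpow]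
      · right; rw [zpow_add, zpow_mul, show (2 : ℤ) = ((2 : ℕ) : ℤ) from rfl, zpow_natCast, pow_two, hx,
          one_zpow, one_mul, zpow_one]
    have hkY : Y * k * Y⁻¹ = k := by rw [hYk.eq, mul_inv_cancel_right]
    obtain ⟨i, j, rfl⟩ := hk
    rcases hz u (hE2 u huE) i with ei | ei <;> rcases hz u' (hE2 u' hu'E) j with ej | ej <;>
      rw [ei, ej] at hkY ⊢
    · exact one_mul 1
    · rw [one_mul, hYu'] at hkY
      exact absurd (mul_eq_right.1 hkY) hu1
    · rw [mul_one, ← hu'] at hkY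
      exfalso
      rw [hkY, ← hu', hkY, hE2 u huE] at hYu'
      exact hu1 hYu'
    · rw [← conj_mul, ← hu', hYu', ← mul_assoc, ← hcomm.eq, mul_assoc u u', hE2 u' hu'E, mul_one] at hkY
      have : u' = 1 := mul_eq_left.1 hkY.symm
      rw [hu', conj_eq_one_iff] at this
      exact absurd this hu1
  have key := centralizes_of_norm (p := 3) (Nat.card Q) Q le_rfl hQp (K.comap τ)
    (fun x hx => by
      rw [Subgroup.mem_comap, hτ, QuotientGroup.mk'_apply, (QuotientGroup.eq_one_iff x).2 hx]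
      exact K.one_mem)
    (by
      intro h3
      have hrel : Q.relIndex (K.comap τ) = Nat.card K := by
        rw [← Subgroup.relIndex_bot_left K]
        conv_rhs => rw [← Subgroup.map_comap_eq_self_of_surjective (QuotientGroup.mk'_surjective Q) K]
        rw [← Subgroup.relIndex_comap, MonoidHom.comap_bot, QuotientGroup.ker_mk']
      rw [hrel] at h3
      obtain ⟨k, hk⟩ := exists_prime_orderOf_dvd_card' 3 h3
      have h2 : k ^ 2 = 1 := Subtype.ext (by simpa [pow_two] using hE2 _ (hKE k.2))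
      have := orderOf_dvd_of_pow_eq_one h2
      rw [hk] at this
      norm_num at this)
    y (fun k hk => by
      show τ (y * k * y⁻¹) ∈ K
      rw [map_mul, map_mul, map_inv]
      exact hKn _ hk) 3 (by norm_num) (by
      intro j hj hj3 k hk hm
      refine (QuotientGroup.eq_one_iff k).1 (hKfix _ hk ?_)
      have h1 : τ (y ^ j * k * (y ^ j)⁻¹ * k⁻¹) = 1 := (QuotientGroup.eq_one_iff _).2 hm
      rw [map_mul, map_mul, map_mul, map_inv, map_inv, map_pow, mul_inv_eq_one] at h1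
      have hcj : Commute (Y ^ j) (τ k) := mul_inv_eq_iff_eq_mul.1 h1
      interval_cases j
      · rwa [pow_one] at hcj
      · have : Y = (Y ^ 2) ^ 2 := by rw [← pow_mul, show 2 * 2 = 3 + 1 from rfl, pow_add, hY3, one_mul, pow_one]
        rw [this]; exact hcj.pow_left 2) (by
      intro q hq
      rw [hy]
      have h6 := hsix (q * y)
      have hmem : (q * y) ^ 3 ∈ Q := (QuotientGroup.eq_one_iff _).1 (by
        show τ ((q * y) ^ 3) = 1
        rw [map_pow, map_mul, show τ q = 1 from (QuotientGroup.eq_one_iff q).2 hq, one_mul]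
        exact hY3)
      exact eq_one_of_pow_coprime (show Nat.Coprime 2 3 by norm_num)
        (by rw [← pow_mul]; exact h6) (hexp _ hmem))
  obtain ⟨g, hg⟩ := QuotientGroup.mk'_surjective Q u
  have hg3 : τ (g ^ 3) = u := by
    have hu3 : u ^ 3 = u := by rw [pow_succ, pow_two, hE2 u huE, one_mul]
    rw [map_pow, hτ, hg, hu3]
  have hcop : (orderOf (g ^ 3)).Coprime 3 :=
    Nat.Coprime.coprime_dvd_left (orderOf_dvd_of_pow_eq_one (show (g ^ 3) ^ 2 = 1 by
      rw [← pow_mul]; exact hsix g)) (by norm_num)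
  have hmemK : g ^ 3 ∈ K.comap τ := by rw [Subgroup.mem_comap, hg3]; exact huK
  have hin : g ^ 3 ∈ Q := hcent (Subgroup.mem_centralizer_iff.2 fun o ho => (key _ hmemK hcop o ho).eq.symm)
  exact hu1 (hg3.symm.trans ((QuotientGroup.eq_one_iff _).2 hin))

/-- The classification of the top. -/
theorem topCases (hrec : NoSixBelow.{u} (Nat.card G + 1)) : TopCases G := by
  classical
  haveI : Fact (Nat.Prime 2) := ⟨Nat.prime_two⟩
  haveI : Fact (Nat.Prime 5) := ⟨Nat.prime_five⟩
  by_cases hX : ∀ f : G ⧸ O₂, f ^ 5 = 1 → f = 1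
  · exact Or.inl ⟨_, solTop h hc hX⟩
  push Not at hX
  obtain ⟨f, hf, hf1⟩ := hX
  have hQx := h.quotient O₂
  have hO1 : pCore 2 G ≠ ⊥ := by
    intro e
    have htop : (⊤ : Subgroup G) = ⊥ := by
      refine le_bot_iff.1 (le_trans ?_ (hc.trans e.le))
      rw [e]
      intro x _
      exact Subgroup.mem_centralizer_iff.2 fun o ho => by
        rw [SetLike.mem_coe, Subgroup.mem_bot] at ho; rw [ho, one_mul, mul_one]
    obtain ⟨g, rfl⟩ := QuotientGroup.mk'_surjective O₂ f
    have : g = 1 := Subgroup.mem_bot.1 (htop ▸ Subgroup.mem_top g)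
    exact hf1 (by rw [this, map_one])
  by_cases hsol : ∃ N : Subgroup (G ⧸ O₂), N.Normal ∧ Group.IsSolvable N ∧ N ≠ ⊥
  · obtain ⟨N, hNn, hNs, hN1⟩ := hsol
    haveI := hNn
    obtain ⟨p, V, hp, hVn, -, hV1, hVp⟩ := CfsgLib.CN.exists_normal_pGroup_le N hNs hN1
    haveI := Fact.mk hp
    haveI : Nontrivial V := (Subgroup.nontrivial_iff_ne_bot V).2 hV1
    obtain ⟨m, hm⟩ := IsPGroup.iff_card.1 hVp
    have hm0 : m ≠ 0 := fun e => by
      rw [e, pow_zero] at hm
      exact (Finite.one_lt_card (α := V)).ne' hm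
    have hp5 : p = 5 := by
      rcases hQx.prime_cases_card hp ((dvd_pow_self p hm0).trans (hm ▸ Subgroup.card_subgroup_dvd_card V))
        with rfl | rfl | rfl
      · exact absurd (le_bot_iff.1 ((CfsgLib.Constrained.le_pCore hVn hVp).trans
          (CfsgLib.Constrained.pCore_quotient_pCore (p := 2) (G := G)).le)) hV1
      · exact absurd (le_bot_iff.1 ((CfsgLib.Constrained.le_pCore hVn hVp).trans
          (pCore_three_bot h hc ⟨f, hf, hf1⟩).le)) hV1
      · rfl
    subst hp5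
    haveI := hVp.center_nontrivial
    obtain ⟨a, ha⟩ := exists_ne (1 : Subgroup.center V)
    set z : G ⧸ O₂ := ((a : V) : G ⧸ O₂) with hz
    have hz1 : z ≠ 1 := fun e => ha (Subtype.ext (Subtype.ext e))
    have hz5 : z ^ 5 = 1 := hQx.pow_five_group hVp (a : V).2
    have hVz : V = Subgroup.zpowers z := by
      refine le_antisymm (fun b hb => ?_) (Subgroup.zpowers_le.2 (a : V).2)
      exact h.five_mem_zpowers CfsgLib.Constrained.isPGroup_pCore hO1
        (congrArg Subtype.val (Subgroup.mem_center_iff.1 a.2 ⟨b, hb⟩))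
        (hQx.pow_five_group hVp hb) hz5 hz1
    have hcases : ∀ u : G ⧸ O₂, u ∈ Subgroup.zpowers z ∨ (u * u = 1 ∧ u * z * u⁻¹ = z⁻¹) := fun u =>
      normalizer_five h hc hO1 hz5 hz1 (hVz ▸ hVn.conj_mem z (a : V).2 u)
    by_cases hall : ∀ u : G ⧸ O₂, u ∈ Subgroup.zpowers z
    · refine Or.inr (Or.inl ?_)
      rw [← Subgroup.card_top, ← (eq_top_iff.2 fun u _ => hall u : Subgroup.zpowers z = ⊤),
        Nat.card_zpowers, orderOf_eq_prime hz5 hz1]
    push Not at hall
    obtain ⟨s, hs⟩ := hall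
    obtain ⟨hs2, hsinv⟩ := (hcases s).resolve_left hs
    refine Or.inr (Or.inr (Or.inl ⟨?_, elem_of_top_inversion h hc hz5 hz1 hs2 hsinv⟩))
    have hidx : (Subgroup.zpowers z).index = 2 := by
      rw [Subgroup.index_eq_two_iff]
      refine ⟨s, fun u => ?_⟩
      by_cases hu : u ∈ Subgroup.zpowers z
      · refine Or.inr ⟨hu, fun hus => hs ?_⟩
        simpa using Subgroup.mul_mem _ (Subgroup.inv_mem _ hu) hus
      · refine Or.inl ⟨?_, hu⟩
        obtain ⟨-, huinv⟩ := (hcases u).resolve_left hu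
        rcases hcases (u * s) with e | ⟨-, e⟩
        · exact e
        · exfalso
          have e2 : u * s * z * (u * s)⁻¹ = z := by
            calc u * s * z * (u * s)⁻¹ = u * (s * z * s⁻¹) * u⁻¹ := by group
              _ = z := by rw [hsinv, ← conj_inv, huinv, inv_inv]
          rw [e] at e2
          exact hz1 (eq_one_of_pow_coprime (show Nat.Coprime 2 5 by norm_num)
            (by rw [pow_two]; nth_rewrite 1 [← e2]; exact inv_mul_cancel z) hz5)
    rw [← Subgroup.card_mul_index (Subgroup.zpowers z), hidx, Nat.card_zpowers, orderOf_eq_prime hz5 hz1]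
  push Not at hsol
  haveI : Nontrivial (G ⧸ O₂) := ⟨⟨f, 1, hf1⟩⟩
  obtain ⟨M, -, hMn, hM1, hMmin⟩ := CfsgLib.Solvable.exists_minimal_normal_le (⊤ : Subgroup (G ⧸ O₂))
    top_ne_bot
  haveI := hMn
  have hMns : ¬ Group.IsSolvable M := fun hs => hM1 (hsol M hMn hs)
  haveI : Nontrivial M := (Subgroup.nontrivial_iff_ne_bot M).2 hM1
  have five_of_nonsolvable : ∀ L : Subgroup (G ⧸ O₂), ¬ Group.IsSolvable L →
      ∃ y ∈ L, y ^ 5 = 1 ∧ y ≠ 1 := by
    intro L hL
    by_contra hno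
    push Not at hno
    refine hL (CfsgLib.Chars.Apps.isSolvable_of_primeFactors_subset L Nat.prime_two Nat.prime_three
      fun r hr hd => ?_)
    rcases (hQx.subgroup L).prime_cases_card hr hd with e | e | e
    · exact Or.inl e
    · exact Or.inr e
    · exfalso
      subst e
      obtain ⟨g, hg⟩ := exists_prime_orderOf_dvd_card' 5 hd
      have h5 : g ^ 5 = 1 := by rw [← hg, pow_orderOf_eq_one]
      rw [show g = 1 from Subtype.ext (hno g g.2 (congrArg Subtype.val h5)), orderOf_one] at hg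
      norm_num at hg
  have hMsimple : IsSimpleGroup M := isSimpleGroup_minimal h hc hO1 hsol M hM1 hMmin five_of_nonsolvable
  have hMna : ¬ IsMulCommutative M := fun hcomm => hMns (by
    haveI := hcomm; exact Group.isSolvable_of_comm (fun a b => hcomm.is_comm.comm a b))
  have hM6 := hrec M (Nat.lt_succ_of_le ((Subgroup.card_le_card_group M).trans
    (Nat.card_le_card_of_surjective _ (QuotientGroup.mk'_surjective O₂)))) hMsimple hMna (hQx.subgroup M)
  rcases concl_of_noSix hMna (hQx.subgroup M) hM6 with ⟨⟨e⟩⟩ | ⟨⟨e⟩⟩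
  · right; right; right
    obtain ⟨y5, hy1, t5, ht5⟩ := SpecFive.a5_five_inverted
    set F : G ⧸ O₂ := ((e.symm SpecFive.a5y : M) : G ⧸ O₂) with hF
    have hF5 : F ^ 5 = 1 := congrArg Subtype.val (show (e.symm SpecFive.a5y) ^ 5 = 1 by
      rw [← map_pow, y5, map_one])
    have hF1 : F ≠ 1 := fun e' => hy1 (e.symm.injective (by rw [map_one]; exact Subtype.ext e'))
    set s0 : G ⧸ O₂ := ((e.symm t5 : M) : G ⧸ O₂) with hs0
    have hs0inv : s0 * F * s0⁻¹ = F⁻¹ := congrArg Subtype.val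
      (show e.symm t5 * e.symm SpecFive.a5y * (e.symm t5)⁻¹ = (e.symm SpecFive.a5y)⁻¹ by
        rw [← map_inv, ← map_mul, ← map_mul, ht5, map_inv])
    have hs0sq : s0 * s0 = 1 := by
      rcases normalizer_five h hc hO1 hF5 hF1
        (hs0inv ▸ Subgroup.inv_mem _ (Subgroup.mem_zpowers F)) with hmem | ⟨h2, -⟩
      · exfalso
        obtain ⟨i, hi⟩ := Subgroup.mem_zpowers_iff.1 hmem
        rw [← hi, ((Commute.refl F).zpow_left i).eq, mul_inv_cancel_right] at hs0inv
        exact hF1 (eq_one_of_pow_coprime (show Nat.Coprime 2 5 by norm_num)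
          (by rw [pow_two]; nth_rewrite 2 [hs0inv]; exact mul_inv_cancel F) hF5)
      · exact h2
    have hMtop : M = ⊤ := by
      refine eq_top_iff.2 fun g _ => ?_
      have hgF : g * F * g⁻¹ ∈ M := hMn.conj_mem F (e.symm SpecFive.a5y).2 g
      have hcl : ∀ y : A5, y ^ 5 = 1 → y ≠ 1 →
          ∃ k : A5, k * SpecFive.a5y * k⁻¹ = y ∨ k * (SpecFive.a5y * SpecFive.a5y) * k⁻¹ = y := by
        decide +kernel
      obtain ⟨k, hk⟩ := hcl (e ⟨_, hgF⟩)
        (by rw [← map_pow, show (⟨_, hgF⟩ : M) ^ 5 = 1 from Subtype.ext (by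
          show (g * F * g⁻¹) ^ 5 = 1
          rw [conj_pow, hF5, mul_one, mul_inv_cancel]), map_one])
        (fun e' => hF1 (conj_eq_one_iff.1 (congrArg Subtype.val
          (e.injective (e'.trans e.map_one.symm)))))
      set m : G ⧸ O₂ := ((e.symm k : M) : G ⧸ O₂) with hm
      have hu : (m⁻¹ * g) * F * (m⁻¹ * g)⁻¹ ∈ Subgroup.zpowers F := by
        have hcase : g * F * g⁻¹ = m * F * m⁻¹ ∨ g * F * g⁻¹ = m * (F * F) * m⁻¹ := by
          rcases hk with hk | hk
          · exact Or.inl (congrArg Subtype.val (show (⟨_, hgF⟩ : M) = e.symm k * e.symm SpecFive.a5y *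
              (e.symm k)⁻¹ by rw [← map_inv, ← map_mul, ← map_mul, hk, e.symm_apply_apply]))
          · exact Or.inr (congrArg Subtype.val (show (⟨_, hgF⟩ : M) = e.symm k * (e.symm SpecFive.a5y *
              e.symm SpecFive.a5y) * (e.symm k)⁻¹ by
                rw [← map_inv, ← map_mul, ← map_mul, ← map_mul, hk, e.symm_apply_apply]))
        rw [show m⁻¹ * g * F * (m⁻¹ * g)⁻¹ = m⁻¹ * (g * F * g⁻¹) * m by group]
        rcases hcase with e' | e' <;> rw [e']
        · rw [show m⁻¹ * (m * F * m⁻¹) * m = F by group]; exact Subgroup.mem_zpowers F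
        · rw [show m⁻¹ * (m * (F * F) * m⁻¹) * m = F * F by group]
          exact Subgroup.mul_mem _ (Subgroup.mem_zpowers F) (Subgroup.mem_zpowers F)
      have hmM : m ∈ M := (e.symm k).2
      suffices m⁻¹ * g ∈ M by simpa using M.mul_mem hmM this
      have hzM : Subgroup.zpowers F ≤ M := Subgroup.zpowers_le.2 (e.symm SpecFive.a5y).2
      rcases normalizer_five h hc hO1 hF5 hF1 hu with hmem | ⟨-, hinv'⟩
      · exact hzM hmem
      · have hcomm : s0 * (m⁻¹ * g) * F * (s0 * (m⁻¹ * g))⁻¹ = F := by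
          calc s0 * (m⁻¹ * g) * F * (s0 * (m⁻¹ * g))⁻¹
              = s0 * ((m⁻¹ * g) * F * (m⁻¹ * g)⁻¹) * s0⁻¹ := by group
            _ = F := by rw [hinv', ← conj_inv, hs0inv, inv_inv]
        have h5 := hQx.commute_five hF5 hF1 (mul_inv_eq_iff_eq_mul.1 hcomm).symm
        have := h.five_mem_zpowers CfsgLib.Constrained.isPGroup_pCore hO1
          (mul_inv_eq_iff_eq_mul.1 hcomm) h5 hF5 hF1
        have hs0M : s0 ∈ M := (e.symm t5).2
        have := M.mul_mem (M.inv_mem hs0M) (hzM this)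
        rwa [inv_mul_cancel_left] at this
    exact ⟨⟨((MulEquiv.subgroupCongr hMtop).trans Subgroup.topEquiv).symm.trans e⟩,
      elem_of_top_inversion h hc hF5 hF1 hs0sq hs0inv⟩
  · exfalso
    obtain ⟨a, b, v, ha, hb, hab, ha1, hv, hva, hvb⟩ : ∃ a b v : A6, a ^ 3 = 1 ∧ b ^ 3 = 1 ∧
        a * b = b * a ∧ a ≠ 1 ∧ v ^ 4 = 1 ∧ v * a * v⁻¹ = b ∧ v * b * v⁻¹ = a⁻¹ :=
      ⟨⟨Equiv.swap 0 1 * Equiv.swap 1 2, Equiv.Perm.mem_alternatingGroup.2 (by decide)⟩,
        ⟨Equiv.swap 3 4 * Equiv.swap 4 5, Equiv.Perm.mem_alternatingGroup.2 (by decide)⟩,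
        ⟨Equiv.swap 0 3 * (Equiv.swap 1 4 * Equiv.swap 4 2 * Equiv.swap 2 5),
          Equiv.Perm.mem_alternatingGroup.2 (by decide)⟩, by decide +kernel⟩
    let ψ : A6 →* G ⧸ O₂ := M.subtype.comp e.symm.toMonoidHom
    have hψ : Function.Injective ψ := M.subtype_injective.comp e.symm.injective
    have habψ : Commute (ψ a) (ψ b) := (show Commute a b from hab).map ψ
    have hQ3 : ∀ q ∈ pairSub habψ, q ^ 3 = 1 := by
      rintro _ ⟨i, j, rfl⟩
      rw [(habψ.zpow_zpow i j).mul_pow, ← zpow_natCast, ← zpow_natCast, ← zpow_mul, ← zpow_mul,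
        mul_comm i, mul_comm j, zpow_mul, zpow_mul, zpow_natCast, zpow_natCast, ← map_pow, ← map_pow,
        ha, hb, map_one, one_zpow, one_zpow, one_mul]
    have hv4 : (ψ v) ^ 4 = 1 := by rw [← map_pow, hv, map_one]
    have hw := commute_sq_of_three h hc hQ3 hv4
      (conj_mem_pairSub habψ
        (by rw [← map_inv, ← map_mul, ← map_mul, hva]; exact ⟨0, 1, by simp⟩)
        (by rw [← map_inv, ← map_mul, ← map_mul, hvb, map_inv]
            exact Subgroup.inv_mem _ (mem_pairSub_left habψ)))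
      (ψ a) (mem_pairSub_left habψ)
    rw [← map_mul] at hw
    have e1 : v * v * a * (v * v)⁻¹ = a := hψ (by
      rw [map_mul, map_mul, map_inv, hw.eq, mul_inv_cancel_right])
    have e2 : v * v * a * (v * v)⁻¹ = a⁻¹ := by
      rw [show v * v * a * (v * v)⁻¹ = v * (v * a * v⁻¹) * v⁻¹ by group, hva, hvb]
    exact ha1 (eq_one_of_pow_coprime (show Nat.Coprime 2 3 by norm_num)
      (by rw [pow_two]; nth_rewrite 2 [e1.symm.trans e2]; exact mul_inv_cancel a) ha)

/-- A non-solvable group with self-centralising `O₂` is elementary by `A₅`. -/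
theorem residue_nonsolvable (hrec : NoSixBelow.{u} (Nat.card G + 1)) (hns : ¬ Group.IsSolvable G) :
    Elem (pCore 2 G) ∧ Nonempty (G ⧸ pCore 2 G ≃* A5) := by
  haveI : Fact (Nat.Prime 2) := ⟨Nat.prime_two⟩
  have ext : ¬ Group.IsSolvable (G ⧸ O₂) := fun hs => hns (by
    haveI := hs
    haveI := (CfsgLib.Constrained.isPGroup_pCore (p := 2) (G := G)).isNilpotent
    exact Group.isSolvable_of_ker_le_range (pCore 2 G).subtype (QuotientGroup.mk' (pCore 2 G))
      (by rw [QuotientGroup.ker_mk', Subgroup.range_subtype]))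
  have small : ∀ n : ℕ, n = 5 ∨ n = 10 → Nat.card (G ⧸ O₂) = n → False := fun n hn e => ext
    (CfsgLib.Chars.Apps.isSolvable_of_primeFactors_subset _ Nat.prime_two Nat.prime_five fun r hr hd => by
      rw [e] at hd
      have hd' : r ∣ 2 * 5 := by
        rcases hn with rfl | rfl
        · exact Dvd.dvd.mul_left hd 2
        · exact hd
      rcases (Nat.Prime.dvd_mul hr).1 hd' with e2 | e5
      · exact Or.inl ((Nat.prime_dvd_prime_iff_eq hr Nat.prime_two).1 e2)
      · exact Or.inr ((Nat.prime_dvd_prime_iff_eq hr Nat.prime_five).1 e5))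
  rcases topCases h hc hrec with ⟨Q, hS⟩ | e | ⟨e, -⟩ | ⟨e, he⟩
  · refine absurd (isSolvable_of_no_five h hc fun f hf => ?_) ext
    exact eq_one_of_pow_coprime (show Nat.Coprime 6 5 by norm_num) (hS.six f) hf
  · exact (small 5 (Or.inl rfl) e).elim
  · exact (small 10 (Or.inr rfl) e).elim
  · exact ⟨he, e⟩

end Top

end CfsgLib.SpecSix
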