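import Cfsg.Agent.SpecSix.FiveKernel
import Cfsg.Agent.SpecSix.Norm
import Cfsg.Agent.FPFNilpotent.Main

/-!
# A group with element orders at most six, `O₅ = 1` and elements of orders 3, 4, 5 is not solvable
-/

set_option autoImplicit false
set_option linter.unusedSectionVars false
set_option linter.style.haveILetI false

namespace CfsgLib.SpecSix

open Cfsg
open CfsgLib.SpecFive (eq_one_of_pow_coprime)

universe u

variable {G : Type u} [Group G] [Finite G]

/-- Elements of `q`-power order of a nilpotent normal subgroup lie in `O_q`. -/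
theorem mem_core_of_nilpotent {M : Subgroup G} [hM : M.Normal] (hMn : Group.IsNilpotent M) {q : ℕ}
    [Fact q.Prime] {x : G} (hx : x ∈ M) {k : ℕ} (hk : x ^ q ^ k = 1) : x ∈ pCore q G := by
  obtain ⟨j, -, hj⟩ := (Nat.dvd_prime_pow (Fact.out : q.Prime)).1 (orderOf_dvd_of_pow_eq_one hk)
  obtain ⟨S, hS⟩ := (IsPGroup.of_card (p := q) (n := j) (G := Subgroup.zpowers (⟨x, hx⟩ : M))
    (by rw [Nat.card_zpowers, Subgroup.orderOf_mk, hj])).exists_le_sylow
  have e03 := (Group.isNilpotent_of_finite_tfae (G := M)).out 0 3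
  haveI : (S : Subgroup M).Normal := e03.mp hMn q inferInstance S
  haveI := Sylow.characteristic_of_normal S inferInstance
  exact CfsgLib.Constrained.le_pCore ConjAct.normal_of_characteristic_of_normal
    (S.isPGroup'.map M.subtype) ⟨⟨x, hx⟩, hS (Subgroup.mem_zpowers _), rfl⟩

/-- A normal subgroup of order prime to five under an element of order five is nilpotent. -/
theorem Ord6.nilpotent_of_not_five (h : Ord6 G) {x : G} (hx : orderOf x = 5) {M : Subgroup G} [M.Normal]
    (hM : ¬ 5 ∣ Nat.card M) : Group.IsNilpotent M := by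
  haveI : Nontrivial (Subgroup.zpowers x) := by
    rw [← Finite.one_lt_card_iff_nontrivial, Nat.card_zpowers, hx]; norm_num
  refine FPFNilpotent.isNilpotent_of_fpf M ((MulAut.conjNormal (H := M)).comp (Subgroup.zpowers x).subtype)
    fun r hr m hm => Subtype.ext ?_
  have hr5 : (r : G) ^ 5 = 1 := by
    obtain ⟨i, hi⟩ := Subgroup.mem_zpowers_iff.1 r.2
    rw [← hi, ← zpow_natCast, ← zpow_mul, mul_comm, zpow_mul, zpow_natCast, ← hx, pow_orderOf_eq_one,
      one_zpow]
  refine eq_one_of_pow_coprime (m := 5) (n := Nat.card M) (Nat.prime_five.coprime_iff_not_dvd.2 hM)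
    (h.commute_five hr5 (fun e => hr (Subtype.ext e)) (mul_inv_eq_iff_eq_mul.1 (congrArg Subtype.val hm))) ?_
  exact congrArg Subtype.val (pow_card_eq_one' (x := m))

/-- See the module docstring. -/
theorem Ord6.not_solvable_of_five_core (h : Ord6 G) (hO : pCore 5 G = ⊥) (h3 : 3 ∣ Nat.card G)
    (h5 : 5 ∣ Nat.card G) {y : G} (hy : orderOf y = 4) : ¬ Group.IsSolvable G := by
  intro hs
  haveI : Fact (Nat.Prime 5) := ⟨Nat.prime_five⟩
  haveI : Fact (Nat.Prime 3) := ⟨Nat.prime_three⟩
  haveI : Fact (Nat.Prime 2) := ⟨Nat.prime_two⟩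
  obtain ⟨x, hx⟩ := exists_prime_orderOf_dvd_card' 5 h5
  have hx5 : x ^ 5 = 1 := orderOf_dvd_iff_pow_eq_one.1 hx.dvd
  have hx1 : x ≠ 1 := fun e => by rw [e, orderOf_one] at hx; norm_num at hx
  have hy4 : y ^ 4 = 1 := orderOf_dvd_iff_pow_eq_one.1 hy.dvd
  have hy2 : y * y ≠ 1 := fun e => by
    have := orderOf_dvd_of_pow_eq_one (show y ^ 2 = 1 by rw [pow_two, e])
    rw [hy] at this; norm_num at this
  -- a minimal normal subgroup
  haveI : Nontrivial G := ⟨⟨x, 1, hx1⟩⟩
  haveI := hs
  obtain ⟨s, E, hsp, hEn, hE1, hEc, hEs⟩ := CfsgLib.PrimeGraph.exists_normal_elementary (G := G)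
  haveI := hEn
  have hs5 : s ≠ 5 := fun e => hE1 (eq_bot_iff.2 (hO ▸ CfsgLib.Constrained.le_pCore hEn
    fun a => ⟨1, Subtype.ext (by rw [Subgroup.coe_pow, pow_one, ← e]; exact hEs a a.2)⟩))
  have hco : s.Coprime 5 := (Nat.coprime_primes hsp Nat.prime_five).2 hs5
  have h25 : ¬ 5 ^ 2 ∣ Nat.card G := not_sq_dvd Nat.prime_five (fun H hH a ha => h.pow_five_group hH ha)
    fun a b ha ha1 hb hc => mem_zpowers_of_fpf E hE1 hEc Nat.prime_five hco hEs
      (fun g hg hg1 v hv hgv => eq_one_of_pow_coprime hco (hEs v hv) (h.commute_five hg hg1 hgv))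
      ha ha1 hb hc
  -- the largest normal subgroup of order prime to five
  set M := pPrimeCore 5 G with hMdef
  have hM5 : ¬ 5 ∣ Nat.card M := CfsgLib.Constrained.pPrimeCore_not_dvd
  have hMn := h.nilpotent_of_not_five hx hM5
  set φ := QuotientGroup.mk' M with hφ
  have hq := h.quotient M
  have hxb1 : φ x ≠ 1 := fun e => hx1 (eq_one_of_pow_coprime (m := 5) (n := Nat.card M)
    (Nat.prime_five.coprime_iff_not_dvd.2 hM5) hx5
    (congrArg Subtype.val (pow_card_eq_one' (x := (⟨x, (QuotientGroup.eq_one_iff x).1 e⟩ : M)))))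
  haveI : Nontrivial (G ⧸ M) := ⟨⟨φ x, 1, hxb1⟩⟩
  haveI : Group.IsSolvable (G ⧸ M) := inferInstance
  set N := pCore 5 (G ⧸ M) with hNdef
  have hN1 : N ≠ ⊥ := by
    obtain ⟨r, F, hr, hFn, hF1, -, hFr⟩ := CfsgLib.PrimeGraph.exists_normal_elementary (G := G ⧸ M)
    have hFp : IsPGroup r F := fun a => ⟨1, Subtype.ext (by simpa using hFr a a.2)⟩
    intro hN
    refine hF1 (eq_bot_iff.2 ?_)
    by_cases hr5 : r = 5
    · subst hr5; exact hN ▸ CfsgLib.Constrained.le_pCore hFn hFp
    · rw [← CfsgLib.Constrained.pPrimeCore_quotient_pPrimeCore (p := 5) (G := G)]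
      haveI := Fact.mk hr
      obtain ⟨k, hk⟩ := hFp.exists_card_eq
      exact CfsgLib.Constrained.le_pPrimeCore hFn (hk ▸ ((Nat.coprime_primes hr Nat.prime_five).2 hr5).pow_left k)
  have hN5 : IsPGroup 5 N := CfsgLib.Constrained.isPGroup_pCore
  have hN25 : Nat.card N = 5 := by
    obtain ⟨k, hk⟩ := hN5.exists_card_eq
    rcases k with _ | _ | k
    · exact absurd ((Subgroup.card_eq_one).1 (by simpa using hk)) hN1
    · simpa using hk
    · exact absurd ((pow_dvd_pow 5 (by omega : 2 ≤ k + 2)).trans (hk ▸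
        (Subgroup.card_subgroup_dvd_card N).trans (Subgroup.card_quotient_dvd_card M))) h25
  have hNe : N = Subgroup.zpowers (φ x) := by
    have hoNx : orderOf (φ x) = 5 := orderOf_eq_prime (by rw [← map_pow, hx5, map_one]) hxb1
    by_cases hm : φ x ∈ N
    · exact (Subgroup.eq_of_le_of_card_ge (Subgroup.zpowers_le.2 hm)
        (by rw [hN25, Nat.card_zpowers, hoNx])).symm
    exfalso
    have h5q : 5 ∣ Nat.card ((G ⧸ M) ⧸ N) := by
      have h1 : orderOf (QuotientGroup.mk' N (φ x)) = 5 :=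
        orderOf_eq_prime (by rw [← map_pow, ← map_pow, hx5, map_one, map_one])
          (fun e => hm ((QuotientGroup.eq_one_iff _).1 e))
      exact h1.symm.dvd.trans (orderOf_dvd_natCard _)
    refine h25 (dvd_trans ?_ (Subgroup.card_quotient_dvd_card M : Nat.card (G ⧸ M) ∣ Nat.card G))
    rw [Subgroup.card_eq_card_quotient_mul_card_subgroup N, hN25, pow_two]
    exact Nat.mul_dvd_mul_right h5q 5
  -- the Sylow 3-subgroup is normal
  set T := pCore 3 G with hTdef
  have hT3 : IsPGroup 3 T := CfsgLib.Constrained.isPGroup_pCore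
  haveI hTnt : Nontrivial T := by
    obtain ⟨b, hb⟩ := exists_prime_orderOf_dvd_card' 3 h3
    have hb3 : b ^ 3 = 1 := orderOf_dvd_iff_pow_eq_one.1 hb.dvd
    have hb1 : b ≠ 1 := fun e => by rw [e, orderOf_one] at hb; norm_num at hb
    have hbM : b ∈ M := by
      by_contra hbM
      have hbb : φ b ≠ 1 := fun e => hbM ((QuotientGroup.eq_one_iff b).1 e)
      obtain ⟨a, ⟨ha, ha1⟩, hc⟩ := SpecFive.exists_fixed Nat.prime_three (x := φ b)
        (by rw [← map_pow, hb3, map_one]) ((N : Set (G ⧸ M)) \ {1})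
        (fun a ha => ⟨(inferInstance : N.Normal).conj_mem a ha.1 _, fun e => ha.2 (conj_eq_one_iff.1 e)⟩) (by
          rw [Nat.card_coe_set_eq, Set.ncard_diff_singleton_of_mem N.one_mem, ← Nat.card_coe_set_eq]
          show ¬ 3 ∣ Nat.card N - 1
          rw [hN25]; norm_num)
      exact hbb (eq_one_of_pow_coprime (show Nat.Coprime 3 5 by norm_num) (by rw [← map_pow, hb3, map_one])
        (hq.commute_five (hq.pow_five_group hN5 ha) ha1 hc.symm))
    exact T.nontrivial_iff_ne_bot.2 fun e => hb1 (Subgroup.mem_bot.1 (e ▸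
      mem_core_of_nilpotent hMn hbM (k := 1) (by rwa [pow_one])))
  have hTM : T ≤ M := CfsgLib.Constrained.le_pPrimeCore inferInstance (by
    obtain ⟨k, hk⟩ := hT3.exists_card_eq
    rw [hk]; exact Nat.Coprime.pow_left k (by norm_num))
  haveI := hT3.center_nontrivial
  set V : Subgroup G := (Subgroup.center T).map T.subtype with hVdef
  haveI : V.Normal := by rw [hVdef]; exact ConjAct.normal_of_characteristic_of_normal
  obtain ⟨v₀, hv₀, hv₀1⟩ : ∃ v ∈ V, v ≠ 1 := by
    obtain ⟨c, hc⟩ := exists_ne (1 : Subgroup.center T)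
    exact ⟨((c : T) : G), ⟨c, c.2, rfl⟩, fun e => hc (Subtype.ext (Subtype.ext e))⟩
  have hV3 : ∀ v ∈ V, v ^ 3 = 1 := fun v hv => h.pow_three_group hT3 (Subgroup.map_subtype_le _ hv)
  have hVc : ∀ v ∈ V, ∀ w ∈ V, Commute v w := by
    rintro _ ⟨c, hc, rfl⟩ _ ⟨d, -, rfl⟩
    exact (congrArg Subtype.val (Subgroup.mem_center_iff.1 hc d)).symm
  by_cases hyy : y * y ∈ M
  · -- `y` inverts `V`
    have hyO2 : ∀ w ∈ M, w ^ 4 = 1 → ∀ v ∈ V, Commute w v := fun w hw hw4 v hv =>
      Subgroup.commute_of_normal_of_disjoint (pCore 2 G) T inferInstance inferInstance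
        (disjoint_iff.2 (CfsgLib.Constrained.disjoint_of_isPGroup_of_not_dvd (p := 2) (A := T) CfsgLib.Constrained.isPGroup_pCore (by
          obtain ⟨k, hk⟩ := hT3.exists_card_eq
          rw [hk]; intro hd; exact absurd (Nat.prime_two.dvd_of_dvd_pow hd) (by norm_num))))
        w v (mem_core_of_nilpotent hMn hw (k := 2) (by simpa using hw4)) (Subgroup.map_subtype_le _ hv)
    have hyM : y ∉ M := fun hyM => hv₀1 (eq_one_of_pow_coprime (show Nat.Coprime 4 3 by norm_num)
      (h.commute_four hy4 hy2 (hyO2 y hyM hy4 v₀ hv₀)) (hV3 v₀ hv₀))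
    have hyb : φ y * φ y = 1 := by rw [← map_mul]; exact (QuotientGroup.eq_one_iff _).2 hyy
    have hinvN := (hq.involution_inverts hN5 hyb (fun e => hyM ((QuotientGroup.eq_one_iff y).1 e))).1
      (φ x) (hNe ▸ Subgroup.mem_zpowers _)
    have hyV : ∀ v ∈ V, y * v * y⁻¹ = v⁻¹ := by
      intro v hv
      have hfpf : MonoidHom.FixedPointFree (MulAut.conjNormal y : MulAut V) := fun w hw =>
        Subtype.ext (eq_one_of_pow_coprime (show Nat.Coprime 4 3 by norm_num)
          (h.commute_four hy4 hy2 (mul_inv_eq_iff_eq_mul.1 (congrArg Subtype.val hw))) (hV3 w w.2))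
      have hinv : Function.Involutive (MulAut.conjNormal y : MulAut V) := fun w => Subtype.ext (by
        rw [← MulAut.mul_apply, ← map_mul, MulAut.conjNormal_apply,
          (hyO2 _ hyy (by rw [← pow_two, ← pow_mul, show 2 * 4 = 4 * 2 from rfl, pow_mul, hy4, one_pow]) w w.2).eq,
          mul_inv_cancel_right])
      exact congrArg Subtype.val (congrFun (MonoidHom.FixedPointFree.coe_eq_inv_of_involutive hfpf hinv) ⟨v, hv⟩)
    set c := y * x * y⁻¹ * x⁻¹ with hc
    have hcb : φ c = (φ x)⁻¹ * (φ x)⁻¹ := by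
      rw [hc, map_mul, map_mul, map_mul, map_inv, map_inv, hinvN]
    have hcV : Commute c v₀ := by
      set w := x⁻¹ * v₀ * x with hw
      have hwV : w ∈ V := (inferInstance : V.Normal).conj_mem' _ hv₀ x
      refine mul_inv_eq_iff_eq_mul.1 ?_
      calc c * v₀ * c⁻¹ = y * (x * (y⁻¹ * w * y) * x⁻¹) * y⁻¹ := by rw [hc, hw]; group
        _ = y * (x * w⁻¹ * x⁻¹) * y⁻¹ := by
          congr 3
          have := hyV w⁻¹ (inv_mem hwV)
          rw [inv_inv] at this
          conv_lhs => rw [← this]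
          group
        _ = y * v₀⁻¹ * y⁻¹ := by rw [hw]; group
        _ = v₀ := by rw [hyV _ (inv_mem hv₀), inv_inv]
    have hc5 : φ c ^ 5 = 1 := by
      rw [hcb, ← mul_inv_rev, inv_pow, (Commute.refl (φ x)).mul_pow, ← map_pow, hx5, map_one, mul_one, inv_one]
    have hc1 : φ c ≠ 1 := by
      rw [hcb, ← mul_inv_rev, ne_eq, inv_eq_one, ← pow_two]
      exact fun e => hxb1 (eq_one_of_pow_coprime (show Nat.Coprime 2 5 by norm_num) e
        (by rw [← map_pow, hx5, map_one]))
    exact hv₀1 (eq_one_of_pow_coprime (show Nat.Coprime 5 3 by norm_num)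
      (h.commute_five (h.pow_of_image_five φ hc5 hc1) (fun e => hc1 (by rw [e, map_one])) hcV) (hV3 v₀ hv₀))
  · -- `y` acts faithfully on the subgroup of order five
    set L := N.comap φ with hL
    set P := Subgroup.zpowers x with hP
    have hPL : P ≤ L := Subgroup.zpowers_le.2 (by
      show φ x ∈ N
      rw [hNe]; exact Subgroup.mem_zpowers _)
    have hPp : IsPGroup 5 P := IsPGroup.of_card (n := 1) (by rw [hP, Nat.card_zpowers, hx]; norm_num)
    obtain ⟨S, hPS⟩ := hPp.exists_le_sylow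
    have hPS' : P = (S : Subgroup G) := Subgroup.eq_of_le_of_card_ge hPS (by
      obtain ⟨k, hk⟩ := S.isPGroup'.exists_card_eq
      rw [hP, Nat.card_zpowers, hx, hk]
      rcases k with _ | _ | k
      · norm_num
      · norm_num
      · exact absurd ((pow_dvd_pow 5 (by omega : 2 ≤ k + 2)).trans (hk ▸
          Subgroup.card_subgroup_dvd_card (S : Subgroup G))) h25)
    have hfr := Sylow.normalizer_sup_eq_top' S (N := L) (hPS' ▸ hPL)
    replace hfr : Subgroup.normalizer (P : Set G) ⊔ L = ⊤ := by rw [hPS']; exact hfr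
    have hsup : Subgroup.normalizer (P : Set G) ⊔ M = ⊤ := by
      rw [eq_top_iff, ← hfr]
      refine sup_le le_sup_left fun g hg => ?_
      have hg' : φ g ∈ Subgroup.zpowers (φ x) := hNe ▸ hg
      obtain ⟨i, hi⟩ := hg'
      have hm : (x ^ i)⁻¹ * g ∈ M := (QuotientGroup.eq_one_iff _).1 (by
        show φ ((x ^ i)⁻¹ * g) = 1
        rw [map_mul, map_inv, map_zpow]
        exact inv_mul_eq_one.2 hi)
      have := Subgroup.mul_mem_sup (Subgroup.le_normalizer (H := P) (Subgroup.zpow_mem _ (Subgroup.mem_zpowers x) i)) hm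
      rwa [mul_inv_cancel_left] at this
    obtain ⟨n, hn, m, hm, hnm⟩ := Subgroup.mem_sup_of_normal_right.1
      (show y ∈ Subgroup.normalizer (P : Set G) ⊔ M by rw [hsup]; trivial)
    have hnb : φ n = φ y := by
      rw [← hnm, map_mul, show φ m = 1 from (QuotientGroup.eq_one_iff m).2 hm, mul_one]
    have hn2b : φ n * φ n ≠ 1 := by
      rw [hnb, ← map_mul]; exact fun e => hyy ((QuotientGroup.eq_one_iff _).1 e)
    have hn4b : φ n ^ 4 = 1 := by rw [hnb, ← map_pow, hy4, map_one]
    have hn4 : n ^ 4 = 1 := h.pow_of_image_four φ hn4b hn2b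
    have hres : ∀ o ∈ T, Commute x o := by
      refine centralizes_of_norm (p := 3) (Nat.card T) T le_rfl hT3 (P ⊔ T) le_sup_right ?_ n ?_ 4
        (by norm_num) ?_ ?_ x (Subgroup.mem_sup_left (Subgroup.mem_zpowers x))
        (by rw [hx]; norm_num)
      · rw [Subgroup.relIndex_sup_right]
        intro hd
        have := hd.trans ((Subgroup.relIndex_dvd_card T P).trans (dvd_of_eq (by rw [hP, Nat.card_zpowers, hx])))
        norm_num at this
      · intro k hk
        obtain ⟨p, hp, t, ht, rfl⟩ := Subgroup.mem_sup_of_normal_right.1 hk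
        rw [show n * (p * t) * n⁻¹ = n * p * n⁻¹ * (n * t * n⁻¹) by group]
        exact Subgroup.mul_mem_sup ((Subgroup.mem_normalizer_iff.1 hn p).1 hp)
          ((inferInstance : T.Normal).conj_mem t ht n)
      · intro j hj hj4 k hk hkT
        obtain ⟨p, hp, t, ht, rfl⟩ := Subgroup.mem_sup_of_normal_right.1 hk
        have hpb : φ (p * t) = φ p := by
          rw [map_mul, show φ t = 1 from (QuotientGroup.eq_one_iff t).2 (hTM ht), mul_one]
        have hc : Commute (φ n ^ j) (φ p) := by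
          refine mul_inv_eq_iff_eq_mul.1 (mul_inv_eq_one.1 ?_)
          rw [← hpb, ← map_pow, ← map_inv, ← map_inv, ← map_mul, ← map_mul, ← map_mul]
          exact (QuotientGroup.eq_one_iff _).2 (hTM hkT)
        obtain ⟨i, hi⟩ := hp
        have hp5 : p ^ 5 = 1 := by
          rw [← hi, ← zpow_natCast, ← zpow_mul, mul_comm, zpow_mul, zpow_natCast, hx5, one_zpow]
        by_cases hpb1 : φ p = 1
        · have : p = 1 := eq_one_of_pow_coprime (m := 5) (n := Nat.card M)
            (Nat.prime_five.coprime_iff_not_dvd.2 hM5) hp5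
            (congrArg Subtype.val (pow_card_eq_one' (x := (⟨p, (QuotientGroup.eq_one_iff p).1 hpb1⟩ : M))))
          rw [this, one_mul]; exact ht
        exfalso
        have hn5 := hq.commute_five (by rw [← map_pow, hp5, map_one]) hpb1 hc.symm
        have hnj : φ n ^ j = 1 := eq_one_of_pow_coprime (show Nat.Coprime 5 4 by norm_num) hn5
          (by rw [← pow_mul, mul_comm, pow_mul, hn4b, one_pow])
        apply hn2b
        interval_cases j
        · rw [pow_one] at hnj; rw [hnj, one_mul]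
        · rw [← pow_two]; exact hnj
        · rw [pow_succ _ 3, hnj, one_mul] at hn4b
          rw [hn4b, one_mul]
      · intro o ho
        have e : φ (o * n) = φ n := by
          rw [map_mul, show φ o = 1 from (QuotientGroup.eq_one_iff o).2 (hTM ho), one_mul]
        rw [hn4, h.pow_of_image_four φ (by rw [e]; exact hn4b) (by rw [e]; exact hn2b)]
    exact hv₀1 (eq_one_of_pow_coprime (show Nat.Coprime 5 3 by norm_num)
      (h.commute_five hx5 hx1 (hres v₀ (Subgroup.map_subtype_le _ hv₀))) (hV3 v₀ hv₀))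

end CfsgLib.SpecSix
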