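import Cfsg.Agent.SpecSix.BadPair
import Cfsg.Agent.SpecSix.Residue
import Cfsg.Agent.SpecSix.Par5Facts
import Cfsg.Agent.SpecSix.NinePair

/-!
# A parabolic with top `S₃` and one with top `D₁₀` or `A₅`

If `O₂` of the second is the only large elementary subgroup of the Sylow subgroup, the first one
normalizes it.
-/

set_option autoImplicit false
set_option linter.unusedSectionVars false
set_option linter.style.haveILetI false
set_option maxHeartbeats 800000

namespace CfsgLib.SpecSix

open Cfsg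
open CfsgLib.SpecFive (Elem A5 eq_one_of_pow_coprime)

universe u

theorem a5_four_cycle : ∀ a : A5, a * a = 1 → a ≠ 1 → ∀ b : A5, b * b = 1 → b ≠ 1 → b ≠ a →
    a * b = b * a → ∃ y : A5, y ^ 3 = 1 ∧ y * a * y⁻¹ = b ∧ y * b * y⁻¹ = a * b := by decide +kernel

theorem a5_no_six : ∀ a : A5, a ^ 3 = 1 → a ≠ 1 → ∀ b : A5, b * b = 1 → a * b = b * a → b = 1 := by
  decide +kernel

variable {G : Type u} [Group G] [Finite G]

theorem mem_normalizer_of_conj {H : Subgroup G} {g : G} (h : ∀ x ∈ H, g * x * g⁻¹ ∈ H) :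
    g ∈ Subgroup.normalizer (H : Set G) := by
  have e : H.map (MulAut.conj g).toMonoidHom = H := by
    refine Subgroup.eq_of_le_of_card_ge ?_ ?_
    · rintro _ ⟨x, hx, rfl⟩; exact h x hx
    · rw [Subgroup.card_map_of_injective (MulAut.conj g).injective]
  exact Subgroup.mem_normalizer_iff_map_conj_eq.2 e

/-- A normal self-centralising subgroup of the core centralised outside the core. -/
theorem false_of_centralized {T P : Subgroup G} (hP : Par3 T P) {A : Subgroup G}
    (hA : A ≤ pCoreOf 2 P) (hn : ∀ g ∈ P, ∀ a ∈ A, g * a * g⁻¹ ∈ A)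
    (hc : ∀ o ∈ pCoreOf 2 P, (∀ a ∈ A, Commute o a) → o ∈ A)
    {t : G} (ht : t ∈ T) (htO : t ∉ pCoreOf 2 P) (htA : ∀ a ∈ A, Commute t a) : False := by
  haveI : Fact (Nat.Prime 2) := ⟨Nat.prime_two⟩
  haveI : Fact (Nat.Prime 3) := ⟨Nat.prime_three⟩
  set O := pCoreOf 2 P with hO
  set N := Subgroup.centralizer (A : Set G) ⊓ P with hN
  have hNn : ∀ g ∈ P, ∀ x ∈ N, g * x * g⁻¹ ∈ N := by
    intro g hg x hx
    refine ⟨Subgroup.mem_centralizer_iff.2 fun a ha => ?_, P.mul_mem (P.mul_mem hg hx.2) (P.inv_mem hg)⟩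
    have ha' : g⁻¹ * a * g ∈ A := by simpa using hn g⁻¹ (P.inv_mem hg) a ha
    have e : g⁻¹ * a * g * x = x * (g⁻¹ * a * g) := Subgroup.mem_centralizer_iff.1 hx.1 _ ha'
    calc a * (g * x * g⁻¹) = g * (g⁻¹ * a * g * x) * g⁻¹ := by group
      _ = g * x * g⁻¹ * a := by rw [e]; group
  have h3 : 3 ∣ Nat.card N := by
    by_contra h3
    obtain ⟨k, hk⟩ := IsPGroup.iff_card.1 hP.two
    have hd := Subgroup.card_dvd_of_le (inf_le_right : N ≤ P)
    rw [hP.card_eq, hk] at hd
    have hc3 : Nat.Coprime (Nat.card N) 3 :=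
      ((Nat.Prime.coprime_iff_not_dvd Nat.prime_three).2 h3).symm
    obtain ⟨j, -, hj⟩ := (Nat.dvd_prime_pow Nat.prime_two).1 (hc3.dvd_of_dvd_mul_left hd)
    refine htO (Amalgam.le_pCoreOf inf_le_right (IsPGroup.of_card hj) hNn
      ⟨Subgroup.mem_centralizer_iff.2 fun a ha => (htA a ha).eq.symm, hP.le ht⟩)
  obtain ⟨x, hx⟩ := exists_prime_orderOf_dvd_card' (G := N) 3 h3
  have hx' : orderOf (x : G) = 3 := by rw [Subgroup.orderOf_coe, hx]
  have hxA : ∀ a ∈ A, (x : G) * a * (x : G)⁻¹ = a := fun a ha => by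
    rw [← Subgroup.mem_centralizer_iff.1 x.2.1 a ha, mul_inv_cancel_right]
  have hxO : ∀ o ∈ O, Commute (x : G) o := by
    intro o ho
    have hoP : o ∈ P := hP.le (hP.core_le ho)
    set c := (x : G) * o * (x : G)⁻¹ * o⁻¹ with hc'
    have hxo : (x : G) * o * (x : G)⁻¹ ∈ O := Amalgam.conj_mem_pCoreOf x.2.2 ho
    have hcO : c ∈ O := O.mul_mem hxo (O.inv_mem ho)
    have hcA : c ∈ A := by
      refine hc c hcO fun a ha => ?_
      have e1 := hxA _ (hn o⁻¹ (P.inv_mem hoP) a ha)
      have e2 : c * a * c⁻¹ = a := by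
        calc c * a * c⁻¹ = (x : G) * (o * ((x : G)⁻¹ * (o⁻¹ * a * o⁻¹⁻¹) * (x : G)) * o⁻¹) * (x : G)⁻¹ := by
              rw [hc']; group
          _ = (x : G) * (o * (o⁻¹ * a * o⁻¹⁻¹) * o⁻¹) * (x : G)⁻¹ := by
              nth_rewrite 1 [← e1]; group
          _ = (x : G) * a * (x : G)⁻¹ := by group
          _ = a := hxA a ha
      exact mul_inv_eq_iff_eq_mul.1 e2
    have hxc : Commute (x : G) c := mul_inv_eq_iff_eq_mul.1 (hxA c hcA)
    have hpow := eq_of_pow_conj (show (x : G) * o * (x : G)⁻¹ = c * o by rw [hc']; group) hxc 3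
    rw [show (x : G) ^ 3 = 1 by rw [← hx', pow_orderOf_eq_one], one_mul, inv_one, mul_one] at hpow
    have hc3 : c ^ 3 = 1 := mul_eq_right.1 hpow.symm
    obtain ⟨k, hk⟩ := hP.two ⟨c, hP.core_le hcO⟩
    have hc1 : c = 1 := eq_one_of_pow_coprime ((show Nat.Coprime 3 2 by norm_num).pow_right k) hc3
      (congrArg Subtype.val hk)
    rw [hc'] at hc1
    exact mul_inv_eq_iff_eq_mul.1 (mul_inv_eq_one.1 hc1)
  have hxmem : (x : G) ∈ T :=
    hP.core_le (hP.cent ⟨Subgroup.mem_centralizer_iff.2 fun o ho => (hxO o ho).eq.symm, x.2.2⟩)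
  obtain ⟨k, hk⟩ := IsPGroup.iff_orderOf.1 hP.two ⟨_, hxmem⟩
  rw [Subgroup.orderOf_mk, hx'] at hk
  cases k with
  | zero => simp at hk
  | succ k => rw [pow_succ] at hk; omega

/-- The Sylow order inside a Sylow-containing subgroup. -/
theorem card_sylow_of_card (S : Sylow 2 G) {M : Subgroup G} (hSM : (S : Subgroup G) ≤ M) {m : ℕ}
    {O : Subgroup G} (hO : O ≤ (S : Subgroup G)) (hM : Nat.card M = m * Nat.card O) :
    ∃ j, Nat.card (S : Subgroup G) = 2 ^ j * Nat.card O ∧ 2 ^ j ∣ m ∧ ¬ 2 ^ (j + 1) ∣ m := by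
  haveI : Fact (Nat.Prime 2) := ⟨Nat.prime_two⟩
  obtain ⟨a, ha⟩ := S.isPGroup'.exists_card_eq
  obtain ⟨d, hd⟩ := Subgroup.card_dvd_of_le hO
  obtain ⟨j, -, hj⟩ := (Nat.dvd_prime_pow Nat.prime_two).1 (ha ▸ Dvd.intro_left _ hd.symm)
  obtain ⟨l, hl⟩ := Subgroup.card_dvd_of_le hSM
  have hpos : 0 < Nat.card O := Nat.card_pos
  have hodd : ¬ 2 ∣ l := by
    intro h2
    have h1 := Subgroup.relIndex_mul_relIndex ⊥ (S : Subgroup G) M bot_le hSM
    rw [Subgroup.relIndex_bot_left, Subgroup.relIndex_bot_left, hl] at h1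
    rw [← Nat.eq_of_mul_eq_mul_left Nat.card_pos h1] at h2
    exact S.not_dvd_index (h2.trans (Subgroup.relIndex_dvd_index_of_le hSM))
  subst hj
  have hm : m = 2 ^ j * l := by
    refine Nat.eq_of_mul_eq_mul_right hpos ?_
    rw [← hM, hl, hd]; ring
  refine ⟨j, by rw [hd, mul_comm], ⟨l, hm⟩, ?_⟩
  rw [hm, pow_succ]
  intro hh
  exact hodd (Nat.dvd_of_mul_dvd_mul_left (by positivity) hh)

section A5Case

variable (h : Ord6 G) (S : Sylow 2 G) {P₃ P₅ : Subgroup G}
  (hP3 : Par3 (S : Subgroup G) P₃) (hP5 : Par5 (S : Subgroup G) P₅)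
include h hP5

/-- An element of order three normalising `S` and permuting `S/O₂(P₅)` without fixed points. -/
theorem exists_three_normalizer (hcard : Nat.card (S : Subgroup G) = 4 * Nat.card (pCoreOf 2 P₅))
    (hi : Nonempty (↥P₅ ⧸ pCore 2 ↥P₅ ≃* A5)) :
    ∃ y : G, y ^ 3 = 1 ∧ y ∉ (S : Subgroup G) ∧ y ∈ Subgroup.normalizer ((S : Subgroup G) : Set G) ∧
      ∀ s ∈ (S : Subgroup G), ∃ s' ∈ (S : Subgroup G),
        (y * s' * y⁻¹ * s'⁻¹)⁻¹ * s ∈ pCoreOf 2 P₅ := by
  classical
  haveI : Fact (Nat.Prime 2) := ⟨Nat.prime_two⟩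
  obtain ⟨e⟩ := hi
  let φ : ↥P₅ →* A5 := e.toMonoidHom.comp (QuotientGroup.mk' (pCore 2 ↥P₅))
  have hker : ∀ g : ↥P₅, φ g = 1 ↔ (g : G) ∈ pCoreOf 2 P₅ := fun g => by
    rw [← Par5.mem_core_iff]
    show e (g : ↥P₅ ⧸ pCore 2 ↥P₅) = 1 ↔ _
    rw [map_eq_one_iff _ e.injective, QuotientGroup.eq_one_iff]
  have hsur : Function.Surjective φ := e.surjective.comp (QuotientGroup.mk'_surjective _)
  set V := pCoreOf 2 P₅ with hV
  have hVS : V ≤ (S : Subgroup G) := hP5.core_le_sylow
  set U := (S : Subgroup G).subgroupOf P₅ with hU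
  let K := U.map φ
  have hK : ∀ g : ↥P₅, φ g ∈ K → (g : G) ∈ (S : Subgroup G) := by
    rintro g ⟨s, hs, es⟩
    have h1 : (↑(s⁻¹ * g) : G) ∈ V := (hker _).1 (by rw [map_mul, map_inv, es, inv_mul_cancel])
    have h2 := (S : Subgroup G).mul_mem hs (hVS h1)
    simpa using h2
  have h2g : ∀ k ∈ K, k * k = 1 := by
    rintro _ ⟨s, hs, rfl⟩
    refine a5_sq _ ?_
    rw [← map_pow, show s ^ 4 = 1 from Subtype.ext (h.pow_two_group S.isPGroup' hs), map_one]
  have hcomm : ∀ k ∈ K, ∀ k' ∈ K, k * k' = k' * k := by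
    intro k hk k' hk'
    have hi : ∀ w ∈ K, w⁻¹ = w := fun w hw => inv_eq_of_mul_eq_one_right (h2g w hw)
    conv_lhs => rw [← hi _ (K.mul_mem hk hk'), mul_inv_rev, hi k hk, hi k' hk']
  -- a pair of elements outside `V`
  have hne : ∀ B : Subgroup G, B ≤ (S : Subgroup G) → Nat.card B < Nat.card (S : Subgroup G) →
      ∃ s ∈ (S : Subgroup G), s ∉ B := by
    intro B _ hlt
    by_contra hall
    push Not at hall
    have := Subgroup.card_le_of_le (hall : (S : Subgroup G) ≤ B)
    omega
  obtain ⟨sa, hsa, hsaV⟩ := hne V hVS (by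
    have : 0 < Nat.card V := Nat.card_pos
    omega)
  let a := φ ⟨sa, hP5.le hsa⟩
  have haK : a ∈ K := ⟨⟨sa, hP5.le hsa⟩, hsa, rfl⟩
  have ha1 : a ≠ 1 := fun e' => hsaV ((hker _).1 e')
  obtain ⟨sb, hsb, hsb1, hsb2⟩ : ∃ sb ∈ (S : Subgroup G), sb ∉ V ∧ sa⁻¹ * sb ∉ V := by
    by_contra hall
    push Not at hall
    let f : V × Bool → (S : Subgroup G) := fun vb =>
      if vb.2 then ⟨sa * vb.1, (S : Subgroup G).mul_mem hsa (hVS vb.1.2)⟩ else ⟨vb.1, hVS vb.1.2⟩
    have hf : Function.Surjective f := by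
      rintro ⟨s, hs⟩
      by_cases hsV : s ∈ V
      · exact ⟨(⟨s, hsV⟩, false), rfl⟩
      · exact ⟨(⟨sa⁻¹ * s, hall s hs hsV⟩, true), Subtype.ext (by simp [f])⟩
    have := Nat.card_le_card_of_surjective f hf
    rw [Nat.card_prod, Nat.card_eq_fintype_card (α := Bool), Fintype.card_bool] at this
    have : 0 < Nat.card V := Nat.card_pos
    omega
  let b := φ ⟨sb, hP5.le hsb⟩
  have hbK : b ∈ K := ⟨⟨sb, hP5.le hsb⟩, hsb, rfl⟩
  have hb1 : b ≠ 1 := fun e' => hsb1 ((hker _).1 e')
  have hba : b ≠ a := fun e' => hsb2 ((hker (⟨sa, hP5.le hsa⟩⁻¹ * ⟨sb, hP5.le hsb⟩)).1 (by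
    rw [map_mul, map_inv]; exact inv_mul_eq_one.2 e'.symm))
  obtain ⟨z, hz3, hza, hzb⟩ := a5_four_cycle a (h2g a haK) ha1 b (h2g b hbK) hb1 hba
    (hcomm a haK b hbK)
  have hKfour : ∀ c ∈ K, c = 1 ∨ c = a ∨ c = b ∨ c = a * b := fun c hc =>
    a5_four_group a (h2g a haK) ha1 b (hcomm a haK b hbK) hb1 hba c (hcomm a haK c hc)
  have hzK : ∀ c ∈ K, z * c * z⁻¹ ∈ K := by
    intro c hc
    rcases hKfour c hc with rfl | rfl | rfl | rfl
    · simp [one_mem]
    · rw [hza]; exact hbK
    · rw [hzb]; exact K.mul_mem haK hbK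
    · rw [show z * (a * b) * z⁻¹ = (z * a * z⁻¹) * (z * b * z⁻¹) by group, hza, hzb]
      exact K.mul_mem hbK (K.mul_mem haK hbK)
  have hzc : ∀ c ∈ K, ∃ c' ∈ K, z * c' * z⁻¹ * c'⁻¹ = c := by
    have hia : a⁻¹ = a := inv_eq_of_mul_eq_one_right (h2g a haK)
    have hib : b⁻¹ = b := inv_eq_of_mul_eq_one_right (h2g b hbK)
    have hab := hcomm a haK b hbK
    intro c hc
    rcases hKfour c hc with rfl | rfl | rfl | rfl
    · exact ⟨1, one_mem _, by simp⟩
    · refine ⟨b, hbK, ?_⟩
      rw [hzb, hib, mul_assoc, h2g b hbK, mul_one]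
    · refine ⟨a * b, K.mul_mem haK hbK, ?_⟩
      rw [show z * (a * b) * z⁻¹ = (z * a * z⁻¹) * (z * b * z⁻¹) by group, hza, hzb]
      rw [mul_inv_cancel_right]
    · refine ⟨a, haK, ?_⟩
      rw [hza, hia, hab]
  obtain ⟨g, hg⟩ := hsur z
  have hz1 : z ≠ 1 := fun e' => hba (by rw [← hza, e']; simp)
  have hg6 : (g : G) ^ 6 = 1 := by
    rcases h (g : G) with e' | e' | e'
    · exfalso
      have h4 : z ^ 4 = 1 := by rw [← hg, ← map_pow, show g ^ 4 = 1 from Subtype.ext e', map_one]
      exact hz1 (eq_one_of_pow_coprime (show Nat.Coprime 4 3 by norm_num) h4 hz3)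
    · exfalso
      have h5 : z ^ 5 = 1 := by rw [← hg, ← map_pow, show g ^ 5 = 1 from Subtype.ext e', map_one]
      exact hz1 (eq_one_of_pow_coprime (show Nat.Coprime 5 3 by norm_num) h5 hz3)
    · exact e'
  set y : ↥P₅ := g ^ 4 with hy
  have hyz : φ y = z := by rw [hy, map_pow, hg, pow_succ, hz3, one_mul]
  have hy3 : (y : G) ^ 3 = 1 := by
    rw [hy, SubgroupClass.coe_pow, ← pow_mul, show 4 * 3 = 6 * 2 from rfl, pow_mul, hg6, one_pow]
  have hyS : ∀ s ∈ (S : Subgroup G), (y : G) * s * (y : G)⁻¹ ∈ (S : Subgroup G) := by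
    intro s hs
    refine hK (y * ⟨s, hP5.le hs⟩ * y⁻¹) ?_
    rw [map_mul, map_mul, map_inv, hyz]
    exact hzK _ ⟨⟨s, hP5.le hs⟩, hs, rfl⟩
  refine ⟨y, hy3, fun hmem => ?_, mem_normalizer_of_conj hyS, fun s hs => ?_⟩
  · have : z ∈ K := ⟨y, hmem, hyz⟩
    rcases hKfour z this with e' | e' | e' | e' <;>
      exact hz1 (eq_one_of_pow_coprime (show Nat.Coprime 2 3 by norm_num)
        (by rw [pow_two]; exact h2g z this) hz3)
  · obtain ⟨c', ⟨s', hs', rfl⟩, he⟩ := hzc (φ ⟨s, hP5.le hs⟩) ⟨⟨s, hP5.le hs⟩, hs, rfl⟩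
    refine ⟨s', hs', (hker ((y * s' * y⁻¹ * s'⁻¹)⁻¹ * ⟨s, hP5.le hs⟩)).1 ?_⟩
    rw [map_mul, map_inv, map_mul, map_mul, map_mul, map_inv, map_inv, hyz, he, inv_mul_cancel]

end A5Case

/-- The parabolic with top `S₃` normalizes the core of the other one. -/
theorem par3_le_normalizer_core [IsSimpleGroup G] (hna : ¬ IsMulCommutative G) (h : Ord6 G)
    (hrec : NoSixBelow.{u} (Nat.card G)) (h2 : Cfsg.IsCharacteristicTwoType G) (S : Sylow 2 G)
    {P₃ P₅ : Subgroup G} (hP3 : Par3 (S : Subgroup G) P₃) (hP5 : Par5 (S : Subgroup G) P₅)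
    (huniq : ∀ A : Subgroup G, A ≤ S → SpecFive.Elem A →
      Nat.card (pCoreOf 2 P₅) ≤ Nat.card A → A = pCoreOf 2 P₅)
    {D : Subgroup G} (hD1 : D ≠ ⊥) (hDS : D ≤ S)
    (hD3 : P₃ ≤ Subgroup.normalizer (D : Set G))
    (hDN : Subgroup.normalizer ((S : Subgroup G) : Set G) ≤ Subgroup.normalizer (D : Set G)) :
    P₃ ≤ Subgroup.normalizer (pCoreOf 2 P₅ : Set G) := by
  classical
  haveI : Fact (Nat.Prime 2) := ⟨Nat.prime_two⟩
  haveI : Fact (Nat.Prime 3) := ⟨Nat.prime_three⟩
  set V := pCoreOf 2 P₅ with hVdef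
  set O := pCoreOf 2 P₃ with hOdef
  have hVS : V ≤ (S : Subgroup G) := hP5.core_le_sylow
  have hOS : O ≤ (S : Subgroup G) := hP3.core_le
  have hOn : ∀ g ∈ P₃, ∀ o ∈ O, g * o * g⁻¹ ∈ O := fun g hg o ho => Amalgam.conj_mem_pCoreOf hg ho
  have hcmap : ∀ (g : G) (B : Subgroup G), Nat.card (B.map (MulAut.conj g).toMonoidHom) = Nat.card B :=
    fun g B => Subgroup.card_map_of_injective (MulAut.conj g).injective
  have helem : ∀ (g : G) (B : Subgroup G), Elem B → Elem (B.map (MulAut.conj g).toMonoidHom) := by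
    intro g B hB
    refine ⟨?_, ?_⟩
    · rintro _ ⟨a, ha, rfl⟩ _ ⟨b, hb, rfl⟩; exact (hB.1 a ha b hb).map _
    · rintro _ ⟨a, ha, rfl⟩; rw [← map_mul, hB.2 a ha, map_one]
  by_cases hVO : V ≤ O
  · refine fun g hg => mem_normalizer_of_conj fun v hv => ?_
    have he : V.map (MulAut.conj g).toMonoidHom = V := by
      refine huniq _ ?_ (helem g V hP5.elem) (hcmap g V).ge
      rintro _ ⟨w, hw, rfl⟩
      exact hOS (hOn g hg w (hVO hw))
    exact he.le ⟨v, hv, rfl⟩
  exfalso
  obtain ⟨t, htV, htO⟩ := Set.not_subset.1 hVO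
  set V0 := V ⊓ O with hV0
  have hV0ne : V0 ≤ V := inf_le_left
  have hOidx : (O.subgroupOf (S : Subgroup G)).index = 2 := by
    have h1 := (O.subgroupOf (S : Subgroup G)).card_mul_index
    rw [Nat.card_congr (Subgroup.subgroupOfEquivOfLe hOS).toEquiv, hP3.core_eq, mul_comm 2] at h1
    exact Nat.eq_of_mul_eq_mul_left Nat.card_pos h1
  have hV0card : Nat.card V = 2 * Nat.card V0 := by
    have h1 := card_inf_mul_relIndex V O
    have h2' : O.relIndex V ≤ 2 := by
      have h3 := Subgroup.relIndex_le_of_le_right (H := O) (K := V) (L := (S : Subgroup G)) hVS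
        (show O.relIndex (S : Subgroup G) ≠ 0 by rw [Subgroup.relIndex, hOidx]; norm_num)
      rwa [show O.relIndex (S : Subgroup G) = 2 from hOidx] at h3
    have h3 : O.relIndex V ≠ 1 := fun e => hVO (Subgroup.relIndex_eq_one.1 e)
    have h4 : O.relIndex V ≠ 0 := fun e => by
      rw [e, mul_zero] at h1
      have : 0 < Nat.card V := Nat.card_pos
      omega
    rw [show O.relIndex V = 2 by omega] at h1
    rw [← hV0] at h1
    omega
  have hV16 := hP5.card_core h
  rw [← hVdef] at hV16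
  have hcard := hP5.card_T
  rw [← hVdef] at hcard
  -- self-centralising
  have hCV0 : ∀ o ∈ O, (∀ a ∈ V0, Commute o a) → o ∈ V0 := by
    intro o ho hoc
    by_contra hoV
    have hoV' : o ∉ V := fun hh => hoV ⟨hh, ho⟩
    have hb := hP5.fixed_bound h o (hOS ho) hoV'
    have hle : V0 ≤ V ⊓ Subgroup.centralizer {o} := le_inf inf_le_left fun a ha =>
      Subgroup.mem_centralizer_singleton_iff.2 (hoc a ha).eq.symm
    have := Subgroup.card_le_of_le hle
    rw [← hVdef] at hb
    have hb' : Nat.card V0 ^ 2 ≤ Nat.card V := le_trans (Nat.pow_le_pow_left this 2) hb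
    rw [hV0card] at hb'
    rcases hV16 with e | e <;> nlinarith
  -- it is enough to show that `V0` is normal in `P₃`
  suffices hnorm : ∀ g ∈ P₃, ∀ a ∈ V0, g * a * g⁻¹ ∈ V0 from
    false_of_centralized hP3 inf_le_right hnorm hCV0 (hVS htV) htO
      (fun a ha => hP5.elem.1 t htV a ha.1)
  -- conjugates of `V0`
  have hbound : ∀ g ∈ P₃, ∀ e ∈ V0.map (MulAut.conj g).toMonoidHom, e ∉ V →
      Nat.card (V0.map (MulAut.conj g).toMonoidHom ⊓ V : Subgroup G) ^ 2 ≤ Nat.card V := by
    intro g hg e he heV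
    obtain ⟨w, hw, rfl⟩ := he
    refine le_trans (Nat.pow_le_pow_left (Subgroup.card_le_of_le ?_) 2)
      (hP5.fixed_bound h _ (hOS (hOn g hg w hw.2)) heV)
    refine le_inf inf_le_right fun a ha => Subgroup.mem_centralizer_singleton_iff.2 ?_
    exact ((helem g V0 (hP5.elem.mono hV0ne)).1 a ha.1 _ ⟨w, hw, rfl⟩).eq
  have hEV : ∀ g ∈ P₃, V0.map (MulAut.conj g).toMonoidHom ≤ V →
      ∀ a ∈ V0, g * a * g⁻¹ ∈ V0 := fun g hg hle a ha =>
    ⟨hle ⟨a, ha, rfl⟩, hOn g hg a ha.2⟩
  intro g hg
  by_cases hle : V0.map (MulAut.conj g).toMonoidHom ≤ V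
  · exact hEV g hg hle
  obtain ⟨e, heE, heV⟩ := Set.not_subset.1 hle
  set E := V0.map (MulAut.conj g).toMonoidHom with hE
  have hb := hbound g hg e heE heV
  have hES : E ≤ (S : Subgroup G) := by
    rintro _ ⟨w, hw, rfl⟩
    exact hOS (hOn g hg w hw.2)
  have hrel := card_inf_mul_relIndex E V
  have hr4 : V.relIndex E ≤ 4 := by
    refine le_trans (Subgroup.relIndex_le_of_le_right hES ?_) hP5.relIndex_le_four
    rcases hP5.relIndex_core with ⟨e', -⟩ | ⟨e', -⟩ <;> rw [e'] <;> norm_num
  have hE8 : Nat.card E = Nat.card V0 := hcmap g V0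
  have hV16' : Nat.card V = 16 := by
    rcases hV16 with e' | e'
    · exact e'
    · exfalso
      have : Nat.card V ≤ 8 * Nat.card (E ⊓ V : Subgroup G) := by
        rw [hV0card, ← hE8, ← hrel]
        nlinarith
      nlinarith
  rcases hcard with hS2 | ⟨hS4, hi⟩
  · -- top `D₁₀`: two elementary subgroups of order eight in `O`
    intro a ha
    have hS32 : Nat.card (S : Subgroup G) = 32 := by omega
    have hr2 : V.relIndex E ≤ 2 := by
      refine le_trans (Subgroup.relIndex_le_of_le_right hES ?_) ?_ <;>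
        rcases hP5.relIndex_core with ⟨e', -⟩ | ⟨e', -⟩
      · rw [e']; norm_num
      · rw [e']; norm_num
      · exact e'.le
      · exfalso
        have h1 := card_inf_mul_relIndex (S : Subgroup G) V
        rw [inf_eq_right.2 hVS, e'] at h1
        omega
    have hI4 : Nat.card (E ⊓ V : Subgroup G) = 4 := by
      have h1 : Nat.card (E ⊓ V : Subgroup G) ≤ 4 := by nlinarith
      have h2' : Nat.card E ≤ 2 * Nat.card (E ⊓ V : Subgroup G) := by rw [← hrel]; nlinarith
      omega
    have hO16 : Nat.card O = 16 := by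
      have h1 := hP3.core_eq
      rw [← hOdef] at h1
      omega
    have hV0O : V0 ≤ O := inf_le_right
    have hi0 : (V0.subgroupOf O).index = 2 := by
      have h1 := (V0.subgroupOf O).card_mul_index
      rw [Nat.card_congr (Subgroup.subgroupOfEquivOfLe hV0O).toEquiv, hO16] at h1
      have : Nat.card V0 = 8 := by omega
      rw [this] at h1
      omega
    have hEO : E ≤ O := by
      rintro _ ⟨w, hw, rfl⟩
      exact hOn g hg w hw.2
    -- the involutions of `O`
    have hinv : ∀ y ∈ O, y * y = 1 → y ∈ V0 ∨ y ∈ E := by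
      intro y hy hy2
      by_cases hyV : y ∈ V0
      · exact Or.inl hyV
      right
      have he0 : e ∉ V0 := fun hh => heV hh.1
      have h2' := Subgroup.mul_mem_iff_of_index_two hi0 (a := ⟨e, hEO heE⟩) (b := ⟨y, hy⟩)
      simp only [Subgroup.mem_subgroupOf, Subgroup.coe_mul] at h2'
      have hv : e * y ∈ V0 := h2'.2 ⟨fun hh => absurd hh he0, fun hh => absurd hh hyV⟩
      have he2 : e * e = 1 := (helem g V0 (hP5.elem.mono hV0ne)).2 e heE
      have hey : Commute e (e * y) := by
        have h3 := hP5.elem.2 _ hv.1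
        have hye : e * y = y * e := by
          calc e * y = e * y * (e * y * (e * y)) := by rw [h3, mul_one]
            _ = (e * y * (e * y)) * (e * y) := by group
            _ = y * e := by
              rw [h3, one_mul]
              calc e * y = (e * y) * (e * y * (e * y)) := by rw [h3, mul_one]
                _ = (e * y * e) * (y * (e * y)) := by group
                _ = y * e := by
                  have hi : (e * y)⁻¹ = e * y := inv_eq_of_mul_eq_one_right h3
                  rw [mul_inv_rev, inv_eq_of_mul_eq_one_right he2,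
                    inv_eq_of_mul_eq_one_right hy2] at hi
                  rw [← hi]; simp [mul_assoc, he2, hy2, ← mul_assoc e e, ← mul_assoc y y]
        exact (Commute.refl e).mul_right hye
      -- `e * y` lies in `V ∩ C(e) = E ∩ V`
      have hle4 : (E ⊓ V : Subgroup G) ≤ V ⊓ Subgroup.centralizer {e} := le_inf inf_le_right
        fun w hw => Subgroup.mem_centralizer_singleton_iff.2
          ((helem g V0 (hP5.elem.mono hV0ne)).1 w hw.1 e heE).eq
      have heq : (E ⊓ V : Subgroup G) = V ⊓ Subgroup.centralizer {e} := by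
        refine Subgroup.eq_of_le_of_card_ge hle4 ?_
        have := hP5.fixed_bound h e (hES heE) heV
        rw [← hVdef, hV16'] at this
        nlinarith
      have hmem : e * y ∈ (E ⊓ V : Subgroup G) := heq ▸
        ⟨hv.1, Subgroup.mem_centralizer_singleton_iff.2 hey.symm.eq⟩
      have := E.mul_mem heE hmem.1
      rwa [← mul_assoc, he2, one_mul] at this
    have honly : ∀ k ∈ P₃, V0.map (MulAut.conj k).toMonoidHom = V0 ∨
        V0.map (MulAut.conj k).toMonoidHom = E := by
      intro k hk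
      set F := V0.map (MulAut.conj k).toMonoidHom with hF
      have hFO : F ≤ O := by
        rintro _ ⟨w, hw, rfl⟩
        exact hOn k hk w hw.2
      have hFe : Elem F := helem k V0 (hP5.elem.mono hV0ne)
      have hor : F ≤ V0 ∨ F ≤ E := by
        by_contra hcon
        push Not at hcon
        obtain ⟨p, hp, hp0⟩ := Set.not_subset.1 hcon.1
        obtain ⟨q, hq, hqE⟩ := Set.not_subset.1 hcon.2
        have hpE := (hinv p (hFO hp) (hFe.2 p hp)).resolve_left hp0
        have hq0 := (hinv q (hFO hq) (hFe.2 q hq)).resolve_right hqE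
        rcases hinv (p * q) (hFO (F.mul_mem hp hq)) (hFe.2 _ (F.mul_mem hp hq)) with e' | e'
        · exact hp0 (by simpa using V0.mul_mem e' (V0.inv_mem hq0))
        · exact hqE (by simpa using E.mul_mem (E.inv_mem hpE) e')
      rcases hor with e' | e'
      · exact Or.inl (Subgroup.eq_of_le_of_card_ge e' (hcmap k V0).ge)
      · exact Or.inr (Subgroup.eq_of_le_of_card_ge e' (by rw [hcmap k V0, hE8]))
    -- `S` and an element of order three normalise `V0`
    have hNS : (S : Subgroup G) ≤ Subgroup.normalizer (V0 : Set G) := fun s hs =>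
      mem_normalizer_of_conj fun w hw =>
        ⟨Par5.core_conj (hP5.le hs) hw.1, hOn s (hP3.le hs) w hw.2⟩
    obtain ⟨x, hx⟩ := exists_prime_orderOf_dvd_card' (G := P₃) 3
      (by rw [hP3.card_eq]; exact dvd_mul_right 3 _)
    have hx3 : (x : G) ^ 3 = 1 := by
      rw [← Subgroup.orderOf_coe] at hx
      rw [← hx, pow_orderOf_eq_one]
    have hxS : (x : G) ∉ (S : Subgroup G) := fun hh => by
      obtain ⟨j, hj⟩ := IsPGroup.iff_orderOf.1 S.isPGroup' ⟨_, hh⟩
      rw [Subgroup.orderOf_mk, Subgroup.orderOf_coe, hx] at hj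
      cases j with
      | zero => simp at hj
      | succ j => rw [pow_succ] at hj; omega
    have hcomp : ∀ (k l : G) (B : Subgroup G),
        B.map (MulAut.conj (k * l)).toMonoidHom =
          (B.map (MulAut.conj l).toMonoidHom).map (MulAut.conj k).toMonoidHom := by
      intro k l B
      rw [Subgroup.map_map]
      congr 1
      ext w
      simp [mul_assoc]
    have hxN : V0.map (MulAut.conj (x : G)).toMonoidHom = V0 := by
      refine (honly x x.2).resolve_right fun h1 => ?_
      have hEne : E ≠ V0 := fun e' => heV (e' ▸ heE).1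
      rcases honly ((x : G) * x) (P₃.mul_mem x.2 x.2) with h2' | h2'
      · rw [hcomp, h1] at h2'
        have h3 := congrArg (Subgroup.map (MulAut.conj (x : G)).toMonoidHom) h2'
        rw [h1] at h3
        have h4 : ((E.map (MulAut.conj (x : G)).toMonoidHom).map (MulAut.conj (x : G)).toMonoidHom) =
            V0.map (MulAut.conj ((x : G) * x * x)).toMonoidHom := by
          rw [hcomp, hcomp, h1]
        rw [h4, show (x : G) * x * x = 1 by rw [← hx3, pow_succ, pow_two]] at h3
        refine hEne (h3.symm.trans ?_)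
        rw [map_one]
        exact Subgroup.map_id V0
      · rw [hcomp, h1] at h2'
        refine hEne (Subgroup.map_injective (f := (MulAut.conj (x : G)).toMonoidHom)
          (MulAut.conj (x : G)).injective ?_)
        rw [h1, h2']
    have hP3N : P₃ ≤ Subgroup.normalizer (V0 : Set G) := by
      have hxmem : (x : G) ∈ Subgroup.normalizer (V0 : Set G) :=
        Subgroup.mem_normalizer_iff_map_conj_eq.2 hxN
      have hd : (S : Subgroup G) ⊔ Subgroup.zpowers (x : G) ≤ Subgroup.normalizer (V0 : Set G) :=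
        sup_le hNS (Subgroup.zpowers_le.2 hxmem)
      refine le_trans (ge_of_eq (Subgroup.eq_of_le_of_card_ge
        (sup_le hP3.le (Subgroup.zpowers_le.2 x.2)) ?_)) hd
      obtain ⟨l, hl⟩ := Subgroup.card_dvd_of_le (le_sup_left : (S : Subgroup G) ≤ (S : Subgroup G) ⊔ Subgroup.zpowers (x : G))
      obtain ⟨m, hm⟩ := Subgroup.card_dvd_of_le (sup_le hP3.le (Subgroup.zpowers_le.2 x.2))
      rw [hP3.card_eq, hl] at hm
      have hlm : 3 = l * m := Nat.eq_of_mul_eq_mul_left Nat.card_pos (by rw [← mul_assoc, ← hm, mul_comm])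
      rcases (Nat.dvd_prime Nat.prime_three).1 ⟨m, hlm⟩ with rfl | rfl
      · exfalso
        rw [mul_one] at hl
        have heq := Subgroup.eq_of_le_of_card_ge le_sup_left hl.le
        exact hxS (heq ▸ Subgroup.mem_sup_right (Subgroup.mem_zpowers _))
      · rw [hP3.card_eq, hl, mul_comm]
    exact (Subgroup.mem_normalizer_iff.1 (hP3N hg) a).1 ha
  · -- top `A₅`
    exfalso
    have hS64 : Nat.card (S : Subgroup G) = 64 := by omega
    set M := Subgroup.normalizer (D : Set G) with hMdef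
    have hDp : IsPGroup 2 D := S.isPGroup'.to_le hDS
    have hMtop : M ≠ ⊤ := by
      intro e'
      have hn : D.Normal := Subgroup.normalizer_eq_top_iff.1 e'
      rcases IsSimpleGroup.eq_bot_or_eq_top_of_normal D hn with e'' | e''
      · exact hD1 e''
      · subst e''
        haveI := hDp.isNilpotent
        haveI : Group.IsSolvable G := Group.isSolvable_of_surjective
          (f := (Subgroup.topEquiv (G := G)).toMonoidHom) (Subgroup.topEquiv (G := G)).surjective
        exact hna ⟨⟨IsSimpleGroup.comm_iff_isSolvable.2 inferInstance⟩⟩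
    have hMlt : Nat.card M < Nat.card G := by
      refine lt_of_le_of_ne (Subgroup.card_le_card_group M) fun e' => hMtop (Subgroup.eq_top_of_card_eq M e')
    have hrecM : NoSixBelow.{u} (Nat.card M + 1) := fun H _ _ hH => hrec H (by omega)
    have hSM : (S : Subgroup G) ≤ M := hP3.le.trans hD3
    have hc2 : Subgroup.centralizer (pCore 2 ↥M : Set ↥M) ≤ pCore 2 ↥M := h2.2 D hDp hD1
    set O' := pCoreOf 2 M with hO'def
    have hO'S : O' ≤ (S : Subgroup G) := by
      have hidx : ¬ 2 ∣ ((S : Subgroup G).subgroupOf M).index := fun hh =>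
        S.not_dvd_index (hh.trans (Subgroup.relIndex_dvd_index_of_le hSM))
      let S' : Sylow 2 ↥M := (S.isPGroup'.comap_of_injective M.subtype M.subtype_injective :
        IsPGroup 2 ((S : Subgroup G).subgroupOf M)).toSylow hidx
      rintro _ ⟨w, hw, rfl⟩
      exact Amalgam.pCore_mem_sylow S' hw
    have hO'n : ∀ k ∈ M, ∀ o ∈ O', k * o * k⁻¹ ∈ O' := fun k hk o ho => Amalgam.conj_mem_pCoreOf hk ho
    have hO'O : O' ≤ O := Amalgam.le_pCoreOf (hO'S.trans hP3.le) (S.isPGroup'.to_le hO'S)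
      fun k hk o ho => hO'n k (hD3 hk) o ho
    have hO32 : Nat.card O' ≤ 32 := by
      have := Subgroup.card_le_of_le hO'O
      have h1 := hP3.core_eq
      rw [← hOdef] at h1
      omega
    let π : ↥M →* ↥M ⧸ pCore 2 ↥M := QuotientGroup.mk' _
    have hπ : ∀ k : ↥M, π k = 1 ↔ (k : G) ∈ O' := fun k => by
      rw [QuotientGroup.mk'_apply, QuotientGroup.eq_one_iff]
      exact ⟨fun hh => ⟨k, hh, rfl⟩, by rintro ⟨w, hw, e'⟩; rwa [← Subtype.ext e']⟩
    have hpS : ∀ w : G, w ^ 3 = 1 → w ∈ (S : Subgroup G) → w = 1 := fun w hw hwS =>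
      eq_one_of_pow_coprime (show Nat.Coprime 3 4 by norm_num) hw (h.pow_two_group S.isPGroup' hwS)
    obtain ⟨x, hxord⟩ := exists_prime_orderOf_dvd_card' (G := P₃) 3
      (by rw [hP3.card_eq]; exact dvd_mul_right 3 _)
    rw [← Subgroup.orderOf_coe] at hxord
    have hx3 : (x : G) ^ 3 = 1 := by rw [← hxord, pow_orderOf_eq_one]
    have hx1 : (x : G) ≠ 1 := fun e' => by rw [e', orderOf_one] at hxord; omega
    have hxS : (x : G) ∉ (S : Subgroup G) := fun hh => hx1 (hpS _ hx3 hh)
    obtain ⟨y, hy3, hyS, hyN, hyfix⟩ := exists_three_normalizer h S hP5 hS4 hi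
    set xM : ↥M := ⟨x, hD3 x.2⟩ with hxM
    set yM : ↥M := ⟨y, hDN hyN⟩ with hyM
    have hX1 : π xM ≠ 1 := fun e' => hxS (hO'S ((hπ _).1 e'))
    have hY1 : π yM ≠ 1 := fun e' => hyS (hO'S ((hπ _).1 e'))
    have hX3 : π xM ^ 3 = 1 := by rw [← map_pow, show xM ^ 3 = 1 from Subtype.ext hx3, map_one]
    have hY3 : π yM ^ 3 = 1 := by rw [← map_pow, show yM ^ 3 = 1 from Subtype.ext hy3, map_one]
    have hno : ∀ n : ℕ, n = 5 ∨ n = 10 → Nat.card (↥M ⧸ pCore 2 ↥M) ≠ n := by
      intro n hn e'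
      have h1 : π xM ^ n = 1 := by rw [← e']; exact pow_card_eq_one'
      refine hX1 (eq_one_of_pow_coprime ?_ h1 hX3)
      rcases hn with rfl | rfl <;> norm_num
    rcases topCases (h.subgroup M) hc2 hrecM with ⟨Q, hQ⟩ | e' | ⟨e', -⟩ | ⟨⟨e'⟩, -⟩
    · haveI := hQ.normal
      have hxQ : π xM ∈ Q := hQ.mem _ hX3
      have hyQ : π yM ∈ Q := hQ.mem _ hY3
      -- `y` centralises the image of `S`
      have hyS' : ∀ s (hs : s ∈ (S : Subgroup G)), y * s * y⁻¹ * s⁻¹ ∈ O' := by
        intro s hs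
        set sM : ↥M := ⟨s, hSM hs⟩ with hsM
        refine (hπ (yM * sM * yM⁻¹ * sM⁻¹)).1 ?_
        have hmemQ : π (yM * sM * yM⁻¹ * sM⁻¹) ∈ Q := by
          rw [map_mul, map_mul, map_mul, map_inv, map_inv, mul_assoc, mul_assoc]
          refine Q.mul_mem hyQ ?_
          rw [← mul_assoc]
          exact hQ.normal.conj_mem _ (Q.inv_mem hyQ) _
        have hmemS : ((yM * sM * yM⁻¹ * sM⁻¹ : ↥M) : G) ∈ (S : Subgroup G) :=
          (S : Subgroup G).mul_mem ((Subgroup.mem_normalizer_iff.1 hyN s).1 hs) ((S : Subgroup G).inv_mem hs)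
        refine eq_one_of_pow_coprime (show Nat.Coprime 3 4 by norm_num) (hQ.exp _ hmemQ) ?_
        rw [← map_pow, show (yM * sM * yM⁻¹ * sM⁻¹) ^ 4 = 1 from
          Subtype.ext (h.pow_two_group S.isPGroup' hmemS), map_one]
      -- two commuting independent elements of order three
      obtain ⟨B, hBQ, hBy, hBne⟩ : ∃ B ∈ Q, Commute (π yM) B ∧ B ∉ Subgroup.zpowers (π yM) := by
        have hxny : π xM ∉ Subgroup.zpowers (π yM) := by
          intro hmem
          have hxn : ∀ s ∈ (S : Subgroup G), (x : G) * s * (x : G)⁻¹ ∈ (S : Subgroup G) := by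
            intro s hs
            have hc : Commute (π xM) (π ⟨s, hSM hs⟩) := by
              have hc0 : Commute (π yM) (π ⟨s, hSM hs⟩) := by
                have h1 := (hπ (yM * ⟨s, hSM hs⟩ * yM⁻¹ * (⟨s, hSM hs⟩ : ↥M)⁻¹)).2 (hyS' s hs)
                rw [map_mul, map_mul, map_mul, map_inv, map_inv, mul_inv_eq_one] at h1
                exact mul_inv_eq_iff_eq_mul.1 h1
              obtain ⟨i, hi'⟩ := Subgroup.mem_zpowers_iff.1 hmem
              rw [← hi']
              exact hc0.zpow_left i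
            have h1 : π (xM * ⟨s, hSM hs⟩ * xM⁻¹ * (⟨s, hSM hs⟩ : ↥M)⁻¹) = 1 := by
              rw [map_mul, map_mul, map_mul, map_inv, map_inv, hc.eq]; group
            have h2' := hO'S ((hπ _).1 h1)
            have := (S : Subgroup G).mul_mem h2' hs
            simpa using this
          -- then `S` is normal in `P₃`
          have hle : (S : Subgroup G) ≤ O := by
            have hxmem : (x : G) ∈ Subgroup.normalizer ((S : Subgroup G) : Set G) :=
              mem_normalizer_of_conj hxn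
            have hSnorm : P₃ ≤ Subgroup.normalizer ((S : Subgroup G) : Set G) := by
              refine le_trans (ge_of_eq (Subgroup.eq_of_le_of_card_ge
                (sup_le hP3.le (Subgroup.zpowers_le.2 x.2) :
                  (S : Subgroup G) ⊔ Subgroup.zpowers (x : G) ≤ P₃) ?_))
                (sup_le Subgroup.le_normalizer (Subgroup.zpowers_le.2 hxmem))
              obtain ⟨l, hl⟩ := Subgroup.card_dvd_of_le (le_sup_left : (S : Subgroup G) ≤ (S : Subgroup G) ⊔ Subgroup.zpowers (x : G))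
              obtain ⟨m, hm⟩ := Subgroup.card_dvd_of_le (sup_le hP3.le (Subgroup.zpowers_le.2 x.2))
              rw [hP3.card_eq, hl] at hm
              have hlm : 3 = l * m := Nat.eq_of_mul_eq_mul_left Nat.card_pos (by rw [← mul_assoc, ← hm, mul_comm])
              rcases (Nat.dvd_prime Nat.prime_three).1 ⟨m, hlm⟩ with rfl | rfl
              · exfalso
                rw [mul_one] at hl
                have heq := Subgroup.eq_of_le_of_card_ge le_sup_left hl.le
                exact hxS (heq ▸ Subgroup.mem_sup_right (Subgroup.mem_zpowers _))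
              · rw [hP3.card_eq, hl, mul_comm]
            exact Amalgam.le_pCoreOf hP3.le S.isPGroup' fun k hk s hs =>
              (Subgroup.mem_normalizer_iff.1 (hSnorm hk) s).1 hs
          have h1 := Subgroup.card_le_of_le hle
          have h2' := hP3.core_eq
          rw [← hOdef] at h2'
          omega
        by_cases hc : Commute (π yM) (π xM)
        · exact ⟨π xM, hxQ, hc, hxny⟩
        refine ⟨π xM * π yM * (π xM)⁻¹, hQ.normal.conj_mem _ hyQ _,
          commute_conj_of_exp_three hQ.exp hyQ hxQ, fun hmem => hc ?_⟩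
        obtain ⟨i, hi'⟩ := Subgroup.mem_zpowers_iff.1 hmem
        set Y := π yM with hYdef
        set X := π xM with hXdef
        have hY2 : Y ^ i = Y ∨ Y ^ i = Y⁻¹ ∨ Y ^ i = 1 := by
          have hem := Int.emod_add_mul_ediv i 3
          rcases (show i % 3 = 0 ∨ i % 3 = 1 ∨ i % 3 = 2 by omega) with e'' | e'' | e'' <;>
            rw [← hem, e'', zpow_add, zpow_mul, show ((3 : ℤ)) = ((3 : ℕ) : ℤ) from rfl,
              zpow_natCast, hY3, one_zpow, mul_one]
          · exact Or.inr (Or.inr (zpow_zero Y))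
          · exact Or.inl (zpow_one Y)
          · refine Or.inr (Or.inl ?_)
            rw [show (2 : ℤ) = ((2 : ℕ) : ℤ) from rfl, zpow_natCast]
            exact eq_inv_of_mul_eq_one_left (by rw [← pow_succ]; exact hY3)
        rcases hY2 with e'' | e'' | e'' <;> rw [e''] at hi'
        · exact (mul_inv_eq_iff_eq_mul.1 hi'.symm).symm
        · exfalso
          have e3 : X ^ 3 * Y * (X ^ 3)⁻¹ = Y⁻¹ := by
            calc X ^ 3 * Y * (X ^ 3)⁻¹ = X * (X * (X * Y * X⁻¹) * X⁻¹) * X⁻¹ := by
                  simp [pow_succ, mul_assoc]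
              _ = X * (X * Y⁻¹ * X⁻¹) * X⁻¹ := by rw [hi']
              _ = X * (X * Y * X⁻¹)⁻¹ * X⁻¹ := by rw [conj_inv]
              _ = Y⁻¹ := by rw [← hi', inv_inv]; exact hi'.symm
          rw [hX3, one_mul, inv_one, mul_one] at e3
          exact hY1 (eq_one_of_pow_coprime (show Nat.Coprime 2 3 by norm_num)
            (by rw [pow_two]; nth_rewrite 2 [e3]; exact mul_inv_cancel Y) hY3)
        · exfalso
          exact hY1 (conj_eq_one_iff.1 hi'.symm)
      -- lift the pair
      set E2 := pairSub hBy with hE2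
      have hE3 : ∀ q ∈ E2, q ^ 3 = 1 := by
        rintro _ ⟨i, j, rfl⟩
        exact hQ.exp _ (Q.mul_mem (Q.zpow_mem hyQ i) (Q.zpow_mem hBQ j))
      set K := E2.comap π with hK
      obtain ⟨R⟩ : Nonempty (Sylow 3 ↥K) := inferInstance
      have hsur : Function.Surjective (π.subgroupComap E2) :=
        π.subgroupComap_surjective_of_surjective E2 (QuotientGroup.mk'_surjective _)
      have hRtop : ((R : Subgroup ↥K).map (π.subgroupComap E2)) = ⊤ :=
        ((R.mapSurjective hsur).is_maximal'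
          (fun q => ⟨1, by rw [pow_one]; exact Subtype.ext (Subtype.ext (hE3 _ (q : ↥E2).2))⟩)
          le_top).symm
      have hRinj : Function.Injective ((π.comp K.subtype).comp (R : Subgroup ↥K).subtype) := by
        rw [injective_iff_map_eq_one]
        intro r hr
        have hr' : (((r : ↥K) : ↥M) : G) ∈ O' := (hπ _).1 hr
        obtain ⟨k, hk⟩ := R.isPGroup' r
        have h1 : (((r : ↥K) : ↥M) : G) ^ 3 ^ k = 1 :=
          congrArg (fun w : (R : Subgroup ↥K) => (((w : ↥K) : ↥M) : G)) hk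
        exact Subtype.ext (Subtype.ext (Subtype.ext (eq_one_of_pow_coprime
          ((show Nat.Coprime 3 4 by norm_num).pow_left k) h1 (h.pow_two_group S.isPGroup' (hO'S hr')))))
      have hRim : ∀ r : (R : Subgroup ↥K), π (((r : ↥K) : ↥M)) ∈ E2 := fun r => (r : ↥K).2
      have hRcomm : ∀ r r' : (R : Subgroup ↥K), r * r' = r' * r := fun r r' => hRinj (by
        rw [map_mul, map_mul]
        obtain ⟨i, j, e1⟩ := hRim r
        obtain ⟨k, l, e2⟩ := hRim r'
        show π ((r : ↥K) : ↥M) * π ((r' : ↥K) : ↥M) = π ((r' : ↥K) : ↥M) * π ((r : ↥K) : ↥M)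
        rw [e1, e2]
        exact ((((Commute.refl _).zpow_zpow i k).mul_right (hBy.zpow_zpow i l)).mul_left
          ((hBy.symm.zpow_zpow j k).mul_right ((Commute.refl _).zpow_zpow j l))).eq)
      have hR3 : ∀ r : (R : Subgroup ↥K), r ^ 3 = 1 := fun r => hRinj (by
        rw [map_pow, map_one]
        exact hE3 _ (hRim r))
      have hR8 : 8 ≤ Nat.card (R : Subgroup ↥K) := by
        let f : Fin 3 × Fin 3 → ↥E2 := fun ij =>
          ⟨(π yM) ^ (ij.1 : ℤ) * B ^ (ij.2 : ℤ), ⟨_, _, rfl⟩⟩
        have hB3 : B ^ 3 = 1 := hQ.exp B hBQ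
        have hB1 : B ≠ 1 := fun e'' => hBne (e'' ▸ one_mem _)
        have hf : Function.Injective f := by
          rintro ⟨i, j⟩ ⟨i', j'⟩ e''
          have e1 : (π yM) ^ (i : ℤ) * B ^ (j : ℤ) = (π yM) ^ (i' : ℤ) * B ^ (j' : ℤ) :=
            congrArg Subtype.val e''
          have e2 : B ^ ((j : ℤ) - (j' : ℤ)) ∈ Subgroup.zpowers (π yM) := by
            refine ⟨(i' : ℤ) - (i : ℤ), ?_⟩
            show (π yM) ^ ((i' : ℤ) - i) = B ^ ((j : ℤ) - j')
            rw [sub_eq_neg_add, zpow_add, zpow_sub, zpow_neg, inv_mul_eq_iff_eq_mul,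
              ← mul_assoc, e1, mul_inv_cancel_right]
          have hj : j = j' := by
            by_contra hne
            obtain ⟨o, ho⟩ : ∃ o : ℤ, B = (B ^ ((j : ℤ) - (j' : ℤ))) ^ o := by
              refine ⟨(j : ℤ) - (j' : ℤ), ?_⟩
              rw [← zpow_mul]
              have hsq : ∃ m : ℤ, ((j : ℤ) - (j' : ℤ)) * ((j : ℤ) - (j' : ℤ)) = 1 + 3 * m := by
                fin_cases j <;> fin_cases j' <;> first
                  | exact absurd rfl hne
                  | (refine ⟨0, ?_⟩; norm_num; done)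
                  | (refine ⟨1, ?_⟩; norm_num; done)
              obtain ⟨m, hm⟩ := hsq
              rw [hm, zpow_add, zpow_one, zpow_mul, show (3 : ℤ) = ((3 : ℕ) : ℤ) from rfl,
                zpow_natCast, hB3, one_zpow, mul_one]
            exact hBne (ho ▸ Subgroup.zpow_mem _ e2 o)
          subst hj
          have e3 := mul_right_cancel e1
          have hi'' : i = i' := by
            rw [zpow_natCast, zpow_natCast] at e3
            have ho3 : orderOf (π yM) = 3 := orderOf_eq_prime hY3 hY1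
            exact Fin.ext (pow_injOn_Iio_orderOf (by rw [ho3]; exact i.2) (by rw [ho3]; exact i'.2) e3)
          rw [hi'']
        have h1 := Nat.card_le_card_of_injective f hf
        rw [Nat.card_prod, Nat.card_fin] at h1
        have h2' := Nat.card_le_card_of_surjective ((π.subgroupComap E2).comp (R : Subgroup ↥K).subtype)
          (by
            intro q
            have hq : q ∈ (R : Subgroup ↥K).map (π.subgroupComap E2) := hRtop ▸ Subgroup.mem_top q
            obtain ⟨r, hr, e''⟩ := hq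
            exact ⟨⟨r, hr⟩, e''⟩)
        omega
      -- the core is elementary
      let ψ : (R : Subgroup ↥K) →* MulAut (pCore 2 ↥M) :=
        (MulAut.conjNormal).comp (K.subtype.comp (R : Subgroup ↥K).subtype)
      have hexp : ∀ o : pCore 2 ↥M, o * o = 1 := by
        refine sq_eq_one_of_le_thirtyTwo ψ hR8 hRcomm hR3 CfsgLib.Constrained.isPGroup_pCore
          (fun r hr o hfixo => ?_) ?_
        · have hr1 : (((r : ↥K) : ↥M) : G) ≠ 1 := fun e'' =>
            hr (Subtype.ext (Subtype.ext (Subtype.ext e'')))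
          have hoS : ((o : ↥M) : G) ∈ (S : Subgroup G) := hO'S ⟨o, o.2, rfl⟩
          have hc : Commute (((r : ↥K) : ↥M) : G) ((o : ↥M) : G) := mul_inv_eq_iff_eq_mul.1
            (congrArg (fun w : pCore 2 ↥M => ((w : ↥M) : G)) hfixo)
          exact Subtype.ext (Subtype.ext (h.sq_eq_one_of_commute_three
            (congrArg (fun w : (R : Subgroup ↥K) => (((w : ↥K) : ↥M) : G)) (hR3 r)) hr1
            (h.pow_two_group S.isPGroup' hoS) hc))
        · rw [← Subgroup.card_map_of_injective M.subtype_injective]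
          exact hO32
      have helem' : Elem O' := by
        have hsq : ∀ a ∈ O', a * a = 1 := by
          rintro _ ⟨w, hw, rfl⟩
          exact congrArg (fun u : pCore 2 ↥M => ((u : ↥M) : G)) (hexp ⟨w, hw⟩)
        refine ⟨fun a ha b hb => ?_, hsq⟩
        have hi : ∀ w ∈ O', w⁻¹ = w := fun w hw => inv_eq_of_mul_eq_one_right (hsq w hw)
        show a * b = b * a
        conv_lhs => rw [← hi _ (O'.mul_mem ha hb), mul_inv_rev, hi a ha, hi b hb]
      have hlt : Nat.card O' < 16 := by
        by_contra hge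
        push Not at hge
        exact hVO (huniq O' hO'S helem' (by omega) ▸ hO'O)
      -- `O' V = S`
      have hcover : ∀ s ∈ (S : Subgroup G), ∃ o ∈ O', o⁻¹ * s ∈ V := fun s hs => by
        obtain ⟨s', hs', hm⟩ := hyfix s hs
        exact ⟨_, hyS' s' hs', hm⟩
      set W := O' ⊓ V with hW
      have hrelO : V.relIndex O' = 4 := by
        have h1 : Subgroup.relIndex V (S : Subgroup G) = 4 := by
          rcases hP5.relIndex_core with ⟨e'', -⟩ | ⟨e'', -⟩
          · exfalso
            have h1 := card_inf_mul_relIndex (S : Subgroup G) V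
            rw [inf_eq_right.2 hVS, e''] at h1
            omega
          · exact e''
        rw [← h1]
        refine Nat.card_congr (Equiv.ofBijective (Quotient.map' (Subgroup.inclusion hO'S) ?_) ⟨?_, ?_⟩)
        · intro a b hab
          rw [QuotientGroup.leftRel_apply] at hab ⊢
          exact hab
        · rintro ⟨a⟩ ⟨b⟩ hab
          refine Quotient.sound' ?_
          have := Quotient.exact' hab
          rw [QuotientGroup.leftRel_apply] at this ⊢
          exact this
        · rintro ⟨s, hs⟩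
          obtain ⟨o, ho, hov⟩ := hcover s hs
          refine ⟨Quotient.mk'' ⟨o, ho⟩, Quotient.sound' ?_⟩
          rw [QuotientGroup.leftRel_apply]
          exact hov
      have hW4 : 4 ≤ Nat.card W := by
        obtain ⟨o, ho, hoV⟩ : ∃ o ∈ O', o ∉ V := by
          by_contra hall
          push Not at hall
          rw [Subgroup.relIndex_eq_one.2 (hall : O' ≤ V)] at hrelO
          omega
        have hkey : ∀ v ∈ V, o * v * o⁻¹ * v⁻¹ ∈ W := fun v hv => ⟨by
            rw [mul_assoc, mul_assoc, ← mul_assoc v]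
            exact O'.mul_mem ho (hO'n v (hSM (hVS hv)) _ (O'.inv_mem ho)),
          V.mul_mem (Par5.core_conj (hP5.le (hO'S ho)) hv) (V.inv_mem hv)⟩
        let f : ↥V →* ↥W :=
          MonoidHom.mk' (fun v => ⟨o * v * o⁻¹ * (v : G)⁻¹, hkey v v.2⟩) fun v w => Subtype.ext (by
            show o * ((v : G) * w) * o⁻¹ * ((v : G) * w)⁻¹ =
              o * v * o⁻¹ * (v : G)⁻¹ * (o * w * o⁻¹ * (w : G)⁻¹)
            have hc : Commute (v : G)⁻¹ (o * w * o⁻¹ * (w : G)⁻¹) :=
              hP5.elem.1 _ (V.inv_mem v.2) _ (hkey w w.2).2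
            rw [mul_assoc (o * (v : G) * o⁻¹), hc.eq]
            group)
        have hker : Nat.card f.ker ≤ 4 := by
          have hle : f.ker.map V.subtype ≤ V ⊓ Subgroup.centralizer {o} := by
            rintro _ ⟨v, hv, rfl⟩
            refine ⟨v.2, Subgroup.mem_centralizer_singleton_iff.2 ?_⟩
            have e'' : o * v * o⁻¹ * (v : G)⁻¹ = 1 := congrArg Subtype.val hv
            exact (mul_inv_eq_iff_eq_mul.1 (mul_inv_eq_one.1 e'')).symm
          have h1 := Subgroup.card_le_of_le hle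
          rw [Subgroup.card_map_of_injective V.subtype_injective] at h1
          have h2' := hP5.fixed_bound h o (hO'S ho) hoV
          rw [← hVdef, hV16'] at h2'
          nlinarith
        have h1 := Subgroup.card_eq_card_quotient_mul_card_subgroup f.ker
        rw [hV16', Nat.card_congr (QuotientGroup.quotientKerEquivRange f).toEquiv] at h1
        have h2' : Nat.card f.range ≤ Nat.card W := Subgroup.card_le_card_group _
        nlinarith
      have h1 := card_inf_mul_relIndex O' V
      rw [hrelO, ← hW] at h1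
      omega
    · exact hno 5 (Or.inl rfl) e'
    · exact hno 10 (Or.inr rfl) e'
    · -- `A₅` on top
      have hM60 : Nat.card M = 60 * Nat.card O' := by
        rw [Subgroup.card_eq_card_quotient_mul_card_subgroup (pCore 2 ↥M),
          Nat.card_congr e'.toEquiv, SpecFive.natCard_A5, hO'def, pCoreOf,
          Subgroup.card_map_of_injective M.subtype_injective]
      obtain ⟨j, hj, hjd, hjn⟩ := card_sylow_of_card S hSM hO'S hM60
      have hj2 : j = 2 := by
        have hjle : j ≤ 2 := by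
          by_contra hgt
          have : 2 ^ 3 ∣ 60 := (Nat.pow_dvd_pow 2 (by omega : 3 ≤ j)).trans hjd
          norm_num at this
        interval_cases j <;> first | rfl | (exfalso; exact hjn (by norm_num))
      rw [hj2] at hj
      have hcO : Nat.card O = 2 * Nat.card O' := by
        have h1 := hP3.core_eq
        rw [← hOdef] at h1
        omega
      let L := (O.subgroupOf M).map (e'.toMonoidHom.comp π)
      have hLmem : ∀ k : ↥M, (k : G) ∈ O → e' (π k) ∈ L := fun k hk => ⟨k, hk, rfl⟩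
      have hL2 : Nat.card L = 2 := by
        have hOM : O ≤ M := hOS.trans hSM
        have hker : Nat.card ((e'.toMonoidHom.comp π).comp (O.subgroupOf M).subtype).ker = Nat.card O' := by
          refine Nat.card_congr
            { toFun := fun w => ⟨((w.1 : ↥M) : G), (hπ _).1 (e'.injective (w.2.trans e'.map_one.symm))⟩
              invFun := fun o => ⟨⟨⟨o, (hO'O.trans hOM) o.2⟩, hO'O o.2⟩,
                (congrArg e' ((hπ ⟨(o : G), (hO'O.trans hOM) o.2⟩).2 o.2)).trans e'.map_one⟩
              left_inv := fun w => rfl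
              right_inv := fun o => rfl }
        have h3 := Subgroup.card_eq_card_quotient_mul_card_subgroup
          ((e'.toMonoidHom.comp π).comp (O.subgroupOf M).subtype).ker
        rw [Nat.card_congr (QuotientGroup.quotientKerEquivRange _).toEquiv, hker,
          Nat.card_congr (Subgroup.subgroupOfEquivOfLe hOM).toEquiv, MonoidHom.range_comp,
          Subgroup.range_subtype, hcO] at h3
        exact (Nat.eq_of_mul_eq_mul_right Nat.card_pos h3).symm
      have : Nontrivial L := Finite.one_lt_card_iff_nontrivial.1 (by omega)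
      obtain ⟨⟨l, hl⟩, hl1⟩ := exists_ne (1 : L)
      have hl1' : l ≠ 1 := fun e'' => hl1 (Subtype.ext e'')
      set X5 := e' (π xM) with hX5
      have hXl : X5 * l * X5⁻¹ ∈ L := by
        obtain ⟨k, hk, rfl⟩ := hl
        have h1 := hLmem (xM * k * xM⁻¹) (hOn x x.2 _ hk)
        rw [map_mul, map_mul, map_inv, map_mul, map_mul, map_inv] at h1
        exact h1
      have huniqL : ∀ m ∈ L, m ≠ 1 → m = l := by
        intro m hm hm1
        have hi := Nat.card_eq_two_iff' (α := L) 1 |>.1 hL2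
        exact congrArg Subtype.val (hi.unique (y₁ := (⟨m, hm⟩ : L)) (y₂ := ⟨l, hl⟩)
          (fun e'' => hm1 (congrArg Subtype.val e'')) hl1)
      have hcom : X5 * l = l * X5 := mul_inv_eq_iff_eq_mul.1
        (huniqL _ hXl (fun e'' => hl1' (conj_eq_one_iff.1 e'')))
      have hll : l * l = 1 := by
        have hp := pow_card_eq_one' (G := L) (x := ⟨l, hl⟩)
        rw [hL2, pow_two] at hp
        exact congrArg Subtype.val hp
      exact hl1' (a5_no_six X5 (by rw [hX5, ← map_pow, hX3, map_one])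
        (fun e'' => hX1 (e'.injective (e''.trans e'.map_one.symm))) l hll hcom)

end CfsgLib.SpecSix
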